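import Cfsg.Agent.H64.AltSylow

/-! Orbits of a Sylow 2-subgroup of a symmetric group. -/

set_option autoImplicit false
set_option linter.unusedSectionVars false

namespace Cfsg.Agent.H27.AltDec

open Equiv Equiv.Perm MulAction Cfsg.Agent.H64

variable {α : Type*} [Fintype α] [DecidableEq α] {S : Subgroup (Perm α)} {τ : Perm α}

/-- `D` is invariant under `S`. -/
def Inv (S : Subgroup (Perm α)) (D : Set α) : Prop := ∀ g ∈ S, ∀ a, g a ∈ D ↔ a ∈ D

theorem Inv.compl {D : Set α} (h : Inv S D) : Inv S Dᶜ := fun g hg a => not_congr (h g hg a)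

open Classical in
/-- restriction to an invariant set -/
noncomputable def rs {D : Set α} (h : Inv S D) : S →* Perm α :=
  MonoidHom.mk' (fun g => ofSubtype ((g : Perm α).subtypePerm (p := (· ∈ D)) (h g g.2)))
    fun a b => by rw [← map_mul]; rfl

theorem rs_mem {D : Set α} (h : Inv S D) (g : S) {a : α} (ha : a ∈ D) : rs h g a = g.1 a := by
  classical exact ofSubtype_apply_of_mem (p := (· ∈ D)) _ ha

theorem rs_not {D : Set α} (h : Inv S D) (g : S) {a : α} (ha : a ∉ D) : rs h g a = a := by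
  classical exact ofSubtype_apply_of_not_mem (p := (· ∈ D)) _ ha

theorem rs_mul_compl {D : Set α} (h : Inv S D) (g : S) : rs h g * rs h.compl g = g := by
  ext a
  by_cases ha : a ∈ D
  · rw [Perm.mul_apply, rs_not h.compl g (not_not.2 ha), rs_mem h g ha]
  · rw [Perm.mul_apply, rs_mem h.compl g ha, rs_not h g (mt (h g g.2 a).1 ha)]

theorem mem_orb {a b : α} : b ∈ orbit S a ↔ ∃ g ∈ S, g a = b :=
  ⟨fun ⟨g, h⟩ => ⟨g, g.2, h⟩, fun ⟨g, hg, h⟩ => ⟨⟨g, hg⟩, h⟩⟩

theorem orb_app {g : Perm α} (hg : g ∈ S) (a : α) : orbit S (g a) = orbit S a :=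
  orbit_smul (⟨g, hg⟩ : S) a

theorem inv_orb (a : α) : Inv S (orbit S a) := fun g hg b => by
  rw [← orbit_eq_iff, orb_app hg, orbit_eq_iff]

theorem dvd_ncard {k : ℕ} : ∀ (n : ℕ) (D : Set α), D.ncard = n → Inv S D →
    (∀ a ∈ D, k ∣ (orbit S a).ncard) → k ∣ n := by
  intro n
  induction n using Nat.strong_induction_on with
  | _ n ih =>
    rintro D rfl hD hk
    rcases D.eq_empty_or_nonempty with rfl | ⟨a, ha⟩
    · simp
    have hs : orbit S a ⊆ D := fun b hb => by
      obtain ⟨g, hg, rfl⟩ := mem_orb.1 hb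
      exact (hD g hg a).2 ha
    have h1 := Set.ncard_sdiff_add_ncard_of_subset hs
    have h2 : 0 < (orbit S a).ncard := (Set.ncard_pos).2 ⟨a, mem_orbit_self a⟩
    rw [← h1]
    exact dvd_add (ih _ (by omega) _ rfl (fun g hg b => by
      rw [Set.mem_diff, Set.mem_diff, hD g hg b, inv_orb a g hg b]) fun b hb => hk b hb.1) (hk a ha)

/-- the facts used about a Sylow 2-subgroup of the symmetric group -/
structure Ctx (S : Subgroup (Perm α)) (τ : Perm α) : Prop where
  m : IsMatching τ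
  two : IsPGroup 2 S
  comm : ∀ g ∈ S, ∀ a, g (τ a) = τ (g a)
  pair : ∀ g : Perm α, (∀ a, g a = a ∨ g a = τ a) → g ∈ S
  res : ∀ {D : Set α} (h : Inv S D) (g : S), rs h g ∈ S
  cyc : ∀ k r : ℕ, 1 ≤ r → k * 2 ^ r ≤ Fintype.card α →
    ∃ D : Set α, D.ncard = k * 2 ^ r ∧ ∀ a ∈ D, 2 ^ r ≤ (orbit S a).ncard

theorem exists_ctx (Q : Sylow 2 (Perm α)) : ∃ τ, Ctx (Q : Subgroup (Perm α)) τ := by
  obtain ⟨τ, h1, h2, h3⟩ := exists_matching Q
  refine ⟨τ, h1, Q.isPGroup', h2, h3, fun {D} h g => ?_, fun k r hr hk => ?_⟩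
  · have hn : (Q : Subgroup (Perm α)) ≤ Subgroup.normalizer ((rs h).range : Set (Perm α)) := by
      have key : ∀ x ∈ (Q : Subgroup (Perm α)), ∀ y ∈ (rs h).range, x * y * x⁻¹ ∈ (rs h).range := by
        rintro x hx _ ⟨y, rfl⟩
        refine ⟨⟨x, hx⟩ * y * ⟨x, hx⟩⁻¹, Equiv.ext fun a => ?_⟩
        by_cases ha : a ∈ D
        · rw [rs_mem h _ ha, Perm.mul_apply, Perm.mul_apply,
            rs_mem h y ((h _ (inv_mem hx) a).2 ha)]; rfl
        · rw [rs_not h _ ha, Perm.mul_apply, Perm.mul_apply,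
            rs_not h y (mt (h _ (inv_mem hx) a).1 ha)]; simp
      exact fun x hx => Subgroup.mem_set_normalizer_iff.2 fun y => ⟨key x hx y, fun hy => by
        simpa [mul_assoc] using key _ (inv_mem hx) _ hy⟩
    have h4 : IsPGroup 2 (rs h).range := Q.isPGroup'.of_surjective _ (rs h).rangeRestrict_surjective
    exact (Q.is_maximal' (Q.isPGroup'.to_sup_of_normal_right' h4 hn) le_sup_left).le
      (Subgroup.mem_sup_right ⟨g, rfl⟩)
  · have h2r : 2 ≤ 2 ^ r := by
      calc 2 = 2 ^ 1 := rfl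
        _ ≤ _ := Nat.pow_le_pow_right (by norm_num) hr
    obtain ⟨c, hc⟩ := (exists_with_cycleType_iff α (m := Multiset.replicate k (2 ^ r))).2
      ⟨by simpa using hk, fun a ha => Multiset.eq_of_mem_replicate ha ▸ h2r⟩
    have ho : orderOf c ∣ 2 ^ r := by
      rw [← lcm_cycleType, Multiset.lcm_dvd, hc]
      exact fun a ha => (Multiset.eq_of_mem_replicate ha).dvd
    obtain ⟨j, -, hj⟩ := (Nat.dvd_prime_pow Nat.prime_two).1 ho
    obtain ⟨R, hR⟩ := (IsPGroup.of_card (G := Subgroup.zpowers c)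
      (by rw [Nat.card_zpowers, hj])).exists_le_sylow
    obtain ⟨g, rfl⟩ := exists_smul_eq (Perm α) R Q
    have hc' : g * c * g⁻¹ ∈ ((g • R : Sylow 2 (Perm α)) : Subgroup (Perm α)) :=
      Subgroup.smul_mem_pointwise_smul _ _ _ (hR (Subgroup.mem_zpowers c))
    rw [← cycleType_conj (τ := g)] at hc
    generalize g * c * g⁻¹ = d at hc hc'
    refine ⟨d.support, by rw [Set.ncard_coe_finset, ← sum_cycleType, hc]; simp, fun a ha => ?_⟩
    have h5 : (d.cycleOf a).support.card = 2 ^ r := Multiset.eq_of_mem_replicate (n := k) (by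
      rw [← hc, cycleType_def]
      exact Multiset.mem_map.2 ⟨_, cycleOf_mem_cycleFactorsFinset_iff.2 ha, rfl⟩)
    rw [← h5, ← Set.ncard_coe_finset]
    refine Set.ncard_le_ncard fun b hb => ?_
    obtain ⟨i, hi⟩ := (mem_support_cycleOf_iff.1 hb).1
    exact mem_orb.2 ⟨_, zpow_mem hc' i, hi⟩

/-- the points in orbits of length at least four -/
def Gm (S : Subgroup (Perm α)) : Set α := {a | 2 < (orbit S a).ncard}

theorem inv_Gm : Inv S (Gm S) := fun g hg a => by
  simp only [Gm, Set.mem_setOf_eq, orb_app hg]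

theorem Gm_of_orb {a b : α} (ha : a ∈ Gm S) (hb : b ∈ orbit S a) : b ∈ Gm S := by
  obtain ⟨g, hg, rfl⟩ := mem_orb.1 hb
  exact (inv_Gm g hg a).2 ha

namespace Ctx

variable (h : Ctx S τ)
include h

theorem tt (a : α) : τ (τ a) = a := h.m.invol a
theorem sw (a : α) : swap a (τ a) ∈ S := h.pair _ (swap_pair τ h.m.invol a)
theorem tau_mem : τ ∈ S := h.pair _ fun _ => Or.inr rfl
theorem tau_orb {a b : α} (hb : b ∈ orbit S a) : τ b ∈ orbit S a :=
  (inv_orb a τ h.tau_mem b).2 hb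

theorem fix_of {a : α} (ha : τ a = a) {g : Perm α} (hg : g ∈ S) : g a = a :=
  h.m.fix _ _ (by rw [← h.comm g hg, ha]) ha

theorem ne_of_Gm {a : α} (ha : a ∈ Gm S) : τ a ≠ a := fun e => by
  have : (orbit S a).ncard ≤ ({a} : Set α).ncard := Set.ncard_le_ncard fun b hb => by
    obtain ⟨g, hg, rfl⟩ := mem_orb.1 hb
    exact h.fix_of e hg
  rw [Set.ncard_singleton] at this
  exact absurd ha (by simp only [Gm, Set.mem_setOf_eq]; omega)

theorem pair_of_not {a : α} (ha : a ∉ Gm S) {g : Perm α} (hg : g ∈ S) : g a = a ∨ g a = τ a := by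
  by_cases e : τ a = a
  · exact Or.inl (h.fix_of e hg)
  have := Set.eq_of_subset_of_ncard_le (s := {a, τ a}) (t := orbit S a)
    (Set.insert_subset (mem_orbit_self a) (Set.singleton_subset_iff.2
      (h.tau_orb (mem_orbit_self a)))) (by rw [Set.ncard_pair (Ne.symm e)]; exact not_lt.1 ha)
  exact this.ge (mem_orb.2 ⟨g, hg, rfl⟩)

theorem four_dvd {a : α} (ha : a ∈ Gm S) : 4 ∣ (orbit S a).ncard := by
  obtain ⟨n, hn⟩ := h.two.card_orbit a
  have h1 : 2 < (orbit S a).ncard := ha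
  rw [← Nat.card_coe_set_eq, hn] at h1 ⊢
  rcases n with _ | _ | n
  · simp at h1
  · simp at h1
  · exact Dvd.intro_left (2 ^ n) (by ring)

theorem ncard_Gm : (Gm S).ncard = 4 * (Fintype.card α / 4) := by
  obtain ⟨D, h1, h2⟩ := h.cyc (Fintype.card α / 4) 2 (by norm_num) (Nat.div_mul_le_self _ 4)
  have h3 : D.ncard ≤ (Gm S).ncard :=
    Set.ncard_le_ncard fun a ha => lt_of_lt_of_le (by norm_num) (h2 a ha)
  have h4 := dvd_ncard _ _ rfl inv_Gm fun a => h.four_dvd
  have h5 := Set.ncard_le_card (Gm S)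
  rw [Nat.card_eq_fintype_card] at h5
  omega

theorem ncard_compl : (Gm S)ᶜ.ncard = Fintype.card α % 4 := by
  rw [Set.ncard_compl, h.ncard_Gm, Nat.card_eq_fintype_card]; omega

theorem single {r : ℕ} (hn : 4 ≤ Fintype.card α) (hr : 4 * (Fintype.card α / 4) = 2 ^ r) :
    ∀ a ∈ Gm S, ∀ b ∈ Gm S, b ∈ orbit S a := by
  obtain ⟨D, h1, h2⟩ := h.cyc 1 r (by
    rcases r with _ | r
    · omega
    · omega) (by omega)
  obtain ⟨c, hc⟩ : D.Nonempty := (Set.ncard_pos).1 (by omega)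
  have h3 := h2 c hc
  have h4 : orbit S c = Gm S := Set.eq_of_subset_of_ncard_le
    (fun b hb => Gm_of_orb (show 2 < _ by omega) hb) (by rw [h.ncard_Gm]; omega)
  intro a ha b hb
  rw [orbit_eq_iff.2 (h4.ge ha), h4]
  exact hb

theorem conj_sw {g : Perm α} (hg : g ∈ S) (a : α) :
    g * swap a (τ a) * g⁻¹ = swap (g a) (τ (g a)) := by
  rw [← h.comm g hg, swap_apply_apply]

/-- an even element fixing the long orbits pointwise is trivial -/
theorem triv {g : Perm α} (hg : g ∈ S) (hs : sign g = 1) (hf : ∀ a ∈ Gm S, g a = a) : g = 1 := by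
  by_contra hne
  obtain ⟨a, ha⟩ : ∃ a, g a ≠ a := by
    by_contra! hc
    exact hne (Equiv.ext hc)
  have haG : a ∉ Gm S := fun e => ha (hf a e)
  have h1 := (h.pair_of_not haG hg).resolve_left ha
  have : g = swap a (τ a) := Equiv.ext fun b => by
    by_cases e1 : b = a
    · rw [e1, h1, swap_apply_left]
    by_cases e2 : b = τ a
    · rw [e2, h.comm g hg, h1, h.tt, swap_apply_right]
    rw [swap_apply_of_ne_of_ne e1 e2]
    by_contra hb
    have hbG : b ∉ Gm S := fun e => hb (hf b e)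
    have h2 := (h.pair_of_not hbG hg).resolve_left hb
    have h3 : ({a, τ a, b, τ b} : Set α).ncard ≤ (Gm S)ᶜ.ncard := Set.ncard_le_ncard (by
      rintro x (rfl | rfl | rfl | rfl)
      exacts [haG, mt (inv_Gm τ h.tau_mem a).1 haG, hbG, mt (inv_Gm τ h.tau_mem b).1 hbG])
    rw [h.ncard_compl, Set.ncard_insert_of_notMem, Set.ncard_insert_of_notMem,
      Set.ncard_pair (fun e => hb (h2.trans e.symm))] at h3
    · omega
    · rintro (e | e)
      exacts [e2 e.symm, e1 (τ.injective e).symm]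
    · rintro (e | e | e)
      exacts [ha (h1.trans e.symm), e1 e.symm, e2 (by rw [e, h.tt])]
  rw [this, sign_swap fun e => ha (h1.trans e.symm)] at hs
  exact absurd hs (by decide)

end Ctx

end Cfsg.Agent.H27.AltDec
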