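import Cfsg.Agent.H27.AltDec1

/-! Direct decompositions of the even part of a Sylow 2-subgroup of a symmetric group. -/

set_option autoImplicit false
set_option linter.unusedSectionVars false

namespace Cfsg.Agent.H27.AltDec

open Equiv Equiv.Perm MulAction Cfsg.Agent.H64 Subgroup

variable {α : Type*} [Fintype α] [DecidableEq α] {S A B : Subgroup (Perm α)} {τ : Perm α}

/-- `A × B` is the even part of `S`. -/
structure Dec (S A B : Subgroup (Perm α)) : Prop where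
  comm : ∀ a ∈ A, ∀ b ∈ B, a * b = b * a
  inf : A ⊓ B = ⊥
  sup : A ⊔ B = S ⊓ alternatingGroup α

theorem Dec.symm (h : Dec S A B) : Dec S B A :=
  ⟨fun b hb a ha => (h.comm a ha b hb).symm, inf_comm A B ▸ h.inf, sup_comm A B ▸ h.sup⟩

theorem Dec.mem (h : Dec S A B) {x : Perm α} (hx : x ∈ A) : x ∈ S ∧ sign x = 1 :=
  h.sup.le (mem_sup_left hx)

theorem Dec.ex (h : Dec S A B) {g : Perm α} (hg : g ∈ S) (hs : sign g = 1) :
    ∃ x ∈ A, ∃ y ∈ B, g = x * y := by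
  let K : Subgroup (Perm α) :=
    { carrier := {g | ∃ x ∈ A, ∃ y ∈ B, g = x * y}
      one_mem' := ⟨1, one_mem _, 1, one_mem _, by simp⟩
      mul_mem' := by
        rintro _ _ ⟨x, hx, y, hy, rfl⟩ ⟨x', hx', y', hy', rfl⟩
        exact ⟨_, mul_mem hx hx', _, mul_mem hy hy', by
          rw [mul_assoc, ← mul_assoc y, ← h.comm x' hx' y hy]; simp only [mul_assoc]⟩
      inv_mem' := by
        rintro _ ⟨x, hx, y, hy, rfl⟩
        exact ⟨_, inv_mem hx, _, inv_mem hy, by rw [h.comm x hx y hy, mul_inv_rev]⟩ }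
  have : A ⊔ B ≤ K := sup_le (fun x hx => ⟨x, hx, 1, one_mem _, by simp⟩)
    fun y hy => ⟨1, one_mem _, y, hy, by simp⟩
  exact this (h.sup.ge ⟨hg, hs⟩)

theorem Dec.conj (h : Dec S A B) {g x : Perm α} (hg : g ∈ S) (hs : sign g = 1) (hx : x ∈ A) :
    g * x * g⁻¹ ∈ A := by
  obtain ⟨a, ha, b, hb, rfl⟩ := h.ex hg hs
  rw [mul_assoc a, ← h.comm x hx b hb, show a * (x * b) * (a * b)⁻¹ = a * x * a⁻¹ by group]
  exact mul_mem (mul_mem ha hx) (inv_mem ha)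

/-- `v` acts on the orbit of `a` trivially or as `τ`. -/
def Ct (S : Subgroup (Perm α)) (τ v : Perm α) (a : α) : Prop :=
  (∀ b ∈ orbit S a, v b = b) ∨ ∀ b ∈ orbit S a, v b = τ b

namespace Ctx

variable (h : Ctx S τ)
include h

/-- the product of two transpositions of the matching -/
theorem vv {a b : α} (ha : τ a ≠ a) (hb : τ b ≠ b) :
    swap a (τ a) * swap b (τ b) ∈ S ∧ sign (swap a (τ a) * swap b (τ b)) = 1 :=
  ⟨mul_mem (h.sw a) (h.sw b), dt_mem_alt ha.symm hb.symm⟩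

theorem adj {g : Perm α} (hg : g ∈ S) {c : α} (hc : τ c ≠ c) : ∃ g' ∈ S, sign g' = 1 ∧
    (g' = g ∨ g' = g * swap c (τ c)) := by
  rcases Int.units_eq_one_or (sign g) with e | e
  · exact ⟨g, hg, e, Or.inl rfl⟩
  · exact ⟨_, mul_mem hg (h.sw c), by rw [map_mul, e, sign_swap hc.symm]; rfl, Or.inr rfl⟩

theorem trP (hn : 6 ≤ Fintype.card α) {a b : α} (hb : b ∈ orbit S a) :
    ∃ g ∈ S, sign g = 1 ∧ g a = b := by
  obtain ⟨g, hg, rfl⟩ := mem_orb.1 hb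
  obtain ⟨c, hc, hc'⟩ := exists_moved h.m [a, τ a] (by simp; omega)
  simp only [List.mem_cons, List.not_mem_nil, or_false, not_or] at hc
  obtain ⟨g', h1, h2, rfl | rfl⟩ := h.adj hg hc'
  · exact ⟨_, h1, h2, rfl⟩
  · exact ⟨_, h1, h2, by rw [Perm.mul_apply, swap_apply_of_ne_of_ne (Ne.symm hc.1)
      fun e => hc.2 (by rw [e, h.tt])]⟩

theorem moved {a b x : α} (hx : (swap a (τ a) * swap b (τ b)) x ≠ x) :
    x = a ∨ x = τ a ∨ x = b ∨ x = τ b := by
  by_contra! hn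
  exact hx (by rw [Perm.mul_apply, swap_apply_of_ne_of_ne hn.2.2.1 hn.2.2.2,
    swap_apply_of_ne_of_ne hn.1 hn.2.1])

theorem vv_a {a b : α} (h1 : b ≠ a) (h2 : b ≠ τ a) : (swap a (τ a) * swap b (τ b)) a = τ a := by
  rw [Perm.mul_apply, swap_apply_of_ne_of_ne h1.symm fun e => h2 (by rw [e, h.tt]),
    swap_apply_left]

theorem cent (hn : 6 ≤ Fintype.card α) {z : Perm α}
    (hz : ∀ g ∈ S, sign g = 1 → z * g = g * z) {a : α} (ha : a ∈ Gm S) (h1 : z ∈ S) :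
    Ct S τ z a := by
  have h2 : z a = a ∨ z a = τ a := by
    by_contra! hc
    obtain ⟨b, hb, hb'⟩ := exists_moved h.m [a, τ a, z a, τ (z a)] (by simp; omega)
    simp only [List.mem_cons, List.not_mem_nil, or_false, not_or] at hb
    obtain ⟨h3, h4⟩ := h.vv (h.ne_of_Gm ha) hb'
    have h5 := DFunLike.congr_fun (hz _ h3 h4) a
    rw [Perm.mul_apply, h.vv_a hb.1 hb.2.1, Perm.mul_apply] at h5
    rcases h.moved (a := a) (b := b) (x := z a) (fun e => h.ne_of_Gm ha (z.injective (h5.trans e)))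
      with e | e | e | e
    exacts [hc.1 e, hc.2 e, hb.2.2.1 e.symm, hb.2.2.2 (by rw [e, h.tt])]
  refine h2.imp (fun e b hb => ?_) fun e b hb => ?_ <;> obtain ⟨g, h3, h4, rfl⟩ := h.trP hn hb <;>
    rw [← Perm.mul_apply, hz g h3 h4, Perm.mul_apply, e]
  exact h.comm g h3 a

theorem not_single (hn : 6 ≤ Fintype.card α) (hd : Dec S A B) (hA : A ≠ ⊥) (hB : B ≠ ⊥)
    (hs : ∀ a ∈ Gm S, ∀ b ∈ Gm S, b ∈ orbit S a) : False := by
  have key : ∀ {A B : Subgroup (Perm α)}, Dec S A B → A ≠ ⊥ →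
      ∃ z ∈ A, z ≠ 1 ∧ ∀ a ∈ Gm S, z a = τ a := fun {A B} hd hA => by
    have : Nontrivial A := (nontrivial_iff_ne_bot A).2 hA
    have := (h.two.to_le fun x hx => (hd.mem (A := A) hx).1).center_nontrivial
    obtain ⟨⟨z, hz⟩, hz1⟩ := exists_ne (1 : center A)
    have h1 : (z : Perm α) ≠ 1 := fun e => hz1 (Subtype.ext (Subtype.ext e))
    refine ⟨z, z.2, h1, fun a ha => ?_⟩
    refine (h.cent hn (fun g h2 h3 => ?_) ha (hd.mem z.2).1).resolve_left (fun e => h1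
      (h.triv (hd.mem z.2).1 (hd.mem z.2).2 fun b hb => e b (hs a ha b hb))) a (mem_orbit_self a)
    obtain ⟨x, hx, y, hy, rfl⟩ := hd.ex h2 h3
    rw [← mul_assoc, ← show x * z = z * x from congrArg Subtype.val (mem_center_iff.1 hz ⟨x, hx⟩),
      mul_assoc, hd.comm z z.2 y hy, mul_assoc]
  obtain ⟨z, h1, h2, h3⟩ := key hd hA
  obtain ⟨w, h4, -, h5⟩ := key hd.symm hB
  have := h.triv (mul_mem (inv_mem (hd.symm.mem h4).1) (hd.mem h1).1)
    (by rw [map_mul, map_inv, (hd.symm.mem h4).2, (hd.mem h1).2]; rfl) fun a ha => by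
      rw [Perm.mul_apply, h3 a ha, ← h5 a ha]; simp
  exact h2 (mem_bot.1 (hd.inf.le ⟨h1, (inv_mul_eq_one.1 this) ▸ h4⟩))

/-- one of the two factors acts on a long orbit as a subgroup of `⟨τ⟩` -/
theorem dich (hn : 6 ≤ Fintype.card α) (hd : Dec S A B) {a c : α} (ha : a ∈ Gm S) (hc : τ c ≠ c)
    (hca : c ∉ orbit S a) : (∀ x ∈ A, Ct S τ x a) ∨ ∀ y ∈ B, Ct S τ y a := by
  have key : ∀ {A B : Subgroup (Perm α)}, Dec S A B → (∀ x ∈ A, x a = a ∨ x a = τ a) →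
      ∀ x ∈ A, Ct S τ x a := fun {A B} hd hA x hx => by
    have h1 : ∀ b ∈ orbit S a, ∃ y ∈ B, b = y a ∨ b = τ (y a) := fun b hb => by
      obtain ⟨g, h1, h2, rfl⟩ := h.trP hn hb
      obtain ⟨y, hy, x, hx, rfl⟩ := hd.symm.ex h1 h2
      exact ⟨y, hy, (hA x hx).imp (fun e => by rw [Perm.mul_apply, e])
        fun e => by rw [Perm.mul_apply, e, h.comm y (hd.symm.mem hy).1]⟩
    have h2 : ∀ y ∈ B, x (y a) = y (x a) := fun y hy => DFunLike.congr_fun (hd.comm x hx y hy) a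
    refine (hA x hx).imp (fun e b hb => ?_) fun e b hb => ?_ <;>
      obtain ⟨y, hy, rfl | rfl⟩ := h1 b hb
    · rw [h2 y hy, e]
    · rw [h.comm x (hd.mem hx).1, h2 y hy, e]
    · rw [h2 y hy, e, h.comm y (hd.symm.mem hy).1]
    · rw [h.comm x (hd.mem hx).1, h2 y hy, e, h.comm y (hd.symm.mem hy).1]
  by_contra! hn'
  obtain ⟨x, hx, hxa⟩ : ∃ x ∈ A, x a ≠ a ∧ x a ≠ τ a := by
    by_contra! e
    obtain ⟨x, hx, h1⟩ := hn'.1
    exact h1 (key hd (fun x hx => or_iff_not_imp_left.2 (e x hx)) x hx)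
  obtain ⟨y, hy, hya⟩ : ∃ y ∈ B, y a ≠ a ∧ y a ≠ τ a := by
    by_contra! e
    obtain ⟨x, hx, h1⟩ := hn'.2
    exact h1 (key hd.symm (fun x hx => or_iff_not_imp_left.2 (e x hx)) x hx)
  have hne := h.ne_of_Gm ha
  obtain ⟨t1, t2⟩ := h.vv hne hc
  have hx1 := (hd.mem hx).1
  have hy1 := (hd.symm.mem hy).1
  have hta := h.vv_a (a := a) (b := c) (fun e => hca (e ▸ mem_orbit_self _))
    fun e => hca (e ▸ h.tau_orb (mem_orbit_self _))
  have htb : ∀ b ∈ orbit S a, b ≠ a → b ≠ τ a → (swap a (τ a) * swap c (τ c)) b = b :=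
    fun b hb h1 h2 => by
      by_contra e
      rcases h.moved e with e | e | e | e
      exacts [h1 e, h2 e, hca (e ▸ hb), hca (by simpa [e, h.tt] using h.tau_orb hb)]
  generalize swap a (τ a) * swap c (τ c) = t at t1 t2 hta htb
  have hfix : ∀ g ∈ S, g * t = t * g → g a = a ∨ g a = τ a := fun g hg e => by
    by_contra! hn
    have : g (t a) = t (g a) := DFunLike.congr_fun e a
    rw [hta, htb _ (mem_orb.2 ⟨g, hg, rfl⟩) hn.1 hn.2] at this
    exact hne (g.injective this)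
  have o1 : y a ∈ orbit S a := mem_orb.2 ⟨y, hy1, rfl⟩
  have h6 := htb _ o1 hya.1 hya.2
  have hxy : x (y a) = a ∨ x (y a) = τ a := by
    by_contra! hn
    have h3 : t (x (t⁻¹ (y a))) = y (t (x (t⁻¹ a))) :=
      DFunLike.congr_fun (hd.comm _ (hd.conj t1 t2 hx) y hy) a
    have h4 : x (y a) = y (x a) := DFunLike.congr_fun (hd.comm x hx y hy) a
    rw [show t⁻¹ (y a) = y a from t.inv_eq_iff_eq.2 h6.symm,
      show t⁻¹ a = τ a from t.inv_eq_iff_eq.2 (by rw [h.comm t t1, hta, h.tt]), h.comm x hx1,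
      htb (τ (x a)) (h.tau_orb (mem_orb.2 ⟨x, hx1, rfl⟩))
      (fun e => hxa.2 (τ.injective (e.trans (h.tt a).symm))) (fun e => hxa.1 (τ.injective e)),
      h.comm y hy1,
      ← h4, htb _ ((inv_orb a x hx1 _).2 o1) hn.1 hn.2] at h3
    exact h.ne_of_Gm (Gm_of_orb ha ((inv_orb a x hx1 _).2 o1)) h3.symm
  obtain ⟨x₀, hx₀, y₀, hy₀, e⟩ := hd.ex t1 t2
  have c0 := hd.comm x₀ hx₀ y₀ hy₀
  have h2 := hfix y₀ (hd.symm.mem hy₀).1 (by rw [e, ← mul_assoc, c0])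
  have h3 : x₀ (y a) = y (x₀ a) := DFunLike.congr_fun (hd.comm x₀ hx₀ y hy) a
  have h4 : x (y₀ (y a)) = y₀ (x (y a)) := DFunLike.congr_fun (hd.comm x hx y₀ hy₀) (y a)
  have h5 : y₀ (y a) = y a ↔ y₀ a = a := by
    rw [← x.injective.eq_iff, h4]
    rcases hxy with e | e <;> rw [e]
    rw [h.comm y₀ (hd.symm.mem hy₀).1, τ.injective.eq_iff]
  rw [e, Perm.mul_apply] at hta h6
  rcases h2 with h2 | h2
  · rw [h5.2 h2, h3, y.injective.eq_iff] at h6
    rw [h2, h6] at hta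
    exact hne hta.symm
  · rw [h2, h.comm x₀ (hd.mem hx₀).1, τ.injective.eq_iff] at hta
    rw [← Perm.mul_apply, c0, Perm.mul_apply, h3, hta, h5, h2] at h6
    exact hne h6

/-- elements of the base group with even weight on every orbit -/
theorem mem_of_four {K : Subgroup (Perm α)}
    (hK : ∀ a ∈ Gm S, ∀ b ∈ orbit S a, b ≠ a → b ≠ τ a → swap a (τ a) * swap b (τ b) ∈ K) :
    ∀ (n : ℕ) (v : Perm α), v.support.card = n → (∀ a, v a = a ∨ (a ∈ Gm S ∧ v a = τ a)) →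
      (∀ a, 4 ∣ ({b ∈ orbit S a | v b ≠ b}).ncard) → v ∈ K := by
  intro n
  induction n using Nat.strong_induction_on with
  | _ n ih =>
    rintro v rfl h1 h2
    by_cases hv : v = 1
    · exact hv ▸ one_mem _
    obtain ⟨a, ha⟩ : ∃ a, v a ≠ a := by
      by_contra! hc
      exact hv (Equiv.ext hc)
    have hτ : ∀ b, v b ≠ b → v (τ b) = b := fun b hb => by
      have e := ((h1 b).resolve_left hb).2
      rcases h1 (τ b) with e' | e'
      · exact absurd (v.injective (e.trans e'.symm)) fun e2 => hb (e.trans e2.symm)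
      · rw [e'.2, h.tt]
    obtain ⟨haG, hva⟩ := (h1 a).resolve_left ha
    obtain ⟨b, ⟨hb, hvb⟩, hb'⟩ : ∃ b ∈ {b ∈ orbit S a | v b ≠ b}, b ∉ ({a, τ a} : Set α) :=
      Set.exists_mem_notMem_of_ncard_lt_ncard (by
        have := (Set.ncard_pos (s := {b ∈ orbit S a | v b ≠ b})).2 ⟨a, mem_orbit_self a, ha⟩
        have := Nat.le_of_dvd this (h2 a)
        rw [Set.ncard_pair (h.ne_of_Gm haG).symm]; omega)
    simp only [Set.mem_insert_iff, Set.mem_singleton_iff, not_or] at hb'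
    have hbG := Gm_of_orb haG hb
    have hvb' := ((h1 b).resolve_left hvb).2
    have n1 := h.ne_of_Gm haG
    have n2 := h.ne_of_Gm hbG
    have n3 : τ b ≠ a := fun e => hb'.2 (by rw [← e, h.tt])
    have n4 : τ b ≠ τ a := fun e => hb'.1 (τ.injective e)
    have key : ∀ x, (v * (swap a (τ a) * swap b (τ b))) x =
        if x ∈ ({a, τ a, b, τ b} : Set α) then x else v x := fun x => by
      rw [Perm.mul_apply]
      split_ifs with hx
      · rcases hx with rfl | rfl | rfl | rfl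
        · rw [h.vv_a hb'.1 hb'.2, hτ _ ha]
        · rw [Perm.mul_apply, swap_apply_of_ne_of_ne (Ne.symm hb'.2) n4.symm, swap_apply_right, hva]
        · rw [Perm.mul_apply, swap_apply_left, swap_apply_of_ne_of_ne n3 n4, hτ _ hvb]
        · rw [Perm.mul_apply, swap_apply_right, swap_apply_of_ne_of_ne hb'.1 hb'.2, hvb']
      · rw [not_not.1 (mt h.moved hx)]
    have hm : ∀ x ∈ ({a, τ a, b, τ b} : Set α), x ∈ orbit S a ∧ v x ≠ x := by
      rintro _ (rfl | rfl | rfl | rfl)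
      exacts [⟨mem_orbit_self _, ha⟩, ⟨h.tau_orb (mem_orbit_self _), by rw [hτ _ ha]; exact n1.symm⟩,
        ⟨hb, hvb⟩, ⟨h.tau_orb hb, by rw [hτ _ hvb]; exact n2.symm⟩]
    rw [← mul_mem_cancel_right (hK a haG b hb hb'.1 hb'.2)]
    refine ih _ (Finset.card_lt_card ⟨fun x hx => ?_, fun hs => ?_⟩) _ rfl (fun x => ?_) fun c => ?_
    · rw [mem_support, key] at hx
      split_ifs at hx
      exacts [absurd rfl hx, mem_support.2 hx]
    · exact mem_support.1 (hs (mem_support.2 ha)) (by rw [key, if_pos (by simp)])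
    · rw [key]
      split_ifs
      exacts [Or.inl rfl, h1 x]
    · have e : {x ∈ orbit S c | (v * (swap a (τ a) * swap b (τ b))) x ≠ x} =
          {x ∈ orbit S c | v x ≠ x} \ {a, τ a, b, τ b} := by
        ext x
        simp only [Set.mem_ofPred_eq, Set.mem_sdiff, key]
        split_ifs with hx <;> simp [hx]
      rw [e]
      by_cases hc : a ∈ orbit S c
      · have h3 := Set.ncard_sdiff_add_ncard_of_subset (s := {a, τ a, b, τ b})
          (t := {x ∈ orbit S c | v x ≠ x}) fun x hx =>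
            ⟨orbit_eq_iff.2 hc ▸ (hm x hx).1, (hm x hx).2⟩
        have h4 : ({a, τ a, b, τ b} : Set α).ncard = 4 := Set.ncard_eq_four.2
          ⟨_, _, _, _, n1.symm, Ne.symm hb'.1, n3.symm, Ne.symm hb'.2, n4.symm, n2.symm, rfl⟩
        have := h2 c
        omega
      · rw [Disjoint.sdiff_eq_left (Set.disjoint_left.2 fun x hx hx' => hc (by
          rw [← orbit_eq_iff.2 hx.1, orbit_eq_iff.2 (hm x hx').1]; exact mem_orbit_self a))]
        exact h2 c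

theorem mem_of_ct {K : Subgroup (Perm α)}
    (hK : ∀ a ∈ Gm S, ∀ b ∈ orbit S a, b ≠ a → b ≠ τ a → swap a (τ a) * swap b (τ b) ∈ K)
    {v : Perm α} (h1 : ∀ a ∉ Gm S, v a = a) (h2 : ∀ a ∈ Gm S, Ct S τ v a) : v ∈ K := by
  refine h.mem_of_four hK _ v rfl (fun a => ?_) fun a => ?_
  · by_cases ha : a ∈ Gm S
    · exact (h2 a ha).imp (fun e => e a (mem_orbit_self a)) fun e => ⟨ha, e a (mem_orbit_self a)⟩
    · exact Or.inl (h1 a ha)
  · by_cases ha : a ∈ Gm S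
    · rcases h2 a ha with e | e
      · rw [Set.sep_eq_empty_iff_mem_false.2 fun b hb => not_not.2 (e b hb)]; simp
      · rw [Set.sep_eq_self_iff_mem_true.2 fun b hb => e b hb ▸ h.ne_of_Gm (Gm_of_orb ha hb)]
        exact h.four_dvd ha
    · rw [Set.sep_eq_empty_iff_mem_false.2 fun b hb => not_not.2 (h1 b fun hb' =>
        ha (Gm_of_orb hb' (mem_orbit_symm.1 hb)))]
      simp

theorem sw_out {D : Set α} (hD : Inv S D) {b c : α} (hb : b ∈ D) (hc : c ∉ D) :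
    swap c (τ c) b = b :=
  swap_apply_of_ne_of_ne (fun e => hc (e ▸ hb)) fun e => hc ((hD τ h.tau_mem c).1 (e ▸ hb))

theorem not_multi (hn : 6 ≤ Fintype.card α) (hd : Dec S A B) (hA : A ≠ ⊥) (hB : B ≠ ⊥)
    (hs : ¬ ∀ a ∈ Gm S, ∀ b ∈ Gm S, b ∈ orbit S a) (hf : ∀ a ∉ Gm S, τ a = a) : False := by
  have hout : ∀ a, ∃ c ∈ Gm S, c ∉ orbit S a := fun a => by
    by_contra! hc
    exact hs fun b hb c hc' => by rw [orbit_eq_iff.2 (hc b hb)]; exact hc c hc'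
  have key : ∀ {A B : Subgroup (Perm α)}, Dec S A B → B ≠ ⊥ →
      ∃ a ∈ Gm S, ¬ ∀ y ∈ B, Ct S τ y a := fun {A B} hd hB => by
    by_contra! hc
    refine hB (eq_bot_iff.2 fun y hy => hd.inf.le ⟨h.mem_of_ct (fun a ha b hb _ _ => ?_)
      (fun a ha => h.fix_of (hf a ha) (hd.symm.mem hy).1) fun a ha => hc a ha y hy, hy⟩)
    obtain ⟨c, hcG, hca⟩ := hout a
    obtain ⟨g, hg, rfl⟩ := mem_orb.1 hb
    have hpk : ∀ y ∈ B, y ∈ pairKer τ h.m.invol := fun y hy x => by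
      by_cases hx : x ∈ Gm S
      · exact (hc x hx y hy).imp (fun e => e x (mem_orbit_self x)) fun e => e x (mem_orbit_self x)
      · exact Or.inl (h.fix_of (hf x hx) (hd.symm.mem hy).1)
    obtain ⟨g', h1, h2, h3⟩ := h.adj (h.res (inv_orb a) ⟨g, hg⟩) (h.ne_of_Gm hcG)
    have h4 : g' a = g a ∧ swap (g' c) (τ (g' c)) = swap c (τ c) := by
      have e1 := rs_mem (inv_orb a) ⟨g, hg⟩ (mem_orbit_self a)
      have e3 : τ c ∉ orbit S a := mt (inv_orb a τ h.tau_mem c).1 hca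
      rcases h3 with rfl | rfl
      · exact ⟨e1, by rw [rs_not _ _ hca]⟩
      · refine ⟨?_, by rw [Perm.mul_apply, swap_apply_left, rs_not _ _ e3, h.tt, swap_comm]⟩
        rw [Perm.mul_apply, h.sw_out (inv_orb a) (mem_orbit_self a) hca, e1]
    obtain ⟨t1, t2⟩ := h.vv (h.ne_of_Gm ha) (h.ne_of_Gm hcG)
    have h5 : swap a (τ a) * swap (g a) (τ (g a)) = swap a (τ a) * swap c (τ c) *
        (g' * (swap a (τ a) * swap c (τ c))⁻¹ * g'⁻¹) := by
      rw [← conj_inv, ← conj_mul, h.conj_sw h1, h.conj_sw h1, h4.1, h4.2, mul_inv_rev, swap_inv,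
        swap_inv, mul_assoc, swap_mul_self_mul]
    obtain ⟨x, hx, y, hy, e⟩ := hd.ex t1 t2
    obtain ⟨x', hx', y', hy', rfl⟩ := hd.ex h1 h2
    have h6 : y' * y = y * y' := by
      rw [← inv_eq_of_mul_eq_one_right (pairKer_sq τ h.m.invol _ (mul_mem (hpk y hy) (hpk y' hy'))),
        mul_inv_rev, inv_eq_of_mul_eq_one_right (pairKer_sq τ h.m.invol _ (hpk y hy)),
        inv_eq_of_mul_eq_one_right (pairKer_sq τ h.m.invol _ (hpk y' hy'))]
    have c1 : Commute y' (x * y)⁻¹ :=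
      (Commute.mul_right (hd.comm x hx y' hy').symm h6).inv_right
    have c2 : Commute y (x' * x⁻¹) := (hd.comm _ (mul_mem hx' (inv_mem hx)) y hy).symm
    rw [h5, e, mul_assoc x', c1.eq, show x * y * (x' * ((x * y)⁻¹ * y') * (x' * y')⁻¹) =
      x * (y * x' * y⁻¹) * x⁻¹ * x'⁻¹ by group, ← hd.comm x' hx' y hy, mul_inv_cancel_right]
    exact mul_mem (mul_mem (mul_mem hx hx') (inv_mem hx)) (inv_mem hx')
  obtain ⟨a, ha, ha'⟩ := key hd.symm hA
  obtain ⟨b, hb, hb'⟩ := key hd hB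
  have hI : Inv S {a | ∀ y ∈ B, Ct S τ y a} := fun g hg a => by
    simp only [Set.mem_ofPred_eq, Ct, orb_app hg]
  have hev : ∀ {D : Set α} (hD : Inv S D) (g : S), (∀ a ∈ Gm S, a ∈ D → Ct S τ g a) →
      sign (rs hD g) = 1 := fun {D} hD g hg => by
    refine h.mem_of_ct (K := alternatingGroup α) (fun a ha b hb _ _ => (h.vv (h.ne_of_Gm ha)
      (h.ne_of_Gm (Gm_of_orb ha hb))).2) (fun a ha => h.fix_of (hf a ha) (h.res hD g)) fun a ha => ?_
    have h1 : ∀ b ∈ orbit S a, b ∈ D ↔ a ∈ D := fun b hb => by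
      obtain ⟨k, hk, rfl⟩ := mem_orb.1 hb
      exact hD k hk a
    by_cases haD : a ∈ D
    · exact (hg a ha haD).imp (fun e b hb => (rs_mem hD g ((h1 b hb).2 haD)).trans (e b hb))
        fun e b hb => (rs_mem hD g ((h1 b hb).2 haD)).trans (e b hb)
    · exact Or.inl fun b hb => rs_not hD g (mt (h1 b hb).1 haD)
  have hdi : ∀ a ∈ Gm S, (∀ x ∈ A, Ct S τ x a) ∨ ∀ y ∈ B, Ct S τ y a := fun a ha =>
    let ⟨_, h1, h2⟩ := hout a; h.dich hn hd ha (h.ne_of_Gm h1) h2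
  have haI := (hdi a ha).resolve_left ha'
  obtain ⟨t1, t2⟩ := h.vv (h.ne_of_Gm ha) (h.ne_of_Gm hb)
  obtain ⟨x, hx, y, hy, e⟩ := hd.ex t1 t2
  have h1 : sign (rs hI ⟨x, (hd.mem hx).1⟩) = 1 := by
    have := congrArg sign (rs_mul_compl hI ⟨x, (hd.mem hx).1⟩)
    rw [map_mul, hev hI.compl _ fun c hc hc' => (hdi c hc).resolve_right hc' x hx, mul_one] at this
    exact this.trans (hd.mem hx).2
  have h2 : rs hI ⟨_, t1⟩ = swap a (τ a) := by
    rw [show (⟨_, t1⟩ : S) = ⟨_, h.sw a⟩ * ⟨_, h.sw b⟩ from rfl, map_mul]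
    refine Equiv.ext fun c => ?_
    by_cases hc : c ∈ {a | ∀ y ∈ B, Ct S τ y a}
    · rw [Perm.mul_apply, rs_mem hI _ hc, h.sw_out hI hc hb', rs_mem hI _ hc]
    · rw [Perm.mul_apply, rs_not hI _ hc, rs_not hI _ hc, h.sw_out hI.compl hc (not_not.2 haI)]
  have h3 := congrArg sign h2
  rw [show (⟨_, t1⟩ : S) = ⟨x, (hd.mem hx).1⟩ * ⟨y, (hd.symm.mem hy).1⟩ from Subtype.ext e, map_mul,
    map_mul, h1, hev hI _ fun c _ hc => hc y hy, sign_swap (h.ne_of_Gm ha).symm] at h3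
  exact absurd h3 (by decide)

theorem exists_dec {a c a₀ : α} (ha : a ∈ Gm S) (hc : c ∈ Gm S) (hca : c ∉ orbit S a)
    (h0 : a₀ ∉ Gm S) (h0' : τ a₀ ≠ a₀) : ∃ A B, A ≠ ⊥ ∧ B ≠ ⊥ ∧ Dec S A B := by
  have hsw : ∀ b ∈ Gm S, swap a₀ (τ a₀) b = b := fun b hb => h.sw_out inv_Gm hb h0
  have hne : ∀ b ∈ Gm S, swap b (τ b) * swap a₀ (τ a₀) ≠ 1 := fun b hb e => h.ne_of_Gm hb (by
    have := DFunLike.congr_fun e b
    rwa [Perm.mul_apply, hsw b hb, swap_apply_left] at this)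
  have hm : ∀ (D : Set α) (g : Perm α), g ∈ S ⊓ alternatingGroup α ⊓ fixingSubgroup (Perm α) D ↔
      (g ∈ S ∧ sign g = 1) ∧ ∀ b ∈ D, g b = b := fun D g =>
    and_congr Iff.rfl (mem_fixingSubgroup_iff _)
  refine ⟨S ⊓ alternatingGroup α ⊓ fixingSubgroup (Perm α) (Gm S \ orbit S a),
    S ⊓ alternatingGroup α ⊓ fixingSubgroup (Perm α) (orbit S a),
    fun e => hne a ha (mem_bot.1 (e.le ((hm _ _).2 ⟨h.vv (h.ne_of_Gm ha) h0', fun b hb => ?_⟩))),
    fun e => hne c hc (mem_bot.1 (e.le ((hm _ _).2 ⟨h.vv (h.ne_of_Gm hc) h0', fun b hb => ?_⟩))),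
    fun x hx y hy => Equiv.ext fun b => ?_, eq_bot_iff.2 fun g hg => ?_,
    le_antisymm (sup_le inf_le_left inf_le_left) fun g hg => ?_⟩
  · rw [Perm.mul_apply, hsw b hb.1,
      h.sw_out (inv_orb a).compl hb.2 (not_not.2 (mem_orbit_self a))]
  · rw [Perm.mul_apply, hsw b (Gm_of_orb ha hb), h.sw_out (inv_orb a) hb hca]
  · obtain ⟨⟨x1, -⟩, x2⟩ := (hm _ _).1 hx
    obtain ⟨⟨y1, -⟩, y2⟩ := (hm _ _).1 hy
    rw [Perm.mul_apply, Perm.mul_apply]
    by_cases h1 : b ∈ orbit S a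
    · rw [y2 b h1, y2 _ ((inv_orb a x x1 b).2 h1)]
    by_cases h2 : b ∈ Gm S
    · rw [x2 b ⟨h2, h1⟩, x2 _ ⟨(inv_Gm y y1 b).2 h2, mt (inv_orb a y y1 b).1 h1⟩]
    rcases h.pair_of_not h2 x1 with e | e <;> rcases h.pair_of_not h2 y1 with e' | e' <;>
      simp [e, e', h.comm x x1, h.comm y y1]
  · obtain ⟨⟨x1, x2⟩, x3⟩ := (hm _ _).1 hg.1
    refine h.triv x1 x2 fun b hb => ?_
    by_cases h1 : b ∈ orbit S a
    exacts [((hm _ _).1 hg.2).2 b h1, x3 b ⟨hb, h1⟩]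
  · obtain ⟨g', h1, h2, h3⟩ := h.adj (h.res (inv_orb a) ⟨g, hg.1⟩) h0'
    have h4 : ∀ b ∈ Gm S, g' b = rs (inv_orb a) ⟨g, hg.1⟩ b := fun b hb => by
      rcases h3 with rfl | rfl
      exacts [rfl, by rw [Perm.mul_apply, hsw b hb]]
    rw [← mul_inv_cancel_left g' g]
    refine mul_mem (mem_sup_left ((hm _ _).2 ⟨⟨h1, h2⟩, fun b hb => ?_⟩))
      (mem_sup_right ((hm _ _).2 ⟨⟨mul_mem (inv_mem h1) hg.1, ?_⟩, fun b hb => ?_⟩))
    · rw [h4 b hb.1, rs_not _ _ hb.2]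
    · rw [map_mul, map_inv, h2, show sign g = 1 from hg.2]; rfl
    · rw [Perm.mul_apply, g'.inv_eq_iff_eq, h4 b (Gm_of_orb ha hb), rs_mem _ _ hb]

end Ctx

end Cfsg.Agent.H27.AltDec
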