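import Mathlib

/-! Counting derangements in transitive and doubly transitive groups. -/

set_option autoImplicit false
set_option linter.unusedSectionVars false

namespace Cfsg.Agent.H27.Der

open Finset MulAction
open scoped Classical

section orb
variable {K X : Type*} [Group K] [Fintype K] [MulAction K X] [Fintype X]

/-- The orbit as a finite set. -/
noncomputable def orb (K : Type*) [Group K] [MulAction K X] (p : X) : Finset X :=
  univ.filter fun q => ∃ k : K, k • p = q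

theorem mem_orb {p q : X} : q ∈ orb K p ↔ ∃ k : K, k • p = q := by simp [orb]

/-- The order of a stabiliser. -/
noncomputable def st (K : Type*) [Group K] [Fintype K] [MulAction K X] (p : X) : ℕ :=
  (univ.filter fun k : K => k • p = p).card

theorem orb_mul_st (p : X) : (orb K p).card * st K p = Fintype.card K := by
  rw [← card_orbit_mul_card_stabilizer_eq_card_group K p]
  congr 1
  · rw [← Fintype.card_coe]
    exact Fintype.card_congr (Equiv.subtypeEquivRight fun q => by simp [orb, mem_orbit_iff])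
  · rw [st, ← Fintype.card_subtype]
    exact Fintype.card_congr (Equiv.subtypeEquivRight fun q => by simp)

theorem self_mem_orb (p : X) : p ∈ orb K p := mem_orb.2 ⟨1, one_smul _ _⟩

theorem orb_eq {p q : X} (h : q ∈ orb K p) : orb K q = orb K p := by
  obtain ⟨k, rfl⟩ := mem_orb.1 h
  ext r
  simp only [mem_orb]
  exact ⟨fun ⟨g, e⟩ => ⟨g * k, by rw [mul_smul, e]⟩,
    fun ⟨g, e⟩ => ⟨g * k⁻¹, by rw [mul_smul, inv_smul_smul, e]⟩⟩

theorem disj_orb {p q : X} (h : q ∉ orb K p) : Disjoint (orb K p) (orb K q) :=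
  disjoint_left.2 fun r h1 h2 => h (by rw [← orb_eq h1, orb_eq h2]; exact self_mem_orb q)

theorem sum_orb (p : X) : ∑ q ∈ orb K p, st K q = Fintype.card K := by
  refine Nat.eq_of_mul_eq_mul_left (card_pos.2 ⟨p, self_mem_orb (K := K) p⟩) ?_
  rw [mul_sum, sum_congr rfl fun q hq => (by rw [← orb_eq hq, orb_mul_st] :
    (orb K p).card * st K q = Fintype.card K)]
  simp

theorem two_st_le {p : X} {k : K} (h : k • p ≠ p) : 2 * st K p ≤ Fintype.card K := by
  rw [← orb_mul_st (K := K) p]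
  exact Nat.mul_le_mul_right _ (one_lt_card.2 ⟨_, mem_orb.2 ⟨k, rfl⟩, _, self_mem_orb p, h⟩)

end orb

variable {G Ω : Type*} [Group G] [Fintype G] [MulAction G Ω] [Fintype Ω]

/-- The number of fixed points. -/
noncomputable def fx (Ω : Type*) [Fintype Ω] [MulAction G Ω] (g : G) : ℕ :=
  (univ.filter fun x : Ω => g • x = x).card

/-- The number of derangements. -/
noncomputable def dn (G Ω : Type*) [Group G] [Fintype G] [MulAction G Ω] : ℕ :=
  (univ.filter fun g : G => ∀ x : Ω, g • x ≠ x).card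

/-- The two point stabiliser. -/
def St (G : Type*) [Group G] [MulAction G Ω] (a b : Ω) : Subgroup G :=
  stabilizer G a ⊓ stabilizer G b

theorem mem_St {a b : Ω} {g : G} : g ∈ St G a b ↔ g • a = a ∧ g • b = b := Iff.rfl

theorem fx_one : fx Ω (1 : G) = Fintype.card Ω := by simp [fx]

theorem fx_le (g : G) : fx Ω g ≤ Fintype.card Ω := card_le_univ _

theorem fx_conj (g h : G) : fx Ω (g * h * g⁻¹) = fx Ω h := by
  symm
  refine card_bij (fun x _ => g • x) (fun x hx => ?_) (fun x _ y _ e => smul_left_cancel g e)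
    fun y hy => ⟨g⁻¹ • y, ?_, smul_inv_smul g y⟩
  · simp only [mem_filter, mem_univ, true_and] at hx ⊢
    rw [mul_smul, mul_smul, inv_smul_smul, hx]
  · simp only [mem_filter, mem_univ, true_and, mul_smul] at hy ⊢
    rw [eq_inv_smul_iff, hy]

theorem sum_fx {K : Type*} [Group K] [Fintype K] [MulAction K Ω] :
    ∑ k : K, fx Ω k = ∑ x : Ω, st K x := by
  simp only [fx, st, card_filter]
  exact sum_comm

theorem sum_fx_trans [IsPretransitive G Ω] (a : Ω) : ∑ g : G, fx Ω g = Fintype.card G := by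
  rw [sum_fx, ← sum_orb (K := G) a]
  exact sum_congr (by ext x; simpa [mem_orb] using exists_smul_eq G a x) fun _ _ => rfl

theorem sum_pairs (F : G → ℚ) : ∑ g : G, F g * (fx Ω g * (fx Ω g - 1)) =
    ∑ p ∈ (univ : Finset Ω).offDiag, ∑ g : St G p.1 p.2, F g := by
  have h1 : ∀ p : Ω × Ω, ∑ g : St G p.1 p.2, F g =
      ∑ g : G, if g • p.1 = p.1 ∧ g • p.2 = p.2 then F g else 0 := fun p => by
    rw [← sum_filter]
    exact (sum_subtype _ (fun g => by simp [mem_St]) F).symm
  simp only [h1]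
  rw [sum_comm]
  refine sum_congr rfl fun g _ => ?_
  rw [← sum_filter, sum_const, nsmul_eq_mul, mul_comm]
  congr 1
  have : (univ : Finset Ω).offDiag.filter (fun p => g • p.1 = p.1 ∧ g • p.2 = p.2) =
      (univ.filter fun x : Ω => g • x = x).offDiag := by
    ext p; simp only [mem_filter, mem_offDiag, mem_univ, true_and]; tauto
  rw [this, offDiag_card, Nat.cast_sub (Nat.le_mul_self _), fx]
  push_cast; ring

theorem dn_eq : (dn G Ω : ℚ) = ∑ g : G, if fx Ω g = 0 then 1 else 0 := by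
  rw [sum_boole, dn]
  congr 2
  ext g
  simp [fx, filter_eq_empty_iff]

/-- The bound of Cameron and Cohen in rank at least three. -/
theorem rank_three [IsPretransitive G Ω] {a b c d : Ω} (hab : a ≠ b) (hcd : c ≠ d)
    (h : ∀ g : G, g • a = c → g • b ≠ d) : 2 * Fintype.card G ≤ Fintype.card Ω * dn G Ω := by
  have h1 : 2 * Fintype.card G ≤ ∑ p ∈ (univ : Finset Ω).offDiag, st G p := by
    have hd : Disjoint (orb G (a, b)) (orb G (c, d)) := disj_orb fun hm => by
      obtain ⟨g, e⟩ := mem_orb.1 hm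
      exact h g (congrArg Prod.fst e) (congrArg Prod.snd e)
    rw [two_mul]
    nth_rewrite 1 [← sum_orb (K := G) (a, b)]
    rw [← sum_orb (K := G) (c, d), ← sum_union hd]
    refine sum_le_sum_of_subset fun p hp => ?_
    rcases mem_union.1 hp with hp | hp <;> obtain ⟨g, rfl⟩ := mem_orb.1 hp <;> simpa
  have h2 := sum_pairs (Ω := Ω) fun _ : G => 1
  have h3 : ∀ p : Ω × Ω, ∑ _g : St G p.1 p.2, (1 : ℚ) = st G p := fun p => by
    rw [sum_const, card_univ, nsmul_eq_mul, mul_one, st, ← Fintype.card_subtype]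
    exact congrArg _ (Fintype.card_congr (Equiv.subtypeEquivRight fun g => by
      simp [mem_St, Prod.ext_iff]))
  simp only [h3, one_mul] at h2
  have h4 : ∑ g : G, (fx Ω g : ℚ) = Fintype.card G := by exact_mod_cast sum_fx_trans a
  have h5 : ∑ g : G, ((fx Ω g : ℚ) * (fx Ω g - 1) - Fintype.card Ω * (fx Ω g - 1)) ≤
      ∑ g : G, (Fintype.card Ω : ℚ) * if fx Ω g = 0 then 1 else 0 := sum_le_sum fun g _ => by
    split_ifs with h0
    · simp [h0]
    · have a1 : (1 : ℚ) ≤ fx Ω g := by exact_mod_cast Nat.one_le_iff_ne_zero.2 h0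
      have a2 : (fx Ω g : ℚ) ≤ Fintype.card Ω := by exact_mod_cast fx_le g
      nlinarith
  rw [sum_sub_distrib, ← mul_sum, ← mul_sum, ← dn_eq, sum_sub_distrib, h4, h2] at h5
  simp only [sum_const, card_univ, nsmul_eq_mul, mul_one, sub_self, mul_zero, sub_zero] at h5
  exact_mod_cast (show ((2 * Fintype.card G : ℕ) : ℚ) ≤ _ from (by exact_mod_cast h1 : _ ≤
    ∑ p ∈ (univ : Finset Ω).offDiag, (st G p : ℚ)).trans h5)

/-- Double transitivity. -/
def T2 (G Ω : Type*) [Group G] [MulAction G Ω] : Prop :=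
  ∀ a b c d : Ω, a ≠ b → c ≠ d → ∃ g : G, g • a = c ∧ g • b = d

theorem T2.sum_eq (h : T2 G Ω) (F : ℕ → ℚ) {a b c d : Ω} (hab : a ≠ b) (hcd : c ≠ d) :
    ∑ g : St G c d, F (fx Ω (g : G)) = ∑ g : St G a b, F (fx Ω (g : G)) := by
  obtain ⟨g, rfl, rfl⟩ := h a b c d hab hcd
  symm
  refine Fintype.sum_bijective (fun k => ⟨g * k * g⁻¹, by
    simp [mem_St, mul_smul, (mem_St.1 k.2).1, (mem_St.1 k.2).2]⟩)
    ⟨fun k k' e => ?_, fun k => ?_⟩ _ _ fun k => congrArg F (fx_conj g k).symm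
  · simpa using e
  · refine ⟨⟨g⁻¹ * k * g, ?_⟩, Subtype.ext (by simp [mul_assoc])⟩
    simp [mem_St, mul_smul, (mem_St.1 k.2).1, (mem_St.1 k.2).2]

theorem T2.card_St (h : T2 G Ω) {a b c d : Ω} (hab : a ≠ b) (hcd : c ≠ d) :
    Fintype.card (St G c d) = Fintype.card (St G a b) := by
  simpa using h.sum_eq (fun _ => 1) hab hcd

theorem T2.sum_all (h : T2 G Ω) (F : ℕ → ℚ) {a b : Ω} (hab : a ≠ b) :
    ∑ g : G, F (fx Ω g) * (fx Ω g * (fx Ω g - 1)) =
      Fintype.card Ω * (Fintype.card Ω - 1) * ∑ g : St G a b, F (fx Ω (g : G)) := by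
  rw [sum_pairs, sum_congr rfl fun p hp => h.sum_eq F hab (mem_offDiag.1 hp).2.2, sum_const,
    offDiag_card, card_univ, nsmul_eq_mul, Nat.cast_sub (Nat.le_mul_self _)]
  push_cast; ring

theorem T2.card_G (h : T2 G Ω) {a b : Ω} (hab : a ≠ b) : (Fintype.card G : ℚ) =
    Fintype.card Ω * (Fintype.card Ω - 1) * Fintype.card (St G a b) := by
  have h1 := orb_mul_st (K := G) (a, b)
  have h2 : orb G (a, b) = (univ : Finset Ω).offDiag := by
    ext p
    simp only [mem_orb, mem_offDiag, mem_univ, true_and]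
    refine ⟨by rintro ⟨g, rfl⟩; simpa, fun hp => ?_⟩
    obtain ⟨g, e1, e2⟩ := h a b p.1 p.2 hab hp
    exact ⟨g, Prod.ext e1 e2⟩
  have h3 : st G (a, b) = Fintype.card (St G a b) := by
    rw [st, ← Fintype.card_subtype]
    exact Fintype.card_congr (Equiv.subtypeEquivRight fun g => by simp [mem_St])
  rw [← h1, h2, h3, offDiag_card, card_univ]
  push_cast [Nat.cast_sub (Nat.le_mul_self _)]; ring

theorem T2.dn_eq [IsPretransitive G Ω] (h : T2 G Ω) {a b : Ω} (hab : a ≠ b) : (dn G Ω : ℚ) =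
    Fintype.card Ω * (Fintype.card Ω - 1) * ∑ g : St G a b, (fx Ω (g : G) : ℚ)⁻¹ := by
  rw [← h.sum_all (fun m => (m : ℚ)⁻¹) hab, Der.dn_eq, ← sub_eq_zero, ← sum_sub_distrib]
  have h4 : ∑ g : G, (fx Ω g : ℚ) = Fintype.card G := by exact_mod_cast sum_fx_trans a
  rw [sum_congr rfl fun g _ => (?_ : _ = 1 - (fx Ω g : ℚ)), sum_sub_distrib, h4]
  · simp
  · split_ifs with h0
    · simp [h0]
    · have : (fx Ω g : ℚ) ≠ 0 := by exact_mod_cast h0
      field_simp; ring

/-- The goal. -/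
def Goal (G Ω : Type*) [Group G] [Fintype G] [MulAction G Ω] [Fintype Ω] : Prop :=
  2 * Fintype.card G ≤ Fintype.card Ω * dn G Ω

theorem fx_pos {a b : Ω} (g : St G a b) : (0 : ℚ) < fx Ω (g : G) := by
  exact_mod_cast card_pos.2 ⟨a, by simpa using (mem_St.1 g.2).1⟩

theorem T2.crit [IsPretransitive G Ω] (h : T2 G Ω) {a b : Ω} (hab : a ≠ b)
    (H : (2 * Fintype.card (St G a b) - 1 : ℚ) ≤
      Fintype.card Ω * ∑ g ∈ univ.erase (1 : St G a b), (fx Ω (g : G) : ℚ)⁻¹) : Goal G Ω := by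
  have hn : (1 : ℚ) ≤ Fintype.card Ω := by exact_mod_cast Fintype.card_pos_iff.2 ⟨a⟩
  have : ((2 * Fintype.card G : ℕ) : ℚ) ≤ (Fintype.card Ω * dn G Ω : ℕ) := by
    push_cast
    rw [h.dn_eq hab, h.card_G hab, ← add_sum_erase _ _ (mem_univ (1 : St G a b)),
      OneMemClass.coe_one, fx_one]
    have e : (Fintype.card Ω : ℚ) * (Fintype.card Ω : ℚ)⁻¹ = 1 := mul_inv_cancel₀ (by positivity)
    have := mul_le_mul_of_nonneg_left H (show (0 : ℚ) ≤ Fintype.card Ω * (Fintype.card Ω - 1) by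
      nlinarith)
    generalize ∑ g ∈ univ.erase (1 : St G a b), (fx Ω (g : G) : ℚ)⁻¹ = T at this ⊢
    generalize (Fintype.card (St G a b) : ℚ) = N at this ⊢
    generalize (Fintype.card Ω : ℚ) = n at this e ⊢
    linear_combination this - n * (n - 1) * e
  exact_mod_cast this

theorem T2.critB [IsPretransitive G Ω] (h : T2 G Ω) {a b : Ω} (hab : a ≠ b) {m : ℚ} (hm0 : 0 < m)
    (hm : ∀ g ∈ St G a b, g ≠ 1 → (fx Ω g : ℚ) ≤ m)
    (H : (2 * Fintype.card (St G a b) - 1) * m ≤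
      Fintype.card Ω * (Fintype.card (St G a b) - 1 : ℚ)) : Goal G Ω := by
  refine h.crit hab ?_
  have h1 : ∑ _g ∈ univ.erase (1 : St G a b), m⁻¹ ≤
      ∑ g ∈ univ.erase (1 : St G a b), (fx Ω (g : G) : ℚ)⁻¹ := sum_le_sum fun g hg =>
    inv_anti₀ (fx_pos g) (hm g g.2 fun e => (mem_erase.1 hg).1 (Subtype.ext e))
  rw [sum_const, card_erase_of_mem (mem_univ _), card_univ, nsmul_eq_mul,
    Nat.cast_sub Fintype.card_pos, Nat.cast_one] at h1
  refine le_trans ?_ (mul_le_mul_of_nonneg_left h1 (by positivity))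
  rw [← mul_assoc, le_mul_inv_iff₀ hm0]
  exact H

theorem T2.critJ [IsPretransitive G Ω] (h : T2 G Ω) {a b : Ω} (hab : a ≠ b)
    (hN : 2 ≤ Fintype.card (St G a b)) {e : ℚ}
    (hT : 2 * ∑ x : Ω, (st (St G a b) x : ℚ) ≤ (Fintype.card Ω + e) * Fintype.card (St G a b))
    (H : (2 * Fintype.card (St G a b) - 1) * e ≤ Fintype.card Ω) : Goal G Ω := by
  refine h.crit hab ?_
  have h1 := sq_sum_div_le_sum_sq_div (univ.erase (1 : St G a b)) (fun _ => (1 : ℚ))
    (g := fun g => (fx Ω (g : G) : ℚ)) fun g _ => fx_pos g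
  simp only [one_pow, one_div] at h1
  rw [sum_const, card_erase_of_mem (mem_univ _), card_univ, nsmul_eq_mul,
    Nat.cast_sub Fintype.card_pos, Nat.cast_one, mul_one] at h1
  have h2 : ∑ g : St G a b, (fx Ω (g : G) : ℚ) = ∑ x : Ω, (st (St G a b) x : ℚ) := by
    exact_mod_cast sum_fx (K := St G a b) (Ω := Ω)
  rw [← h2, ← add_sum_erase _ _ (mem_univ (1 : St G a b)), OneMemClass.coe_one, fx_one] at hT
  have h3 : 0 < ∑ g ∈ univ.erase (1 : St G a b), (fx Ω (g : G) : ℚ) :=
    sum_pos (fun g _ => fx_pos g) (card_pos.1 (by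
      rw [card_erase_of_mem (mem_univ _), card_univ]; omega))
  refine le_trans ?_ (mul_le_mul_of_nonneg_left h1 (by positivity))
  rw [← mul_div_assoc, le_div_iff₀ h3]
  have hN' : (2 : ℚ) ≤ Fintype.card (St G a b) := by exact_mod_cast hN
  generalize ∑ g ∈ univ.erase (1 : St G a b), (fx Ω (g : G) : ℚ) = T at hT ⊢
  generalize (Fintype.card (St G a b) : ℚ) = N at hT hN' H ⊢
  generalize (Fintype.card Ω : ℚ) = n at hT H ⊢
  have a1 := mul_le_mul_of_nonneg_left hT (show 0 ≤ 2 * N - 1 by linarith)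
  have a2 := mul_le_mul_of_nonneg_left H (show 0 ≤ N by linarith)
  nlinarith

end Cfsg.Agent.H27.Der
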