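import Cfsg.Agent.H27.Der1

/-! Derangements in doubly transitive groups: lines of fixed points of two point stabilisers. -/

set_option autoImplicit false
set_option linter.unusedSectionVars false

namespace Cfsg.Agent.H27.Der

open Finset MulAction
open scoped Classical

variable {G Ω : Type*} [Group G] [Fintype G] [MulAction G Ω] [Fintype Ω]

/-- The points fixed by the stabiliser of `a` and `b`. -/
noncomputable def ln (G : Type*) [Group G] [MulAction G Ω] (a b : Ω) : Finset Ω :=
  univ.filter fun x => ∀ g : G, g • a = a → g • b = b → g • x = x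

theorem mem_ln {a b x : Ω} : x ∈ ln G a b ↔ ∀ g : G, g • a = a → g • b = b → g • x = x := by
  simp [ln]

theorem left_mem_ln (a b : Ω) : a ∈ ln G a b := mem_ln.2 fun _ h _ => h

theorem right_mem_ln (a b : Ω) : b ∈ ln G a b := mem_ln.2 fun _ _ h => h

theorem ln_comm (a b : Ω) : ln G a b = ln G b a := by
  ext x; simp only [mem_ln]; exact ⟨fun h g h1 h2 => h g h2 h1, fun h g h1 h2 => h g h2 h1⟩

theorem smul_mem_ln {a b x : Ω} (g : G) (h : x ∈ ln G a b) : g • x ∈ ln G (g • a) (g • b) :=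
  mem_ln.2 fun k h1 h2 => by
    have := mem_ln.1 h (g⁻¹ * k * g) (by simp [mul_smul, h1]) (by simp [mul_smul, h2])
    rwa [mul_smul, mul_smul, inv_smul_eq_iff] at this

theorem T2.card_ln (h : T2 G Ω) {a b c d : Ω} (hab : a ≠ b) (hcd : c ≠ d) :
    (ln G c d).card = (ln G a b).card := by
  obtain ⟨g, rfl, rfl⟩ := h a b c d hab hcd
  symm
  exact card_bij (fun x _ => g • x) (fun x hx => smul_mem_ln g hx)
    (fun x _ y _ e => smul_left_cancel g e)
    fun y hy => ⟨g⁻¹ • y, by simpa using smul_mem_ln g⁻¹ hy, smul_inv_smul g y⟩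

theorem T2.ln_eq (h : T2 G Ω) {a b x : Ω} (hab : a ≠ b) (hx : x ∈ ln G a b) (hxa : x ≠ a) :
    ln G a x = ln G a b := by
  have : St G a b = St G a x := Subgroup.eq_of_le_of_card_ge
    (fun g hg => ⟨hg.1, mem_ln.1 hx g hg.1 hg.2⟩) (by
      rw [Nat.card_eq_fintype_card, Nat.card_eq_fintype_card, h.card_St hab hxa.symm])
  ext y
  simp only [mem_ln]
  refine ⟨fun k g h1 h2 => k g h1 (mem_ln.1 hx g h1 h2), fun k g h1 h2 => k g h1 ?_⟩
  have hg : g ∈ St G a b := this ▸ mem_St.2 ⟨h1, h2⟩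
  exact hg.2

theorem T2.sub_bound (h : T2 G Ω) {a b c : Ω} (hab : a ≠ b) (A : Finset Ω) (hc : c ∉ A)
    (hA : ∀ s ∈ A, ∀ s' ∈ A, s' ∈ ln G c s → s = s') :
    ((ln G a b).card - 1) * A.card ≤ Fintype.card Ω - 1 := by
  have hne : ∀ s ∈ A, c ≠ s := fun s hs e => hc (e ▸ hs)
  have h1 : (A.biUnion fun s => (ln G c s).erase c).card = ∑ s ∈ A, ((ln G c s).erase c).card :=
    card_biUnion fun s hs s' hs' e => disjoint_left.2 fun y h1 h2 => e (hA s hs s' hs' (by
      rw [← h.ln_eq (hne s hs) (mem_erase.1 h1).2 (mem_erase.1 h1).1,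
        h.ln_eq (hne s' hs') (mem_erase.1 h2).2 (mem_erase.1 h2).1]
      exact right_mem_ln _ _))
  rw [sum_congr rfl fun s hs => (by rw [card_erase_of_mem (left_mem_ln _ _),
    h.card_ln hab (hne s hs)] : _ = (ln G a b).card - 1), sum_const, smul_eq_mul, mul_comm] at h1
  rw [← h1, ← card_univ, ← card_erase_of_mem (mem_univ c)]
  refine card_le_card fun y hy => ?_
  obtain ⟨s, -, hs⟩ := mem_biUnion.1 hy
  exact mem_erase.2 ⟨(mem_erase.1 hs).1, mem_univ _⟩

theorem T2.fix_line (h : T2 G Ω) {g : G} {c s s' : Ω} (hc : g • c ≠ c) (hs : g • s = s)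
    (hs' : g • s' = s') (hm : s' ∈ ln G c s) : s = s' := by
  by_contra hne
  have hcs : s ≠ c := fun e => hc (e ▸ hs)
  rw [ln_comm] at hm
  have := left_mem_ln (G := G) c s
  rw [ln_comm, ← h.ln_eq hcs hm (Ne.symm hne)] at this
  exact hc (mem_ln.1 this g hs hs')

theorem T2.fx_bound (h : T2 G Ω) {a b c : Ω} (hab : a ≠ b) {g : G} (hc : g • c ≠ c) :
    ((ln G a b).card - 1) * fx Ω g ≤ Fintype.card Ω - 1 :=
  h.sub_bound hab _ (c := c) (by simpa using hc) fun s hs s' hs' hm =>
    h.fix_line hc (by simpa using hs) (by simpa using hs') hm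

theorem sum_st_le {a b : Ω} (A : Finset Ω) (hA : Disjoint (ln G a b) A) :
    2 * ∑ x : Ω, (st (St G a b) x : ℚ) ≤
      (Fintype.card Ω + (ln G a b).card - A.card) * Fintype.card (St G a b) +
        2 * ∑ x ∈ A, (st (St G a b) x : ℚ) := by
  have h1 : ∑ x : Ω, (2 * st (St G a b) x - Fintype.card (St G a b) : ℚ) ≤
      ∑ x ∈ ln G a b ∪ A, (2 * st (St G a b) x - Fintype.card (St G a b) : ℚ) := by
    rw [← sum_sdiff (subset_univ (ln G a b ∪ A)), add_le_iff_nonpos_left]
    refine sum_nonpos fun x hx => ?_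
    have : x ∉ ln G a b := fun k => (mem_sdiff.1 hx).2 (mem_union_left _ k)
    rw [mem_ln] at this
    push Not at this
    obtain ⟨g, h1, h2, h3⟩ := this
    have := two_st_le (K := St G a b) (k := ⟨g, h1, h2⟩) h3
    rw [sub_nonpos]; exact_mod_cast this
  have h2 : ∑ x ∈ ln G a b, (2 * st (St G a b) x - Fintype.card (St G a b) : ℚ) ≤
      ∑ _x ∈ ln G a b, (Fintype.card (St G a b) : ℚ) := sum_le_sum fun x _ => by
    have : (st (St G a b) x : ℚ) ≤ Fintype.card (St G a b) := by exact_mod_cast card_le_univ _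
    linarith
  rw [sum_union hA] at h1
  simp only [sum_sub_distrib, ← mul_sum, sum_const, card_univ, nsmul_eq_mul] at h1 h2
  linarith

theorem disj_ln {a b x : Ω} (hx : 2 ≤ (orb (St G a b) x).card) :
    Disjoint (ln G a b) (orb (St G a b) x) := disjoint_left.2 fun y h1 h2 => by
  rw [← orb_eq h2] at hx
  have : orb (St G a b) y ⊆ {y} := fun z hz => by
    obtain ⟨k, rfl⟩ := mem_orb.1 hz
    exact mem_singleton.2 (mem_ln.1 h1 k k.2.1 k.2.2)
  have := card_le_card this
  simp at this; omega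

/-- One orbit of length at least four or two orbits of length at least three. -/
def Big (G : Type*) [Group G] [MulAction G Ω] (a b : Ω) : Prop :=
  (∃ x : Ω, 4 ≤ (orb (St G a b) x).card) ∨ ∃ x y : Ω, 3 ≤ (orb (St G a b) x).card ∧
    3 ≤ (orb (St G a b) y).card ∧ y ∉ orb (St G a b) x

theorem Big.bound {a b : Ω} (h : Big G a b) : 2 * ∑ x : Ω, (st (St G a b) x : ℚ) ≤
    (Fintype.card Ω + ((ln G a b).card - 2)) * Fintype.card (St G a b) := by
  have so : ∀ x : Ω, ∑ q ∈ orb (St G a b) x, (st (St G a b) q : ℚ) = Fintype.card (St G a b) :=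
    fun x => by exact_mod_cast sum_orb x
  have hN : (0 : ℚ) ≤ Fintype.card (St G a b) := by positivity
  rcases h with ⟨x, hx⟩ | ⟨x, y, hx, hy, hxy⟩
  · have := sum_st_le _ (disj_ln (G := G) (a := a) (b := b) (x := x) (by omega))
    have h4 : (4 : ℚ) ≤ (orb (St G a b) x).card := by exact_mod_cast hx
    rw [so] at this
    nlinarith
  · have := sum_st_le (G := G) (a := a) (b := b) (orb (St G a b) x ∪ orb (St G a b) y)
      (disjoint_union_right.2 ⟨disj_ln (by omega), disj_ln (by omega)⟩)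
    rw [sum_union (disj_orb hxy), so, so, card_union_of_disjoint (disj_orb hxy)] at this
    have h3 : (3 : ℚ) ≤ (orb (St G a b) x).card := by exact_mod_cast hx
    have h4 : (3 : ℚ) ≤ (orb (St G a b) y).card := by exact_mod_cast hy
    push_cast at this
    nlinarith

/-- The orbit of `x` under the stabiliser of `a` and `b` has at most two points. -/
def Small (G : Type*) [Group G] [MulAction G Ω] (a b x : Ω) : Prop :=
  ∀ h ∈ St G a b, ∀ k ∈ St G a b, h • x ≠ x → k • x ≠ x → h • x = k • x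

theorem three_le {a b x : Ω} (h : ¬ Small G a b x) : 3 ≤ (orb (St G a b) x).card := by
  unfold Small at h
  push Not at h
  obtain ⟨g, hg, k, hk, h1, h2, h3⟩ := h
  exact two_lt_card_iff.2 ⟨x, _, _, self_mem_orb x, mem_orb.2 ⟨⟨g, hg⟩, rfl⟩,
    mem_orb.2 ⟨⟨k, hk⟩, rfl⟩, h1.symm, h2.symm, h3⟩

theorem Small.sq {a b x : Ω} (s : Small G a b x) {h : G} (hh : h ∈ St G a b) : h • h • x = x := by
  by_contra e
  by_cases h1 : h • x = x
  · exact e (by rw [h1, h1])
  · have := s (h * h) (mul_mem hh hh) h hh (by rwa [mul_smul]) h1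
    rw [mul_smul] at this
    exact h1 (smul_left_cancel h this)

theorem Small.fix {a b x : Ω} (s : Small G a b x) {h k : G} (hh : h ∈ St G a b) (hk : k ∈ St G a b)
    (e : k • x = x) : k • h • x = h • x := by
  by_cases h1 : h • x = x
  · rw [h1, e]
  · have := s (k * h) (mul_mem hk hh) h hh (fun e' => h1 (smul_left_cancel k (by
      rw [← mul_smul, e', e]))) h1
    rwa [mul_smul] at this

theorem Small.comm {a b x : Ω} (s : Small G a b x) {h k : G} (hh : h ∈ St G a b)
    (hk : k ∈ St G a b) : h • k • x = k • h • x := by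
  by_cases h1 : h • x = x
  · rw [s.fix hk hh h1, h1]
  by_cases h2 : k • x = x
  · rw [s.fix hh hk h2, h2]
  · conv_lhs => rw [← s h hh k hk h1 h2, s.sq hh]
    rw [s h hh k hk h1 h2, s.sq hk]

variable [FaithfulSMul G Ω]

theorem exists_move {g : G} (hg : g ≠ 1) : ∃ c : Ω, g • c ≠ c := by
  by_contra hc
  push Not at hc
  exact hg (eq_of_smul_eq_smul (α := Ω) fun x => by rw [hc, one_smul])

theorem T2.third [IsPretransitive G Ω] (h : T2 G Ω) {a b : Ω} (hab : a ≠ b)
    (hN : 2 ≤ Fintype.card (St G a b)) (hm : ∀ g ∈ St G a b, g ≠ 1 → 3 * fx Ω g ≤ Fintype.card Ω) :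
    Goal G Ω := by
  have hn : (0 : ℚ) < Fintype.card Ω := by exact_mod_cast Fintype.card_pos_iff.2 ⟨a⟩
  have hN' : (2 : ℚ) ≤ Fintype.card (St G a b) := by exact_mod_cast hN
  refine h.critB hab (m := Fintype.card Ω / 3) (by positivity) (fun g hg h1 => ?_) ?_
  · rw [le_div_iff₀ (by norm_num), mul_comm]; exact_mod_cast hm g hg h1
  · nlinarith

theorem T2.lines_two [IsPretransitive G Ω] (h : T2 G Ω) (hn : 7 ≤ Fintype.card Ω) {a b : Ω}
    (hab : a ≠ b) (hN : 2 ≤ Fintype.card (St G a b)) (h2 : (ln G a b).card = 2) : Goal G Ω := by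
  have L : ∀ {x y z : Ω}, x ≠ y → z ∈ ln G x y → z = x ∨ z = y := by
    intro x y z hxy hz
    have : ({x, y} : Finset Ω) = ln G x y := eq_of_subset_of_card_le (by
      simp [insert_subset_iff, left_mem_ln, right_mem_ln]) (by
      rw [h.card_ln hab hxy, h2, card_pair hxy])
    simpa [← this] using hz
  have big : ∀ {x y : Ω}, x ≠ y → Big G x y → Goal G Ω := fun {x y} hxy hb =>
    h.critJ hxy (by rwa [h.card_St hab hxy]) hb.bound (by rw [h.card_ln hab hxy, h2]; simp)
  by_cases hs : ∀ x y z : Ω, x ≠ y → Small G x y z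
  · refine h.third hab hN fun g hg h1 => ?_
    have : fx Ω g ≤ 2 := by
      refine (card_le_card fun c hc => ?_).trans (card_le_two (a := a) (b := b))
      have hc : g • c = c := by simpa using hc
      by_contra hne
      simp only [mem_insert, mem_singleton, not_or] at hne
      obtain ⟨d, hd⟩ := exists_move (Ω := Ω) h1
      have hac : a ≠ c := Ne.symm hne.1
      have had : a ≠ d := fun e => hd (e ▸ hg.1)
      have hg' : g ∈ St G a c := ⟨hg.1, hc⟩
      obtain ⟨u, u1, u2, u3⟩ : ∃ u ∈ St G a c, u • d = d ∧ u • b ≠ b := by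
        have : b ∉ ln G a c := fun k => (L hac k).elim hab.symm (Ne.symm hne.2)
        rw [mem_ln] at this
        push Not at this
        obtain ⟨u, u1, u2, u3⟩ := this
        by_cases e : u • d = d
        · exact ⟨u, ⟨u1, u2⟩, e, u3⟩
        · refine ⟨g * u, mul_mem hg' ⟨u1, u2⟩, ?_, fun k => u3 (smul_left_cancel g ?_)⟩
          · rw [mul_smul, hs a c d hac u ⟨u1, u2⟩ g hg' e hd, (hs a c d hac).sq hg']
          · rw [← mul_smul, k, hg.2]
      have : u • b ∈ ln G a b := mem_ln.2 fun k k1 k2 => by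
        have c1 : ∀ k ∈ St G a d, k • b = b → k • u • b = u • b := fun k hk e => by
          rw [(hs a d b had).comm hk ⟨u1.1, u2⟩, e]
        by_cases e : k • d = d
        · exact c1 k ⟨k1, e⟩ k2
        · have := c1 (g * k) (mem_St.2 ⟨by rw [mul_smul, k1]; exact hg.1, by
            rw [mul_smul, hs a b d hab k ⟨k1, k2⟩ g hg e hd,
              (hs a b d hab).sq hg]⟩) (by rw [mul_smul, k2]; exact hg.2)
          have c2 : g • u • b = u • b := by rw [(hs a c b hac).comm hg' u1, hg.2]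
          rw [mul_smul] at this
          exact smul_left_cancel g (this.trans c2.symm)
      rcases L hab this with e | e
      · exact hab (smul_left_cancel u (u1.1.trans e.symm))
      · exact u3 e
    omega
  push Not at hs
  obtain ⟨x, y, z, hxy, hz⟩ := hs
  by_contra hG
  have nb : ∀ {x y : Ω}, x ≠ y → ¬ Big G x y := fun hxy hb => hG (big hxy hb)
  have h3 : (orb (St G x y) z).card = 3 :=
    le_antisymm (by_contra fun k => nb hxy (Or.inl ⟨z, by omega⟩)) (three_le hz)
  have hsm : ∀ w, w ∉ orb (St G x y) z → Small G x y w := fun w hw =>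
    by_contra fun k => nb hxy (Or.inr ⟨z, w, h3.ge, three_le k, hw⟩)
  have : Fact (Nat.Prime 3) := ⟨Nat.prime_three⟩
  obtain ⟨t, ht⟩ := exists_prime_orderOf_dvd_card (G := St G x y) 3
    ⟨_, by rw [← orb_mul_st (K := St G x y) z, h3]⟩
  have t3 : ∀ w : Ω, (t : G) • (t : G) • (t : G) • w = w := fun w => by
    have : (t : G) ^ 3 = 1 := by exact_mod_cast congrArg Subtype.val (ht ▸ pow_orderOf_eq_one t)
    rw [← mul_smul, ← mul_smul, ← pow_three', this, one_smul]
  have tf : ∀ w, w ∉ orb (St G x y) z → (t : G) • w = w := fun w hw => by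
    have := t3 w
    rwa [(hsm w hw).sq t.2] at this
  obtain ⟨c, hc⟩ := exists_move (Ω := Ω) (g := (t : G)) fun e => by
    rw [show t = 1 from Subtype.ext e, orderOf_one] at ht; omega
  have hcO : c ∈ orb (St G x y) z := by_contra fun k => hc (tf c k)
  have hcx : c ≠ x := fun e => hc (e ▸ t.2.1)
  obtain ⟨g, g1, g2⟩ := h c ((t : G) • c) c x hc.symm hcx
  let B := orb (St G x y) z ∪ ((orb (St G x y) z).erase c).image fun w => g • w
  have hB : B.card ≤ 5 := (card_union_le _ _).trans (by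
    have := card_image_le (s := (orb (St G x y) z).erase c) (f := fun w => g • w)
    rw [card_erase_of_mem hcO] at this
    omega)
  obtain ⟨p, hp, q, hq, hpq⟩ := one_lt_card.1 (show 1 < (univ \ B).card by
    rw [card_univ_sdiff]; omega)
  have f1 : ∀ w ∈ univ \ B, (t : G) • w = w ∧ (g * t * g⁻¹) • w = w := fun w hw => by
    have hw := (mem_sdiff.1 hw).2
    refine ⟨tf w fun k => hw (mem_union_left _ k), ?_⟩
    rw [mul_smul, mul_smul, tf, smul_inv_smul]
    intro k
    by_cases e : g⁻¹ • w = c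
    · rw [inv_smul_eq_iff, g1] at e
      exact hw (mem_union_left _ (e ▸ hcO))
    · exact hw (mem_union_right _ (mem_image.2 ⟨_, mem_erase.2 ⟨e, k⟩, smul_inv_smul g w⟩))
  refine nb hpq (Or.inl ⟨c, ?_⟩)
  have m1 : (t : G) ∈ St G p q := ⟨(f1 p hp).1, (f1 q hq).1⟩
  have m2 : g * t * g⁻¹ ∈ St G p q := ⟨(f1 p hp).2, (f1 q hq).2⟩
  have n1 : (t : G) • (t : G) • c ≠ c := fun e => hc (by have := t3 c; rwa [e] at this)
  have n2 : (t : G) • (t : G) • c ≠ (t : G) • c := fun e => hc (smul_left_cancel _ e)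
  have n3 : (t : G) • c ≠ x := fun e => hcx (smul_left_cancel (t : G) (e.trans t.2.1.symm))
  have n4 : (t : G) • (t : G) • c ≠ x := fun e => n3 (smul_left_cancel (t : G) (e.trans t.2.1.symm))
  have : ({c, (t : G) • c, (t : G) • (t : G) • c, x} : Finset Ω) ⊆ orb (St G p q) c := by
    simp only [insert_subset_iff, singleton_subset_iff, mem_orb]
    refine ⟨⟨1, one_smul _ _⟩, ⟨⟨_, m1⟩, rfl⟩, ⟨⟨_, mul_mem m1 m1⟩, mul_smul _ _ _⟩, ⟨_, m2⟩, ?_⟩
    change (g * t * g⁻¹) • c = x
    rw [mul_smul, mul_smul, inv_smul_eq_iff.2 g1.symm, g2]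
  refine le_trans ?_ (card_le_card this)
  rw [card_insert_of_notMem (by simp [hc.symm, n1.symm, hcx]),
    card_insert_of_notMem (by simp [n2.symm, n3]), card_pair n4]

end Cfsg.Agent.H27.Der
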