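import Cfsg.Agent.H27.Der2

/-! Derangements in doubly transitive groups: lines with three points, and the final bound. -/

set_option autoImplicit false
set_option linter.unusedSectionVars false

namespace Cfsg.Agent.H27.Der

open Finset MulAction
open scoped Classical

variable {G Ω : Type*} [Group G] [Fintype G] [MulAction G Ω] [Fintype Ω]

/-- A third point function for lines with three points. -/
structure Th (G : Type*) [Group G] [MulAction G Ω] (τ : Ω → Ω → Ω) : Prop where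
  mem : ∀ {x y z : Ω}, x ≠ y → (z ∈ ln G x y ↔ z = x ∨ z = y ∨ z = τ x y)
  ne1 : ∀ {x y : Ω}, x ≠ y → τ x y ≠ x
  ne2 : ∀ {x y : Ω}, x ≠ y → τ x y ≠ y

theorem T2.exists_th (h : T2 G Ω) {a b : Ω} (hab : a ≠ b) (h3 : (ln G a b).card = 3) :
    ∃ τ : Ω → Ω → Ω, Th G τ := by
  have : ∀ x y : Ω, ∃ t, x ≠ y → t ≠ x ∧ t ≠ y ∧ ∀ z, z ∈ ln G x y ↔ z = x ∨ z = y ∨ z = t := by
    intro x y
    by_cases hxy : x = y
    · exact ⟨x, fun k => absurd hxy k⟩
    have hs : ({x, y} : Finset Ω) ⊆ ln G x y := by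
      simp [insert_subset_iff, left_mem_ln, right_mem_ln]
    obtain ⟨t, ht⟩ := card_eq_one.1 (show (ln G x y \ {x, y}).card = 1 by
      rw [card_sdiff_of_subset hs, h.card_ln hab hxy, h3, card_pair hxy])
    have h1 : ∀ z, (z ∈ ln G x y ∧ z ≠ x ∧ z ≠ y) ↔ z = t := fun z => by
      simpa using Finset.ext_iff.1 ht z
    refine ⟨t, fun _ => ⟨((h1 t).2 rfl).2.1, ((h1 t).2 rfl).2.2, fun z => ⟨fun hz => ?_, ?_⟩⟩⟩
    · have := (h1 z).1
      tauto
    · rintro (rfl | rfl | rfl)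
      exacts [left_mem_ln _ _, right_mem_ln _ _, ((h1 z).2 rfl).1]
  choose τ hτ using this
  exact ⟨τ, fun k => (hτ _ _ k).2.2 _, fun k => (hτ _ _ k).1, fun k => (hτ _ _ k).2.1⟩

variable {τ : Ω → Ω → Ω}

theorem Th.self (T : Th G τ) {x y : Ω} (hxy : x ≠ y) : τ x y ∈ ln G x y :=
  (T.mem hxy).2 (Or.inr (Or.inr rfl))

theorem Th.eq (T : Th G τ) {x y z : Ω} (hxy : x ≠ y) (hz : z ∈ ln G x y) (h1 : z ≠ x) (h2 : z ≠ y) :
    z = τ x y := by
  have := (T.mem hxy).1 hz
  tauto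

theorem Th.comm (T : Th G τ) {x y : Ω} (hxy : x ≠ y) : τ x y = τ y x :=
  T.eq hxy.symm (ln_comm (G := G) x y ▸ T.self hxy) (T.ne2 hxy) (T.ne1 hxy)

theorem Th.smul (T : Th G τ) {x y : Ω} (hxy : x ≠ y) (g : G) : g • τ x y = τ (g • x) (g • y) :=
  T.eq (fun e => hxy (smul_left_cancel g e)) (smul_mem_ln g (T.self hxy))
    (fun e => T.ne1 hxy (smul_left_cancel g e)) (fun e => T.ne2 hxy (smul_left_cancel g e))

theorem Th.inv (T : Th G τ) (h : T2 G Ω) {x y : Ω} (hxy : x ≠ y) : τ x (τ x y) = y :=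
  (T.eq (T.ne1 hxy).symm (h.ln_eq hxy (T.self hxy) (T.ne1 hxy) ▸ right_mem_ln x y) hxy.symm
    (T.ne2 hxy).symm).symm

theorem Th.fix (T : Th G τ) {x y : Ω} (hxy : x ≠ y) {g : G} (h1 : g • x = x) (h2 : g • y = y) :
    g • τ x y = τ x y := by rw [T.smul hxy, h1, h2]

theorem Th.centre (T : Th G τ) {u v x : Ω} (s : Small G u v x) {k : G} (hk : k ∈ St G u v)
    (hx : k • x ≠ x) : τ x (k • x) ∈ ln G u v := mem_ln.2 fun g g1 g2 => by
  by_cases e : g • x = x
  · exact T.fix hx.symm e (s.fix hk ⟨g1, g2⟩ e)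
  · rw [T.smul hx.symm, ← s g ⟨g1, g2⟩ k hk e hx, s.sq ⟨g1, g2⟩, T.comm e]

theorem Th.key (T : Th G τ) (h : T2 G Ω) (hs : ∀ x y z : Ω, x ≠ y → Small G x y z) {q y x : Ω}
    (hqy : q ≠ y) {k : G} (hk : k ∈ St G q y) (hx : k • x ≠ x) (hq : τ x (k • x) = q) {e : G}
    (he : e ∈ St G q x) (hy : e • y ≠ y) : e • y = τ q y := by
  have hqx : q ≠ x := hq ▸ T.ne1 hx.symm
  have h1 : τ q x = k • x := by rw [T.comm hqx, ← hq, T.inv h hx.symm]
  refine T.eq hqy (mem_ln.2 fun g g1 g2 => ?_)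
    (fun e' => hqy (smul_left_cancel e (he.1.trans e'.symm))) hy
  have h2 : e • g⁻¹ • x = g⁻¹ • x := by
    by_cases e' : g⁻¹ • x = x
    · rw [e']; exact he.2
    · rw [hs q y x hqy g⁻¹ (inv_mem (mem_St.2 ⟨g1, g2⟩)) k hk e' hx, ← h1]
      exact T.fix hqx he.1 he.2
  have h3 : (g * e * g⁻¹) • y = g • e • y := by
    rw [mul_smul, mul_smul, inv_smul_eq_iff.2 g2.symm]
  rw [← h3]
  refine hs q x y hqx _ (mem_St.2 ⟨?_, ?_⟩) e he (fun e' => hy ?_) hy
  · rw [mul_smul, mul_smul, inv_smul_eq_iff.2 g1.symm, he.1, g1]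
  · rw [mul_smul, mul_smul, h2, smul_inv_smul]
  · exact smul_left_cancel g (by rw [← h3, e', g2])

theorem exists_of_not_mem {a b x : Ω} (h : x ∉ ln G a b) : ∃ g ∈ St G a b, g • x ≠ x := by
  rw [mem_ln] at h
  push Not at h
  obtain ⟨g, h1, h2, h3⟩ := h
  exact ⟨g, ⟨h1, h2⟩, h3⟩

/-- No non-identity element fixes a hyperplane. -/
theorem Th.no_hyp (T : Th G τ) (h : T2 G Ω) (hs : ∀ x y z : Ω, x ≠ y → Small G x y z) {u v c : Ω}
    (huv : u ≠ v) {g : G} (hg : g ∈ St G u v) (hc : g • c ≠ c)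
    (hy : ∀ d, d ≠ c → g • d ≠ d → g • τ c d = τ c d) : False := by
  obtain ⟨a, ha⟩ : ∃ a, τ c (g • c) = a := ⟨_, rfl⟩
  have ha' : a ∈ ln G u v := ha ▸ T.centre (hs u v c huv) hg hc
  obtain ⟨b, hab, hb⟩ : ∃ b, a ≠ b ∧ g • b = b := by
    by_cases e : a = u
    · exact ⟨v, e ▸ huv, hg.2⟩
    · exact ⟨u, e, hg.1⟩
  replace hg : g ∈ St G a b := ⟨mem_ln.1 ha' g hg.1 hg.2, hb⟩
  have ga : g • a = a := hg.1
  have gb' : g • τ a b = τ a b := T.fix hab ga hb
  have hbc : b ≠ c := fun e => hc (e ▸ hb)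
  have hac : a ≠ c := fun e => hc (e ▸ ga)
  obtain ⟨d, hd⟩ : ∃ d, τ b c = d := ⟨_, rfl⟩
  have hbd : b ≠ d := hd ▸ (T.ne1 hbc).symm
  have hcd : c ≠ d := hd ▸ (T.ne2 hbc).symm
  have dc : τ b d = c := by rw [← hd, T.inv h hbc]
  have gd : g • d ≠ d := fun e => hc (dc ▸ T.fix hbd hb e)
  have had : a ≠ d := fun e => gd (e ▸ ga)
  have n1 : g • c ≠ d := fun e => hab (by
    rw [← ha, e, ← hd, T.comm hbc, T.inv h hbc.symm])
  have n2 : g • d ≠ c := fun e => n1 (by rw [← e, (hs a b d hab).sq hg])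
  have pd : τ d (g • d) = a := by
    have i1 : τ (τ d (g • d)) (g • d) = d := by
      rw [T.comm gd.symm, T.comm (T.ne1 gd), T.inv h gd]
    rcases (T.mem hab).1 (T.centre (hs a b d hab) hg gd) with e | e | e
    · exact e
    · refine absurd ?_ n2
      rw [← dc, ← e, T.comm (T.ne1 gd.symm), T.inv h gd.symm]
    have gd' : g • g • d ≠ g • d := fun e => gd (smul_left_cancel g e)
    have s1 := hy _ n2 gd'
    have s2 : τ c (g • d) ∈ ln G a b := mem_ln.2 fun k k1 k2 => by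
      have c1 : ∀ k ∈ St G a b, k • c = c → k • τ c (g • d) = τ c (g • d) := fun k hk e =>
        T.fix n2.symm e ((hs a b d hab).fix hg hk (hd ▸ T.fix hbc hk.2 e))
      by_cases e : k • c = c
      · exact c1 k ⟨k1, k2⟩ e
      · have := c1 (g * k) (mul_mem hg ⟨k1, k2⟩) (by
          rw [mul_smul, hs a b c hab k ⟨k1, k2⟩ g hg e hc, (hs a b c hab).sq hg])
        rw [mul_smul] at this
        exact smul_left_cancel g (this.trans s1.symm)
    have i2 : τ c (τ c (g • d)) = g • d := T.inv h n2.symm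
    rcases (T.mem hab).1 s2 with e' | e' | e'
    · rw [e', ← ha, T.inv h hc.symm] at i2
      exact absurd (smul_left_cancel g i2) hcd
    · rw [e', ← T.comm hbc, hd] at i2
      exact absurd i2.symm gd
    · have i3 : τ (τ c (g • d)) (g • d) = c := by
        rw [T.comm n2.symm, T.comm (T.ne1 n2), T.inv h n2]
      rw [e', ← e, i1] at i3
      exact absurd i3.symm hcd
  have sym : ∀ c d : Ω, b ≠ c → g • c ≠ c → g • d ≠ d → τ c (g • c) = a → τ c b = d →
      ∀ e' ∈ St G c b, e' • a ≠ a → τ a (e' • a) ≠ c := by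
    intro c d hbc hc gd ha hd e' he' h1 h2
    have hac : a ≠ c := fun e => hc (e ▸ ga)
    obtain ⟨e, he, h3⟩ := exists_of_not_mem (G := G) (a := a) (b := c) (x := b) fun k => by
      rcases (T.mem hac).1 k with k | k | k
      · exact hab k.symm
      · exact hbc k
      · rw [T.comm hac, ← ha, T.inv h hc.symm] at k
        exact hbc (smul_left_cancel g (hb.trans k))
    have i1 := T.key h hs hbc.symm he' h1 h2 ⟨he.2, he.1⟩ h3
    have i2 := T.key h hs hab hg hc ha he h3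
    exact gd (by rw [← hd, ← i1, i2, gb'])
  obtain ⟨e, he, h1⟩ := exists_of_not_mem (G := G) (a := b) (b := c) (x := a) fun k => by
    rcases (T.mem hbc).1 k with k | k | k
    exacts [hab k, hac k, had (k.trans hd)]
  rcases (T.mem hbc).1 (T.centre (hs b c a hbc) he h1) with k | k | k
  · exact n1 ((T.key h hs hbc he h1 k ⟨hb, ga⟩ hc).trans hd)
  · exact sym c d hbc hc gd ha ((T.comm hbc).symm.trans hd) e ⟨he.2, he.1⟩ h1 k
  · exact sym d c hbd gd hc pd ((T.comm hbd).symm.trans dc) e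
      ⟨hd ▸ T.fix hbc he.1 he.2, he.1⟩ h1 (k.trans hd)

theorem Th.small_bound (T : Th G τ) (h : T2 G Ω) (hs : ∀ x y z : Ω, x ≠ y → Small G x y z) {a b c : Ω}
    (hab : a ≠ b) (h3 : (ln G a b).card = 3) {g : G} (hg : g ∈ St G a b) (hc : g • c ≠ c) :
    2 * fx Ω g + 3 ≤ Fintype.card Ω := by
  obtain ⟨d, d1, d2, d3⟩ : ∃ d, d ≠ c ∧ g • d ≠ d ∧ g • τ c d ≠ τ c d := by
    by_contra k
    push Not at k
    exact T.no_hyp h hs hab hg hc k
  have k1 : ∀ s, g • s = s → s ∉ ln G c d := fun s e k => by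
    rcases (T.mem d1.symm).1 k with rfl | rfl | rfl
    exacts [hc e, d2 e, d3 e]
  have := h.sub_bound hab (insert d (univ.filter fun x : Ω => g • x = x)) (c := c)
    (by simp [hc, d1.symm]) fun s hs s' hs' hm => by
      simp only [mem_insert, mem_filter, mem_univ, true_and] at hs hs'
      rcases hs with rfl | hs <;> rcases hs' with rfl | hs'
      · rfl
      · exact absurd hm (k1 _ hs')
      · refine absurd ?_ (k1 _ hs)
        rw [h.ln_eq (show c ≠ s from fun e => hc (e ▸ hs)) hm d1]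
        exact right_mem_ln _ _
      · exact h.fix_line hc hs hs' hm
  rw [card_insert_of_notMem (by simp [d2]), h3] at this
  have := Fintype.card_pos_iff.2 ⟨a⟩
  unfold fx; omega

theorem Th.big (T : Th G τ) (h : T2 G Ω) {x y z : Ω} (hz : ¬ Small G x y z) : Big G x y := by
  by_contra nb
  have o3 : (orb (St G x y) z).card = 3 :=
    le_antisymm (by_contra fun k => nb (Or.inl ⟨z, by omega⟩)) (three_le hz)
  have hne : ∀ w ∈ orb (St G x y) z, x ≠ w := fun w hw e =>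
    disjoint_left.1 (disj_ln (G := G) (a := x) (b := y) (x := z) (by omega)) (left_mem_ln x y)
      (by rwa [← e] at hw)
  have hxz := hne z (self_mem_orb z)
  have hst : st (St G x y) (τ x z) = st (St G x y) z := by
    unfold st
    congr 1
    ext k
    simp only [mem_filter, mem_univ, true_and]
    refine ⟨fun e => ?_, fun e => T.fix hxz (g := (k : G)) k.2.1 e⟩
    rw [← T.inv h hxz]
    exact T.fix (g := (k : G)) (T.ne1 hxz).symm k.2.1 e
  have o4 : (orb (St G x y) (τ x z)).card = 3 := by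
    have h1 := orb_mul_st (K := St G x y) z
    have h2 := orb_mul_st (K := St G x y) (τ x z)
    rw [hst, ← h1, o3] at h2
    refine Nat.eq_of_mul_eq_mul_right (Nat.pos_of_ne_zero fun e => ?_) h2
    rw [e] at h1
    exact Fintype.card_ne_zero h1.symm
  have hin : τ x z ∈ orb (St G x y) z :=
    by_contra fun k => nb (Or.inr ⟨z, _, o3.ge, o4.ge, k⟩)
  have := sum_involution (s := orb (St G x y) z) (f := fun _ => (1 : ZMod 2))
    (fun w _ => τ x w) (fun _ _ => rfl) (fun w hw _ => T.ne2 (hne w hw)) (fun w hw => by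
      obtain ⟨k, rfl⟩ := mem_orb.1 hw
      obtain ⟨k', e⟩ := mem_orb.1 hin
      refine mem_orb.2 ⟨k * k', ?_⟩
      rw [mul_smul, e]
      change (k : G) • τ x z = τ x ((k : G) • z)
      rw [T.smul hxz, (mem_St.1 k.2).1]) fun w hw => T.inv h (hne w hw)
  rw [sum_const, o3] at this
  exact absurd this (by decide)

variable [FaithfulSMul G Ω] [IsPretransitive G Ω]

theorem T2.lines_three (h : T2 G Ω) (hn : 7 ≤ Fintype.card Ω) {a b : Ω}
    (hab : a ≠ b) (hN : 2 ≤ Fintype.card (St G a b)) (h3 : (ln G a b).card = 3) : Goal G Ω := by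
  obtain ⟨τ, T⟩ := h.exists_th hab h3
  have hn' : (7 : ℚ) ≤ Fintype.card Ω := by exact_mod_cast hn
  by_cases hs : ∀ x y z : Ω, x ≠ y → Small G x y z
  · by_cases hJ : (2 * Fintype.card (St G a b) - 1 : ℚ) * 3 ≤ Fintype.card Ω
    · refine h.critJ hab hN ?_ hJ
      simpa [h3] using sum_st_le (G := G) (a := a) (b := b) ∅ (by simp)
    refine h.critB hab (m := (Fintype.card Ω - 3) / 2) (by linarith) (fun g hg h1 => ?_) ?_
    · obtain ⟨c, hc⟩ := exists_move (Ω := Ω) h1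
      have : (2 * fx Ω g + 3 : ℚ) ≤ Fintype.card Ω := by
        exact_mod_cast T.small_bound h hs hab h3 hg hc
      linarith
    · nlinarith
  push Not at hs
  obtain ⟨x, y, z, hxy, hz⟩ := hs
  have hb := (T.big h hz).bound
  rw [h.card_ln hab hxy, h3] at hb
  have hN' : 2 ≤ Fintype.card (St G x y) := by rwa [h.card_St hab hxy]
  by_cases hJ : (2 * Fintype.card (St G x y) - 1 : ℚ) * 1 ≤ Fintype.card Ω
  · exact h.critJ hxy hN' (by norm_num at hb ⊢; exact hb) hJ
  refine h.critB hxy (m := (Fintype.card Ω - 1) / 2) (by linarith) (fun g hg h1 => ?_) ?_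
  · obtain ⟨c, hc⟩ := exists_move (Ω := Ω) h1
    have := h.fx_bound hab hc
    rw [h3] at this
    have : 2 * fx Ω g + 1 ≤ Fintype.card Ω := by omega
    have : (2 * fx Ω g + 1 : ℚ) ≤ Fintype.card Ω := by exact_mod_cast this
    linarith
  · nlinarith

theorem T2.goal (h : T2 G Ω) (hn : 7 ≤ Fintype.card Ω) {a b : Ω}
    (hab : a ≠ b) (hN : 2 ≤ Fintype.card (St G a b)) : Goal G Ω := by
  have h2 : 2 ≤ (ln G a b).card := one_lt_card.2 ⟨_, left_mem_ln a b, _, right_mem_ln a b, hab⟩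
  rcases h2.eq_or_lt with e | h2
  · exact h.lines_two hn hab hN e.symm
  rcases (Nat.succ_le_of_lt h2).eq_or_lt with e | h3
  · exact h.lines_three hn hab hN e.symm
  refine h.third hab hN fun g _ h1 => ?_
  obtain ⟨c, hc⟩ := exists_move (Ω := Ω) h1
  have := (Nat.mul_le_mul_right _ (show 3 ≤ (ln G a b).card - 1 by omega)).trans (h.fx_bound hab hc)
  omega

end Cfsg.Agent.H27.Der
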