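/-
Flavell's weak Baer-Suzuki theorem: the module step.
-/
import Cfsg.Agent.H49.ElemLin
import Cfsg.Agent.H49.Hall
import Cfsg.Agent.H49.Core
import Cfsg.Agent.H49.Quot
import Cfsg.Agent.S3818

set_option autoImplicit false

namespace Cfsg.Agent.H27.Flav

open Subgroup Cfsg.Agent.H49

theorem fix_sq_lt_aux {H E : Type*} [Group H] [Finite H] [Group.IsSolvable H] [Group E] [Finite E]
    {p q : ℕ} [Fact p.Prime] [Fact q.Prime] (hp : 3 < p) (hc : ∀ a b : E, a * b = b * a)
    (he : ∀ a : E, a ^ q = 1) [Nontrivial E] (φ : H →* MulAut E) (hφ : Function.Injective φ)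
    (irr : ∀ D : Subgroup E, (∀ h, ∀ x ∈ D, φ h x ∈ D) → D = ⊥ ∨ D = ⊤) (P : Subgroup H)
    (hP : Nat.card P = p) (hgen : normalClosure (P : Set H) = ⊤) :
    Nat.card {x : E // ∀ g ∈ P, φ g x = x} ^ 2 < Nat.card E := by
  obtain ⟨n, e, σ, hn, hadd, hσ, hact⟩ := H51.exists_matrix_rep E q hc he
  let ρ : Representation (ZMod q) H (Fin n → ZMod q) := matRep (σ.comp φ)
  have hρ : ∀ g x, ρ g (e x) = e (φ g x) := fun g x => by
    rw [hact]; exact matRep_apply _ _ _
  have e1 : e 1 = 0 := by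
    have := hadd 1 1
    rw [mul_one] at this
    exact left_eq_add.1 this
  have einv : ∀ x, e x⁻¹ = -e x := fun x => by
    rw [eq_neg_iff_add_eq_zero, ← hadd, inv_mul_cancel, e1]
  have inj : Function.Injective ρ := by
    rw [injective_iff_map_eq_one]
    intro g hg
    have h1 : σ (φ g) = 1 := matRep_eq_one hg
    exact (injective_iff_map_eq_one φ).1 hφ g ((injective_iff_map_eq_one σ).1 hσ _ h1)
  have hirr : ρ.IsIrreducible := by
    have nt : Nontrivial (Fin n → ZMod q) := e.symm.nontrivial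
    refine { exists_pair_ne := ⟨⊥, ⊤, fun h => ?_⟩, eq_bot_or_eq_top := fun S => ?_ }
    · have : (⊥ : Submodule (ZMod q) (Fin n → ZMod q)) = ⊤ :=
        congrArg Subrepresentation.toSubmodule h
      exact bot_ne_top this
    · let D : Subgroup E :=
        { carrier := {x | e x ∈ S.toSubmodule}
          one_mem' := by show e 1 ∈ S.toSubmodule; rw [e1]; exact zero_mem _
          mul_mem' := fun {a b} ha hb => by
            show e (a * b) ∈ S.toSubmodule; rw [hadd]; exact add_mem ha hb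
          inv_mem' := fun {a} ha => by show e a⁻¹ ∈ S.toSubmodule; rw [einv]; exact neg_mem ha }
      rcases irr D (fun h x hx => by
        show e (φ h x) ∈ S.toSubmodule
        rw [← hρ]; exact S.apply_mem_toSubmodule h hx) with h | h
      · left
        apply Subrepresentation.toSubmodule_injective
        refine (Submodule.eq_bot_iff _).2 fun v hv => ?_
        obtain ⟨x, rfl⟩ := e.surjective v
        have : x ∈ D := hv
        rw [h, mem_bot] at this
        rw [this, e1]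
      · right
        apply Subrepresentation.toSubmodule_injective
        refine (Submodule.eq_top_iff').2 fun v => ?_
        obtain ⟨x, rfl⟩ := e.surjective v
        have : x ∈ D := by rw [h]; exact mem_top x
        exact this
  have key := S3818.result hp P hP hgen q ρ inj
  have c1 : Nat.card {x : E // ∀ g ∈ P, φ g x = x} =
      Nat.card ↥(⨅ g : ↥P, LinearMap.ker (ρ (g : H) - LinearMap.id)) := by
    refine Nat.card_congr (e.subtypeEquiv fun x => ?_)
    simp only [Submodule.mem_iInf, LinearMap.mem_ker, LinearMap.sub_apply, LinearMap.id_apply,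
      sub_eq_zero, hρ, e.apply_eq_iff_eq, Subtype.forall]
  rw [c1, Module.natCard_eq_pow_finrank (K := ZMod q), hn, Nat.card_zmod, ← pow_mul]
  rw [Module.finrank_fin_fun] at key
  exact Nat.pow_lt_pow_right (Fact.out : q.Prime).one_lt (by omega)

theorem fix_sq_lt {H E : Type*} [Group H] [Finite H] [Group.IsSolvable H] [Group E] [Finite E]
    {p q : ℕ} [Fact p.Prime] [Fact q.Prime] (hp : 3 < p) (hc : ∀ a b : E, a * b = b * a)
    (he : ∀ a : E, a ^ q = 1) [Nontrivial E] (φ : H →* MulAut E) (hφ : ∃ h, φ h ≠ 1)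
    (irr : ∀ D : Subgroup E, (∀ h, ∀ x ∈ D, φ h x ∈ D) → D = ⊥ ∨ D = ⊤) (P : Subgroup H)
    (hP : Nat.card P ∣ p) (hgen : normalClosure (P : Set H) = ⊤) :
    Nat.card {x : E // ∀ g ∈ P, φ g x = x} ^ 2 < Nat.card E := by
  have sur := φ.rangeRestrict_surjective
  have sol : Group.IsSolvable φ.range := Group.isSolvable_of_surjective sur
  have gen : normalClosure ((P.map φ.rangeRestrict : Subgroup φ.range) : Set φ.range) = ⊤ := by
    rw [coe_map, ← map_normalClosure _ _ sur, hgen, map_top_of_surjective _ sur]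
  have cd : Nat.card (P.map φ.rangeRestrict) = p := by
    refine ((Nat.dvd_prime Fact.out).1 ((card_map_dvd P _).trans hP)).resolve_left fun h1 => ?_
    rw [card_eq_one] at h1
    rw [h1, coe_bot, normalClosure_eq_bot_iff.2 subset_rfl] at gen
    obtain ⟨h, hh⟩ := hφ
    have : φ.rangeRestrict h ∈ (⊥ : Subgroup φ.range) := by rw [gen]; exact mem_top _
    exact hh (congrArg Subtype.val (mem_bot.1 this))
  have := fix_sq_lt_aux hp hc he φ.range.subtype φ.range.subtype_injective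
    (fun D hD => irr D fun h => hD ⟨φ h, h, rfl⟩) _ cd gen
  convert this using 3
  refine congrArg _ (funext fun x => propext ⟨?_, fun h g hg => h _ ⟨g, hg, rfl⟩⟩)
  rintro h _ ⟨g, hg, rfl⟩
  exact h g hg

variable {X : Type*} [Group X] [Finite X] {P A U R : Subgroup X} {a : X}

/-- an irreducible nilpotent subgroup is elementary abelian -/
theorem elem_of_irr (hU : Group.IsNilpotent U) (h0 : U ≠ ⊥) (hA : A ≤ 𝒩(U))
    (irr : ∀ D, D ≤ U → A ≤ 𝒩(D) → D = ⊥ ∨ D = U) :
    U ≤ 𝒞(U) ∧ ∃ q : ℕ, q.Prime ∧ ∀ x ∈ U, x ^ q = 1 := by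
  have ab : U ≤ 𝒞(U) := by
    have := (irr _ inf_le_left (norm_inf hA (norm_cent hA))).resolve_left
      (center_ne_bot_of_nilpotent hU h0)
    exact this.ge.trans inf_le_right
  obtain ⟨q, hq, hd⟩ := exists_prime_dvd_card h0
  obtain ⟨y, hy, oy⟩ := exists_orderOf_eq_of_dvd_card hq hd
  let D : Subgroup X :=
    { carrier := {x | x ∈ U ∧ x ^ q = 1}
      one_mem' := ⟨one_mem _, one_pow q⟩
      mul_mem' := fun {x z} hx hz => ⟨mul_mem hx.1 hz.1, by
        rw [Commute.mul_pow (ab hz.1 x hx.1), hx.2, hz.2, mul_one]⟩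
      inv_mem' := fun {x} hx => ⟨inv_mem hx.1, by rw [inv_pow, hx.2, inv_one]⟩ }
  refine ⟨ab, q, hq, fun x hx => ?_⟩
  rcases irr D (fun x hx => hx.1) (le_norm_iff.2 fun g hg x hx =>
    ⟨conj_mem_of_norm hA hg hx.1, by rw [conj_pow, hx.2]; group⟩) with h | h
  · have : y ∈ D := ⟨hy, by rw [← oy, pow_orderOf_eq_one]⟩
    rw [h, mem_bot] at this
    rw [this, orderOf_one] at oy
    exact absurd oy hq.one_lt.ne
  · have : x ∈ D := by rw [h]; exact hx
    exact this.2

theorem cent_sq_lt {p : ℕ} [Fact p.Prime] (hp : 3 < p) (hP : Nat.card P ∣ p) (ha : a ∈ A)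
    (hgen : A = P ⊔ cj a P) (sol : Group.IsSolvable A) (hU : Group.IsNilpotent U) (h0 : U ≠ ⊥)
    (hA : A ≤ 𝒩(U)) (irr : ∀ D, D ≤ U → A ≤ 𝒩(D) → D = ⊥ ∨ D = U) (hne : ¬ A ≤ 𝒞(U)) :
    Nat.card ↥(U ⊓ 𝒞(P)) ^ 2 < Nat.card U := by
  obtain ⟨ab, q, hq, he⟩ := elem_of_irr hU h0 hA irr
  have := Fact.mk hq
  have : Nontrivial U := (nontrivial_iff_ne_bot U).2 h0
  let φ : A →* MulAut U := U.normalizerMonoidHom.comp (inclusion hA)
  have hφ : ∀ (x : A) (v : U), (φ x v : X) = x * v * (x : X)⁻¹ := fun _ _ => rfl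
  have PA : P ≤ A := hgen ▸ le_sup_left
  have key := fix_sq_lt (q := q) hp (fun x y : U => Subtype.ext (ab y.2 x x.2))
    (fun x => Subtype.ext (he x x.2)) φ (by
      by_contra hn
      refine hne fun g hg u hu => ?_
      have h1 : φ ⟨g, hg⟩ = 1 := by by_contra h; exact hn ⟨_, h⟩
      have h2 := hφ ⟨g, hg⟩ ⟨u, hu⟩
      rw [h1] at h2
      exact eq_mul_inv_iff_mul_eq.1 h2) (fun D hD => by
      rcases irr (D.map U.subtype) (map_subtype_le D) (le_norm_iff.2 (by
        rintro g hg _ ⟨x, hx, rfl⟩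
        exact ⟨_, hD ⟨g, hg⟩ x hx, rfl⟩)) with h | h
      · exact Or.inl ((map_eq_bot_iff_of_injective D U.subtype_injective).1 h)
      · exact Or.inr (map_injective U.subtype_injective (h.trans (map_subtype_top U).symm)))
    (P.subgroupOf A) (by rw [card_subgroupOf_of_le PA]; exact hP) (by
      have h1 : P ≤ (normalClosure ((P.subgroupOf A : Subgroup A) : Set A)).map A.subtype :=
        fun x hx => ⟨⟨x, PA hx⟩, subset_normalClosure hx, rfl⟩
      have h2 := norm_map_subtype (normalClosure ((P.subgroupOf A : Subgroup A) : Set A))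
      have h3 : A ≤ (normalClosure ((P.subgroupOf A : Subgroup A) : Set A)).map A.subtype :=
        hgen.le.trans (sup_le h1 (cj_le_of_mem_norm h1 (h2 ha)))
      exact map_injective A.subtype_injective
        ((le_antisymm (map_subtype_le _) h3).trans (map_subtype_top A).symm))
  have c1 : Nat.card ↥(U ⊓ 𝒞(P)) = Nat.card {x : U // ∀ g ∈ P.subgroupOf A, φ g x = x} := by
    refine Nat.card_congr
      { toFun := fun v => ⟨⟨v.1, v.2.1⟩, fun g hg => Subtype.ext (by
          rw [hφ, v.2.2 g hg, mul_inv_cancel_right])⟩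
        invFun := fun x => ⟨x.1, x.1.2, fun g hg => by
          have h2 := hφ ⟨g, PA hg⟩ x.1
          rw [x.2 ⟨g, PA hg⟩ hg] at h2
          exact (eq_mul_inv_iff_mul_eq.1 h2).symm⟩
        left_inv := fun _ => rfl
        right_inv := fun _ => rfl }
  rwa [c1]

/-- the module step: some `⟨P, P^(va)⟩` contains `U` -/
theorem core {p : ℕ} [Fact p.Prime] (hp : 3 < p) (hP : Nat.card P ∣ p) (ha : a ∈ A)
    (hgen : A = P ⊔ cj a P) (sol : Group.IsSolvable A) (hU : Group.IsNilpotent U) (h0 : U ≠ ⊥)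
    (hA : A ≤ 𝒩(U)) (irr : ∀ D, D ≤ U → A ≤ 𝒩(D) → D = ⊥ ∨ D = U) (RA : R ≤ A) (hR : A ≤ 𝒩(R))
    (cop : (Nat.card R).Coprime (Nat.card U)) (fpf : U ⊓ 𝒞(R) = ⊥) :
    ∃ v ∈ U, U ≤ P ⊔ cj (v * a) P := by
  by_contra hn
  have ab := (elem_of_irr hU h0 hA irr).1
  have RU : R ⊓ U = ⊥ := H49.inf_eq_bot_of_coprime cop
  have nc : ¬ R ≤ 𝒞(U) := fun h => h0 (by rw [← fpf]; exact (inf_eq_left.2 (cent_symm h)).symm)
  have PA : P ≤ A := hgen ▸ le_sup_left
  have PA' : cj a P ≤ A := hgen ▸ le_sup_right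
  have AU : A ⊓ U = ⊥ := (irr _ inf_le_right (norm_inf le_normalizer hA)).resolve_right fun h =>
    nc (cent_of_norm_of_disjoint (RA.trans hA) ((h.ge.trans inf_le_left).trans hR) RU)
  have NU : U ⊓ 𝒩(R) = ⊥ := by
    rw [eq_bot_iff, ← fpf]
    refine le_inf inf_le_left (cent_of_norm_of_disjoint inf_le_right ?_ ?_)
    · exact norm_inf (RA.trans hA) (norm_norm le_normalizer)
    · rw [eq_bot_iff, ← RU]; exact le_inf inf_le_right (inf_le_left.trans inf_le_left)
  have prod : IsProd (U ⊓ 𝒞(P)) (U ⊓ 𝒞(cj a P)) U := by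
    refine ⟨inf_le_left, inf_le_left, fun v hv => ?_⟩
    set B := P ⊔ cj (v * a) P with hB
    have BY : B ≤ A ⊔ U := sup_le (PA.trans le_sup_left)
      (cj_le_of_mem (PA.trans le_sup_left) (mul_mem (mem_sup_right hv) (mem_sup_left ha)))
    have YN : A ⊔ U ≤ 𝒩(U) := sup_le hA le_normalizer
    have AB : A ≤ B ⊔ U := by
      refine hgen.le.trans (sup_le (le_sup_left.trans le_sup_left) ?_)
      have : cj a P = cj v⁻¹ (cj (v * a) P) := by rw [cj_cj, inv_mul_cancel_left]
      rw [this]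
      exact cj_le_of_mem (le_sup_right.trans le_sup_left) (mem_sup_right (inv_mem hv))
    have BU : B ⊓ U = ⊥ := (irr _ inf_le_right (AB.trans (sup_le
      (norm_inf le_normalizer (BY.trans YN)) (norm_of_cent (ab.trans (cent_anti inf_le_right)))))
      ).resolve_right fun h => hn ⟨v, hv, h.ge.trans inf_le_left⟩
    have s1 : IsSdp U R (U ⊔ R) := ⟨rfl, by rw [inf_comm, RU], RA.trans hA⟩
    have s2 : IsSdp U (B ⊓ (U ⊔ R)) (U ⊔ R) := by
      refine ⟨?_, ?_, inf_le_left.trans (BY.trans YN)⟩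
      · rw [← modular_left (Or.inr (BY.trans YN)) le_sup_left]
        exact inf_eq_right.2 (sup_le le_sup_left (RA.trans (AB.trans (sup_comm B U).le)))
      · rw [eq_bot_iff, ← BU]; exact le_inf (inf_le_right.trans inf_le_left) inf_le_left
    obtain ⟨n, nU, hn'⟩ := sdp_conj s1 s2 cop (Or.inr (solvable_of_nilpotent hU))
    have BN : B ≤ 𝒩(cj n R) := by
      rw [hn']
      refine norm_inf le_normalizer (BY.trans (sup_le (norm_sup hA hR) (norm_of_le le_sup_left)))
    have inA : cj n⁻¹ B ≤ A := by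
      have h1 : cj n⁻¹ B ≤ 𝒩(R) := by
        rw [cj_le_iff, inv_inv, cj_normalizer]; exact BN
      have h2 : cj n⁻¹ B ≤ A ⊔ U := cj_le_of_mem BY (mem_sup_right (inv_mem nU))
      have h3 := le_inf h2 h1
      rwa [modular_left (Or.inl hA) hR, NU, sup_bot_eq] at h3
    have fix : ∀ w ∈ U, ∀ x ∈ A, w * x * w⁻¹ ∈ A → x * w = w * x := by
      intro w hw x hx h
      have h1 : w * x * w⁻¹ * x⁻¹ ∈ A ⊓ U := mem_inf.2 ⟨mul_mem h (inv_mem hx), by
        have := mul_mem hw (conj_mem_of_norm hA hx (inv_mem hw))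
        simpa only [mul_assoc] using this⟩
      rw [AU, mem_bot, mul_inv_eq_one, mul_inv_eq_iff_eq_mul] at h1
      exact h1.symm
    refine ⟨n, mem_inf.2 ⟨nU, ?_⟩, n⁻¹ * v,
      mem_inf.2 ⟨mul_mem (inv_mem nU) hv, fun y hy => ?_⟩, by group⟩
    · have : n⁻¹ ∈ 𝒞(P) := fun x hx =>
        fix _ (inv_mem nU) x (PA hx) (inA (conj_mem_cj.2 (mem_sup_left hx)))
      exact inv_mem_iff.1 this
    · refine fix _ (mul_mem (inv_mem nU) hv) y (PA' hy) (inA ?_)
      have : n⁻¹ * v * y * (n⁻¹ * v)⁻¹ = n⁻¹ * (v * y * v⁻¹) * n⁻¹⁻¹ := by group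
      rw [this]
      refine conj_mem_cj.2 (mem_sup_right ?_)
      rw [cj_mul]
      exact conj_mem_cj.2 hy
  have c1 : Nat.card ↥(U ⊓ 𝒞(cj a P)) = Nat.card ↥(U ⊓ 𝒞(P)) := by
    rw [← cj_centralizer, ← cj_eq_of_mem_norm (hA ha), ← cj_inf, cj_eq_of_mem_norm (hA ha)]
    exact (Nat.card_congr (cjEquiv a _).toEquiv).symm
  have c2 := prod.card_mul
  have c3 := cent_sq_lt hp hP ha hgen sol hU h0 hA irr fun h => nc (RA.trans h)
  rw [c1, ← pow_two] at c2
  have c4 := card_pos' (U ⊓ 𝒞(P) ⊓ (U ⊓ 𝒞(cj a P)))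
  nlinarith

end Cfsg.Agent.H27.Flav
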