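import Cfsg.Agent.H27.OFr2
import Cfsg.Agent.H28.MobClass
import Cfsg.Agent.H28.Pgl2Trace

/-!
Dickson's theorem for three-dimensional reflection groups: existence of an Eichler element.
-/

set_option autoImplicit false
set_option linter.unusedSectionVars false

namespace Cfsg.Agent.H27

open Module hiding mk
open Cfsg.Geo H11 H28 Matrix Matrix.ProjGenLinGroup
open scoped MatrixGroups

theorem central_of_index {G : Type*} [Group G] {A : Subgroup G}
    (hA : ∀ x ∈ A, ∀ y ∈ A, Commute x y) (h2 : ∀ x y, x ∉ A → y ∉ A → x * y ∈ A) {a c : G}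
    (a2 : a * a = 1) (c2 : c * c = 1) (h4 : (a * c) ^ 4 = 1) (h1 : (a * c) ^ 2 ≠ 1) (ν : G) :
    Commute ((a * c) ^ 2) ν := by
  have ai := inv_eq_of_mul_eq_one_right a2
  have ci := inv_eq_of_mul_eq_one_right c2
  have hz : (a * c) ^ 2 ∈ A := by
    by_cases h : a * c ∈ A
    · exact A.pow_mem h 2
    · rw [pow_two]; exact h2 _ _ h h
  have e : (c * a) ^ 2 = (a * c) ^ 2 := by
    rw [← ai, ← ci, ← _root_.mul_inv_rev, ai, ci, inv_pow]
    exact inv_eq_of_mul_eq_one_right (by rw [← pow_add, h4])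
  have ha : Commute ((a * c) ^ 2) a := by
    change _ = _
    conv_rhs => rw [← e]
    simp only [pow_two, mul_assoc]
  have hc : Commute ((a * c) ^ 2) c := by
    change _ = _
    conv_lhs => rw [← e]
    simp only [pow_two, mul_assoc]
  obtain ⟨d, hd, hd'⟩ : ∃ d ∉ A, Commute ((a * c) ^ 2) d := by
    by_contra h
    push Not at h
    have := hA a (by_contra fun h' => h a h' ha) c (by_contra fun h' => h c h' hc)
    exact h1 (by rw [this.mul_pow, pow_two, pow_two, a2, c2, one_mul])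
  by_cases hν : ν ∈ A
  · exact hA _ hz _ hν
  · simpa using hd'.inv_right.mul_right (hA _ hz _ (h2 _ _ hd hν))

theorem perm4_pow (σ : Equiv.Perm (Fin 4)) : σ ^ 3 = 1 ∨ σ ^ 4 = 1 := by
  revert σ
  decide +kernel

theorem pgl_exists_p {K : Type*} [Field K] [IsAlgClosed K] (p : ℕ) [Fact p.Prime] [CharP K p]
    (Γ : Subgroup PGL(2, K)) [Finite Γ] {a c ν : PGL(2, K)} (ha : a ∈ Γ) (hc : c ∈ Γ) (hν : ν ∈ Γ)
    (a2 : a * a = 1) (c2 : c * c = 1) (h4 : (a * c) ^ 4 = 1) (h1 : (a * c) ^ 2 ≠ 1)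
    (hn : ¬ Commute ((a * c) ^ 2) ν) (hS : ¬ ∀ g ∈ Γ, g ^ 3 = 1 ∨ g ^ 4 = 1) :
    ∃ m ∈ Γ, m ≠ 1 ∧ m ^ p = 1 := by
  classical
  have M : Mob p K Γ (OnePoint K) :=
    (mob_pgl p).of_hom Γ.subtype Γ.subtype_injective fun _ _ => rfl
  by_contra hp
  push Not at hp
  have ht : ∀ g : Γ, g ^ p = 1 → g = 1 := fun g hg => by
    by_contra h
    exact hp g g.2 (fun e => h (Subtype.ext e)) (congrArg Subtype.val hg)
  have key : ∀ x : OnePoint K, ¬ ∀ g h : Γ, g ∉ MulAction.stabilizer Γ x →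
      h ∉ MulAction.stabilizer Γ x → g * h ∈ MulAction.stabilizer Γ x := fun x hx => by
    have := M.isCyclic_of_tame (x := x) le_rfl fun g _ => ht g
    refine hn (congrArg Subtype.val (central_of_index (fun g hg h hh => ?_) hx (a := ⟨a, ha⟩)
      (c := ⟨c, hc⟩) (Subtype.ext a2) (Subtype.ext c2) (Subtype.ext h4)
      (fun e => h1 (congrArg Subtype.val e)) ⟨ν, hν⟩))
    exact congrArg Subtype.val
      (mul_comm' (⟨g, hg⟩ : MulAction.stabilizer Γ x) (⟨h, hh⟩ : MulAction.stabilizer Γ x))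
  have tr : ∀ {G : Type} [Group G] (e : Γ ≃* G) (g) (hg : g ∈ Γ) (n : ℕ), e ⟨g, hg⟩ ^ n = 1 →
      g ^ n = 1 := fun e g hg n h => by
    rw [← map_pow, map_eq_one_iff _ e.injective] at h
    exact congrArg Subtype.val h
  rcases M.classify_tame fun x => eq_bot_iff.2 fun g hg => ht g hg.2 with
    ⟨x, hx⟩ | ⟨x, hx⟩ | ⟨⟨e⟩⟩ | ⟨⟨e⟩⟩ | ⟨⟨e⟩⟩
  · exact key x fun g _ hg => absurd (hx g) hg
  · exact key x fun g h hg hh => by rw [Subgroup.mul_mem_iff_of_index_two hx]; tauto
  · exact hS fun g hg => (perm4_pow (e ⟨g, hg⟩)).imp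
      (fun h => tr e g hg 3 (Subtype.ext h)) fun h => tr e g hg 4 (Subtype.ext h)
  · exact hS fun g hg => (perm4_pow (e ⟨g, hg⟩)).imp (tr e g hg 3) (tr e g hg 4)
  · have h3 := tr e _ (Γ.mul_mem ha hc)
    rcases alt5_pow (e ⟨a * c, Γ.mul_mem ha hc⟩) with h | h | h
    · exact h1 (h3 _ h)
    · have := h3 _ h
      rw [pow_succ _ 3, this, one_mul] at h4
      exact h1 (by rw [h4, one_pow])
    · have := h3 _ h
      rw [pow_succ _ 4, h4, one_mul] at this
      exact h1 (by rw [this, one_pow])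

theorem pgl_three_refl {K : Type*} [Field K] [IsAlgClosed K] (p : ℕ) [Fact p.Prime] [CharP K p]
    (k2 : (2 : K) ≠ 0) (Γ : Subgroup PGL(2, K)) [Finite Γ] {A C N : GL (Fin 2) K} {α t : K}
    (hA : A.1 = !![1, 0; 0, -1]) (hC : C.1 = !![1, -1; -1, -1]) (hN : N.1 = !![α, t; -t, -α])
    (α0 : α ≠ 0) (t0 : t ≠ 0) (h1 : α * α - t * t ≠ 0) (h2 : α * α + t * t ≠ 0)
    (ha : mk A ∈ Γ) (hc : mk C ∈ Γ) (hν : mk N ∈ Γ) : ∃ m ∈ Γ, m ≠ 1 ∧ m ^ p = 1 := by
  have k4 := mul_ne_zero k2 k2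
  have AC : (A * C).1 = !![1, -1; 1, 1] := by simp [hA, hC]
  have AN : (A * N).1 = !![α, t; t, α] := by simp [hA, hN]
  have CN : (C * N).1 = !![α + t, t + α; t - α, α - t] := by
    simp [hC, hN, sub_eq_add_neg, add_comm]
  refine pgl_exists_p p Γ ha hc hν ?_ ?_ ?_ ?_ ?_ fun h => ?_
  · rw [← pow_two, mk_pow_two_iff]; simp [gtr, hA]
  · rw [← pow_two, mk_pow_two_iff]; simp [gtr, hC]
  · rw [← map_mul, mk_pow_four_iff]
    left
    simp only [gtr, gdet, AC, of_apply, cons_val', cons_val_zero, cons_val_one, cons_val_fin_one]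
    ring
  · rw [← map_mul, Ne, mk_pow_two_iff, pgl_mk_eq_one_iff]
    simpa [gtr, AC, one_add_one_eq_two] using k2
  · intro h
    rw [← map_mul, ← map_pow, Commute, SemiconjBy, ← map_mul, ← map_mul, mk_eq_mk_iff] at h
    obtain ⟨u, hu⟩ := h
    have e := congrArg Units.val hu
    rw [Units.val_mul, Units.val_mul, Units.val_mul, pow_two, Units.val_mul, AC, hN] at e
    have e1 := congrFun (congrFun e 0) 0
    have e2 := congrFun (congrFun e 0) 1
    simp [mul_apply, Fin.sum_univ_two, diagonal_apply] at e1 e2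
    exact mul_ne_zero k4 (mul_ne_zero α0 t0) (by linear_combination t * e2 - α * e1)
  · have e1 := h _ (Γ.mul_mem ha hν)
    have e2 := h _ (Γ.mul_mem hc hν)
    rw [← map_mul, mk_pow_three_iff, mk_pow_four_iff, pgl_mk_eq_one_iff] at e1 e2
    simp only [gtr, gdet, AN, CN, of_apply, cons_val', cons_val_zero, cons_val_one,
      cons_val_fin_one, t0, false_and, or_false] at e1 e2
    have e3 : ¬ (t + α = 0 ∧ t - α = 0 ∧ α + t = α - t) := fun h =>
      mul_ne_zero k2 t0 (by linear_combination h.1 + h.2.1)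
    simp only [e3, or_false] at e2
    rcases e1 with e1 | e1
    · rcases e2 with e2 | e2
      · exact h1 (by linear_combination e1 - e2)
      · exact mul_ne_zero (mul_ne_zero (mul_ne_zero k4 k2) α0) (mul_ne_zero t0 t0)
          (by linear_combination e2)
    · exact mul_ne_zero (mul_ne_zero k4 α0) h2 (by linear_combination e1)

variable {F V : Type*} [Field F] [AddCommGroup V] [Module F V] [FiniteDimensional F V] [Finite F]
variable {Q : QuadraticForm F V} {H : Subgroup (V ≃ₗ[F] V)}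

/-- A unipotent isometry with support in a non-degenerate `3`-space is an Eichler element. -/
theorem exists_eF_of_unip (p : ℕ) [Fact p.Prime] [CharP F p] (h2 : (2 : F) ≠ 0)
    {U : Submodule F V} (hU : NDon Q U) (h3 : finrank F U = 3) {h : V ≃ₗ[F] V} (hh : h ∈ OG Q)
    (hp : h ^ p = 1) (h1 : h ≠ 1) (hx : ∀ x, h x - x ∈ U) :
    ∃ u ∈ U, ∃ c ∈ U, u ≠ 0 ∧ Q u = 0 ∧ pB Q u c = 0 ∧ Q c ≠ 0 ∧ ∀ x, h x = eF Q u c x := by
  obtain ⟨T, hT⟩ : ∃ T : Module.End F V, T = h.toLinearMap - 1 := ⟨_, rfl⟩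
  have T1 : ∀ x, h x = x + T x := fun x => by simp [hT]
  have TU : ∀ x, T x ∈ U := fun x => by simpa [T1] using hx x
  have Tp : T ^ p = 0 := by
    have := congrArg (Polynomial.aeval h.toLinearMap)
      (sub_pow_char (Polynomial.X : Polynomial F) 1 (p := p))
    rw [one_pow, map_pow, map_sub, map_sub, map_pow, Polynomial.aeval_X, map_one, ← hT] at this
    rw [this, sub_eq_zero]
    ext x
    rw [Module.End.pow_apply, LinearEquiv.coe_coe, ← LinearEquiv.pow_apply, hp]; rfl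
  have I : ∀ x y, pB Q (T x) y + pB Q x (T y) + pB Q (T x) (T y) = 0 := fun x y => by
    have := OG_pB hh x y
    simp only [T1, map_add, LinearMap.add_apply] at this
    linear_combination this
  obtain ⟨x0, hx0⟩ : ∃ x, T x ≠ 0 := by
    by_contra h0
    push Not at h0
    exact h1 (LinearEquiv.ext fun x => by simp [T1, h0])
  obtain ⟨m, m1, m2⟩ := exists_nat_maximal (fun m => (T ^ (m + 1)) x0 ≠ 0) (by simpa) p
    fun m hm => by
      by_contra h0
      exact hm (by rw [pow_eq_zero_of_le (by omega) Tp]; rfl)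
  obtain ⟨u, hu⟩ : ∃ u, u = (T ^ (m + 1)) x0 := ⟨_, rfl⟩
  have Tu : T u = 0 := by rw [hu, ← Module.End.mul_apply, ← pow_succ']; simpa using m2
  have uT : ∀ x, pB Q u (T x) = 0 := fun x => by simpa [Tu] using I u x
  have uU : u ∈ U := by rw [hu, pow_succ']; exact TU _
  have u0 : Q u = 0 := by
    have : pB Q u u = 0 := by
      conv_lhs => enter [2]; rw [hu, pow_succ']
      exact uT _
    simpa [pB_self, h2] using this
  rw [← hu] at m1
  obtain ⟨u', hu', -, uu'⟩ := hU.exists_partner uU m1 u0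
  obtain ⟨Y, YU, hY, Yu, dY⟩ := hU.exists_perp uU
  obtain ⟨c0, hc0, q0⟩ := hY.exists_nonsing (by omega)
  have n0 : c0 ∉ Submodule.span F {u} := fun h => by
    obtain ⟨a, rfl⟩ := Submodule.mem_span_singleton.1 h
    simp [Q_smul, u0] at q0
  have sp : ∀ x, ∃ α β : F, T x = α • u + β • c0 := fun x =>
    span_plane (P := U ⊓ LinearMap.ker (pB Q u)) (by
      have : U ⊓ LinearMap.ker (pB Q u) < U := lt_of_le_of_ne inf_le_left fun e => by
        have : u' ∈ U ⊓ LinearMap.ker (pB Q u) := e.symm ▸ hu'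
        simpa [uu'] using this.2
      have := Submodule.finrank_lt_finrank_of_lt this
      omega) ⟨uU, by simp [pB_self, u0]⟩ ⟨YU hc0, Yu c0 hc0⟩ m1 n0 _ ⟨TU x, uT x⟩
  obtain ⟨α, β, e0⟩ := sp c0
  have hβ : β = 0 := by
    have : ∀ k, ∃ γ : F, (T ^ k) c0 = γ • u + β ^ k • c0 := fun k => by
      induction k with
      | zero => exact ⟨0, by simp⟩
      | succ k ih =>
        obtain ⟨γ, e⟩ := ih
        refine ⟨β ^ k * α, ?_⟩
        rw [pow_succ', Module.End.mul_apply, e, map_add, map_smul, map_smul, Tu, e0]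
        module
    obtain ⟨γ, e⟩ := this p
    by_contra hβ
    refine n0 ((Submodule.smul_mem_iff _ (pow_ne_zero p hβ)).1 ?_)
    rw [Tp, LinearMap.zero_apply, eq_comm, add_eq_zero_iff_neg_eq] at e
    rw [← e]
    exact Submodule.neg_mem _ (Submodule.smul_mem _ _ (Submodule.mem_span_singleton_self u))
  rw [hβ, zero_smul, add_zero] at e0
  have hE : ∀ x, h x = eF Q u (T u') x := by
    have h4 : ∀ x, pB Q u x = 0 → T x = -pB Q (T u') x • u := fun x hx => by
      obtain ⟨a, c, e⟩ := sp x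
      have e1 := I x c0
      have e2 := I x u'
      simp only [e, e0, map_add, map_smul, LinearMap.add_apply, LinearMap.smul_apply, smul_eq_mul,
        pB_self, u0, Yu c0 hc0, pB_zero (Yu c0 hc0), pB_zero hx] at e1
      have : c = 0 := by simpa [h2, q0] using e1
      simp only [e, this, zero_smul, add_zero, map_smul, LinearMap.smul_apply, uu', uT,
        smul_eq_mul] at e2 ⊢
      rw [pB_comm, show a = -pB Q x (T u') by linear_combination e2]
    have h5 : pB Q (T u') u' + Q (T u') = 0 := by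
      have := I u' u'
      rw [pB_comm u', pB_self] at this
      exact mul_left_cancel₀ h2 (by linear_combination this)
    intro x
    have := h4 (x - pB Q u x • u') (by simp [uu'])
    rw [map_sub, map_smul, sub_eq_iff_eq_add] at this
    rw [T1, this, eF, map_sub, map_smul, smul_eq_mul,
      show pB Q (T u') u' = -Q (T u') by linear_combination h5]
    module
  refine ⟨u, uU, T u', TU _, m1, u0, uT _, fun q => h1 (LinearEquiv.ext fun x => ?_), hE⟩
  obtain ⟨a, c, e⟩ := sp u'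
  rw [e] at q
  have : c = 0 := by simpa [Qadd, Q_smul, u0, Yu c0 hc0, q0] using q
  rw [hE, e, this, eF]
  simp [Q_smul, u0, smul_smul, mul_comm]

section Rel

variable {K : Type*} [Field K] {φ : V → Matrix (Fin 2) (Fin 2) K} {U : Submodule F V}

/-- `g` acts as conjugation by `M`, up to the sign `ε`. -/
def Rel (φ : V → Matrix (Fin 2) (Fin 2) K) (U : Submodule F V) (g : V ≃ₗ[F] V)
    (M : GL (Fin 2) K) (ε : K) : Prop :=
  (∀ x, g x - x ∈ U) ∧ ∀ x, φ (g x) * M.1 = ε • (M.1 * φ x)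

theorem Rel.one : Rel φ U 1 1 1 := ⟨fun x => by simp, fun x => by simp⟩

theorem Rel.mul {g h : V ≃ₗ[F] V} {M N : GL (Fin 2) K} {ε δ : K} (a : Rel φ U g M ε)
    (c : Rel φ U h N δ) : Rel φ U (g * h) (M * N) (ε * δ) :=
  ⟨fun x => by simpa using U.add_mem (a.1 (h x)) (c.1 x), fun x => by
    rw [le_mul_apply, Units.val_mul, ← mul_assoc, a.2, smul_mul_assoc, mul_assoc, c.2,
      mul_smul_comm, smul_smul, mul_assoc]⟩

theorem Rel.inv {g : V ≃ₗ[F] V} {M : GL (Fin 2) K} {ε : K} (a : Rel φ U g M ε) (h : ε * ε = 1) :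
    Rel φ U g⁻¹ M⁻¹ ε :=
  ⟨fun x => by simpa using U.neg_mem (a.1 (g⁻¹ x)), fun x => by
    have := a.2 (g⁻¹ x)
    rw [le_apply_inv, ← Units.eq_mul_inv_iff_mul_eq] at this
    rw [this, smul_mul_assoc, mul_smul_comm, smul_smul, h, one_smul, mul_assoc,
      Units.inv_mul_cancel_left]⟩

theorem Rel.pow {g : V ≃ₗ[F] V} {M : GL (Fin 2) K} (a : Rel φ U g M 1) (n : ℕ) :
    Rel φ U (g ^ n) (M ^ n) 1 := by
  induction n with
  | zero => simpa using Rel.one
  | succ n ih => simpa [pow_succ] using ih.mul a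

/-- The image of the part of `H` supported on `U`. -/
def GamR (φ : V → Matrix (Fin 2) (Fin 2) K) (U : Submodule F V) (H : Subgroup (V ≃ₗ[F] V)) :
    Subgroup PGL(2, K) where
  carrier := {m | ∃ g ∈ H, ∃ M ε, mk M = m ∧ ε * ε = 1 ∧ Rel φ U g M ε}
  one_mem' := ⟨1, H.one_mem, 1, 1, rfl, one_mul 1, Rel.one⟩
  mul_mem' := by
    rintro _ _ ⟨g, hg, M, ε, rfl, e, a⟩ ⟨h, hh, N, δ, rfl, d, c⟩
    exact ⟨_, H.mul_mem hg hh, _, _, map_mul _ _ _, by linear_combination (δ * δ) * e + d,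
      a.mul c⟩
  inv_mem' := by
    rintro _ ⟨g, hg, M, ε, rfl, e, a⟩
    exact ⟨_, H.inv_mem hg, _, _, map_inv _ _, e, a.inv e⟩

theorem finite_GamR (hc : ∀ N : GL (Fin 2) K, (∀ x, φ x * N.1 = N.1 * φ x) → mk N = 1) :
    Finite (GamR φ U H) := by
  have := finite_lequiv (F := F) (V := V)
  have h1 : ∀ (g : V ≃ₗ[F] V) (ε : K), ε * ε = 1 →
      {m | ∃ M, mk M = m ∧ Rel φ U g M ε}.Finite := fun g ε e =>
    Set.Subsingleton.finite (by
      rintro _ ⟨M, rfl, a⟩ _ ⟨N, rfl, c⟩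
      have := ((a.inv e).mul c).2
      rw [← inv_mul_eq_one, ← map_inv, ← map_mul]
      exact hc _ fun x => by simpa [e] using this x)
  refine Set.Finite.subset (Set.finite_iUnion fun g =>
    (h1 g 1 (one_mul 1)).union (h1 g (-1) (by simp))) ?_
  rintro _ ⟨g, -, M, ε, rfl, e, a⟩
  refine Set.mem_iUnion.2 ⟨g, ?_⟩
  rcases mul_self_eq_one_iff.1 e with rfl | rfl
  exacts [Or.inl ⟨M, rfl, a⟩, Or.inr ⟨M, rfl, a⟩]

theorem exists_unip_of_mem {p : ℕ} (hp : Odd p) (hi : ∀ x y, x - y ∈ U → φ x = φ y → x = y)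
    (hc : ∀ N : GL (Fin 2) K, (∀ x, φ x * N.1 = N.1 * φ x) → mk N = 1) {m : PGL(2, K)}
    (hm : m ∈ GamR φ U H) (m1 : m ≠ 1) (mp : m ^ p = 1) :
    ∃ h ∈ H, h ^ p = 1 ∧ h ≠ 1 ∧ ∀ x, h x - x ∈ U := by
  obtain ⟨g, hg, M, ε, rfl, e, a⟩ := hm
  have a2 := a.mul a
  rw [e] at a2
  refine ⟨g * g, H.mul_mem hg hg, LinearEquiv.ext fun x => hi _ _ ((a2.pow p).1 x) ?_,
    fun h => m1 ?_, a2.1⟩
  · have h1 : mk (1 : GL (Fin 2) K) = mk ((M * M) ^ p) := by
      rw [map_pow, map_mul, ← pow_two, ← pow_mul, mul_comm, pow_mul, mp, one_pow, map_one]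
    obtain ⟨u, hu⟩ := mk_eq_mk_iff.1 h1
    have := (a2.pow p).2 x
    rw [← hu, one_mul, one_smul] at this
    have h2 : (GeneralLinearGroup.scalar (Fin 2) u).1 * φ x =
        φ x * (GeneralLinearGroup.scalar (Fin 2) u).1 :=
      (Matrix.scalar_commute (u : K) (fun _ => Commute.all _ _) _).eq
    rw [h2] at this
    exact (Units.mul_left_inj _).1 this
  · have h1 := hc (M * M) fun x => by simpa [h] using a2.2 x
    obtain ⟨k, rfl⟩ := hp
    rw [map_mul] at h1
    rwa [pow_succ, pow_mul, pow_two, h1, one_pow, one_mul] at mp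

end Rel

/-- Dickson's theorem applied to three reflections. -/
theorem exists_ee_three (h2 : (2 : F) ≠ 0) (hK : H ≤ OG Q) {e e' w : V} (qe : Q e = 1)
    (qe' : Q e' = 1) (qw : Q w ≠ 0) (o1 : pB Q e e' = 0) (o2 : pB Q e w = 0) (o3 : pB Q e' w = 0)
    {α : F} (hα : α ≠ 0) (qv : α * α + Q w ≠ 0) (hτ : α * α ≠ Q w) (r1 : rE Q e ∈ H)
    (r2 : rE Q (e - e') ∈ H) (r3 : rE Q (α • e + w) ∈ H) :
    ∃ u ∈ Submodule.span F (Set.range ![e, e', w]), ∃ c ∈ Submodule.span F (Set.range ![e, e', w]),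
      u ≠ 0 ∧ Q u = 0 ∧ pB Q u c = 0 ∧ Q c ≠ 0 ∧ EE Q H u c := by
  obtain ⟨p, hp⟩ := CharP.exists F
  have : Fact p.Prime := ⟨CharP.char_is_prime F p⟩
  have hp2 : Odd p := this.out.odd_of_ne_two (by
    rintro rfl; exact h2 (by simpa using CharP.cast_eq_zero F 2))
  let K := AlgebraicClosure F
  let f : F →+* K := algebraMap F K
  have fi : ∀ {x : F}, f x = 0 ↔ x = 0 := map_eq_zero_iff f f.injective
  have k2 : (2 : K) ≠ 0 := fun h => h2 (fi.1 (by rw [map_ofNat, h]))
  obtain ⟨t, ht⟩ := IsAlgClosed.exists_eq_mul_self (-f (Q w))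
  have t0 : t ≠ 0 := by rintro rfl; exact qw (fi.1 (by simpa using ht))
  obtain ⟨U, hU⟩ : ∃ U, U = Submodule.span F (Set.range ![e, e', w]) := ⟨_, rfl⟩
  rw [← hU]
  have mem : ∀ {x}, x ∈ U ↔ ∃ a b c : F, x = a • e + b • e' + c • w := by
    intro x
    rw [hU, Submodule.mem_span_range_iff_exists_fun]
    simp only [Fin.sum_univ_three]
    exact ⟨fun ⟨c, h⟩ => ⟨_, _, _, h.symm⟩, fun ⟨a, b, c, h⟩ => ⟨![a, b, c], h.symm⟩⟩
  have z : ∀ a b c : F, pB Q e (a • e + b • e' + c • w) = 2 * a ∧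
      pB Q e' (a • e + b • e' + c • w) = 2 * b ∧
      pB Q w (a • e + b • e' + c • w) = 2 * c * Q w := fun a b c => by
    simp only [map_add, map_smul, pB_self, qe, qe', o1, o2, o3, pB_zero o1, pB_zero o2, pB_zero o3,
      smul_eq_mul]
    refine ⟨by ring, by ring, by ring⟩
  have z0 : ∀ x ∈ U, pB Q e x = 0 → pB Q e' x = 0 → pB Q w x = 0 → x = 0 := by
    intro x hx a1 a2 a3
    obtain ⟨a, b, c, rfl⟩ := mem.1 hx
    obtain ⟨b1, b2, b3⟩ := z a b c
    rw [b1] at a1; rw [b2] at a2; rw [b3] at a3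
    simp_all
  have eU : e ∈ U := mem.2 ⟨1, 0, 0, by simp⟩
  have eU' : e' ∈ U := mem.2 ⟨0, 1, 0, by simp⟩
  have wU : w ∈ U := mem.2 ⟨0, 0, 1, by simp⟩
  have nd : NDon Q U := fun x hx h =>
    z0 x hx (pB_zero (h _ eU)) (pB_zero (h _ eU')) (pB_zero (h _ wU))
  have d3 : finrank F U = 3 := by
    rw [hU, finrank_span_eq_card, Fintype.card_fin]
    rw [Fintype.linearIndependent_iff]
    intro c hc i
    obtain ⟨b1, b2, b3⟩ := z (c 0) (c 1) (c 2)
    rw [show c 0 • e + c 1 • e' + c 2 • w = 0 by simpa [Fin.sum_univ_three] using hc,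
      map_zero, eq_comm] at b1 b2 b3
    fin_cases i <;> simp_all
  let φ : V → Matrix (Fin 2) (Fin 2) K := fun x =>
    !![f (pB Q e x), f (pB Q e' x) + t * f (pB Q w x / Q w);
      f (pB Q e' x) - t * f (pB Q w x / Q w), -f (pB Q e x)]
  have hi : ∀ x y, x - y ∈ U → φ x = φ y → x = y := fun x y h a => by
    have a0 := congrFun (congrFun a 0) 0
    have a1 := congrFun (congrFun a 0) 1
    have a2 := congrFun (congrFun a 1) 0
    simp only [φ, of_apply, cons_val', cons_val_zero, cons_val_one, cons_val_fin_one] at a0 a1 a2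
    have a3 : f (pB Q e' x) = f (pB Q e' y) := mul_left_cancel₀ k2 (by linear_combination a1 + a2)
    have a4 : f (pB Q w x / Q w) = f (pB Q w y / Q w) :=
      mul_left_cancel₀ t0 (by linear_combination a1 - a3)
    refine sub_eq_zero.1 (z0 _ h ?_ ?_ ?_) <;> rw [map_sub, sub_eq_zero]
    exacts [f.injective a0, f.injective a3, (div_left_inj' qw).1 (f.injective a4)]
  have hc : ∀ N : GL (Fin 2) K, (∀ x, φ x * N.1 = N.1 * φ x) → mk N = 1 := fun N h => by
    have a0 := congrFun (congrFun (h e) 0) 1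
    have a1 := congrFun (congrFun (h e) 1) 0
    have a2 := congrFun (congrFun (h e') 0) 1
    simp only [φ, pB_self, qe, qe', o1, pB_zero o1, pB_zero o2, pB_zero o3, mul_apply,
      Fin.sum_univ_two, of_apply, cons_val', cons_val_zero, cons_val_one, cons_val_fin_one,
      zero_div, map_zero, mul_one, map_ofNat] at a0 a1 a2
    have k4 := mul_ne_zero k2 k2
    exact pgl_mk_eq_one_iff.2 ⟨mul_left_cancel₀ k4 (by linear_combination a0),
      mul_left_cancel₀ k4 (by linear_combination -a1),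
      mul_left_cancel₀ k2 (by linear_combination -a2)⟩
  have R : ∀ a b c : F, ∀ q : a * a + b * b + c * c * Q w ≠ 0, rE Q (a • e + b • e' + c • w) ∈ H →
      mk (gl2 (f a) (f b + t * f c) (f b - t * f c) (-f a) fun h => q (fi.1 (by
        simp only [map_add, map_mul]; linear_combination -h - f c * f c * ht))) ∈ GamR φ U H := by
    intro a b c q h
    refine ⟨_, h, _, -1, rfl, by ring, fun x => ?_, fun x => ?_⟩
    · rw [rE_apply, sub_sub_cancel_left]
      exact U.neg_mem (U.smul_mem _ (mem.2 ⟨a, b, c, rfl⟩))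
    obtain ⟨b1, b2, b3⟩ := z a b c
    have q1 : Q (a • e + b • e' + c • w) = a * a + b * b + c * c * Q w := by
      simp [Qadd, Q_smul, qe, qe', o1, o2, o3]
    have q2 : pB Q (a • e + b • e' + c • w) x =
        a * pB Q e x + b * pB Q e' x + c * Q w * (pB Q w x / Q w) := by
      simp only [map_add, map_smul, LinearMap.add_apply, LinearMap.smul_apply, smul_eq_mul]
      field_simp
    obtain ⟨l, hl⟩ : ∃ l, l = (Q (a • e + b • e' + c • w))⁻¹ * pB Q (a • e + b • e' + c • w) x :=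
      ⟨_, rfl⟩
    have q3 := congrArg f (show l * (a * a + b * b + c * c * Q w) =
      a * pB Q e x + b * pB Q e' x + c * Q w * (pB Q w x / Q w) by
        rw [hl, q1, q2, mul_right_comm, inv_mul_cancel₀ q, one_mul])
    have q4 : pB Q w (x - l • (a • e + b • e' + c • w)) / Q w = pB Q w x / Q w - l * (2 * c) := by
      rw [map_sub, map_smul, b3, smul_eq_mul]; field_simp
    simp only [φ, rE_apply, ← hl, q4, gl2_coe]
    simp only [map_sub, map_smul, b1, b2, smul_eq_mul, map_mul, map_add, map_ofNat] at q3 ⊢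
    generalize f (pB Q w x / Q w) = C at *
    ext i j
    fin_cases i <;> fin_cases j <;> simp [mul_apply, Fin.sum_univ_two]
    · linear_combination (-2) * q3 + (2 * f c * C - 2 * f l * f c * f c) * ht
    · ring
    · ring
    · linear_combination (-2) * q3 + (2 * f c * C - 2 * f l * f c * f c) * ht
  have R1 := R 1 0 0 (by simp) (by simpa using r1)
  have R2 := R 1 (-1) 0 (by simpa [one_add_one_eq_two] using h2) (by simpa [← sub_eq_add_neg] using r2)
  have R3 := R α 0 1 (by simpa using qv) (by simpa using r3)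
  have := finite_GamR (U := U) (H := H) hc
  have fa : f α ≠ 0 := mt fi.1 hα
  have fv : f α * f α - t * t ≠ 0 := fun h => qv (fi.1 (by
    rw [map_add, map_mul]; linear_combination h - ht))
  have fτ : f α * f α + t * t ≠ 0 := fun h => hτ (f.injective (by
    rw [map_mul]; linear_combination h + ht))
  obtain ⟨m, hm, m1, mp⟩ := pgl_three_refl p k2 _ (by simp [gl2_coe]) (by simp [gl2_coe])
    (by simp [gl2_coe]) fa t0 fv fτ R1 R2 R3
  obtain ⟨h, hh, h1, h3, h4⟩ := exists_unip_of_mem hp2 hi hc hm m1 mp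
  obtain ⟨u, hu, c, hc, u0, u1, u2, c0, hE⟩ := exists_eF_of_unip p h2 nd d3 (hK hh) h1 h3 h4
  exact ⟨u, hu, c, hc, u0, u1, u2, c0, h, hh, hE⟩

end Cfsg.Agent.H27
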