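import Cfsg.Agent.H27.OFr3

/-!
Orthonormal frames over prime fields: overgroups of the full monomial group.
-/

set_option autoImplicit false
set_option linter.unusedSectionVars false

namespace Cfsg.Agent.H27

open Module Cfsg.Geo QuadraticMap H11

variable {F V : Type*} [Field F] [AddCommGroup V] [Module F V] [FiniteDimensional F V] [Finite F]
variable {ι : Type*} [Fintype ι] [DecidableEq ι]
variable {Q : QuadraticForm F V} {b : Basis ι F V} {H : Subgroup (V ≃ₗ[F] V)}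

theorem rr_move2 (h2 : (2 : F) ≠ 0) (hK : H ≤ OG Q) {y z x c : V} {hy : Q y = 0} {hz : Q z = 0}
    {hx : Q x = 0} (cy : c ∈ RR H hy) (cz : c ∈ RR H hz) (cx : c ∈ RR H hx) {β : F} (β0 : β ≠ 0)
    (zx : pB Q z x = β) (zy : pB Q z y = β) (yx : pB Q y x ≠ 0) (c0 : Q c ≠ 0)
    (γ1 : Q c * pB Q y x ≠ 1) (γ2 : Q c * pB Q y x ≠ -1) :
    ∃ s, s ≠ 0 ∧ ∃ hs : Q s = 0, (∃ l1 l2 : F, s = x + l1 • c + l2 • y) ∧
      ∃ n1 n2 n3 : F, n3 ≠ 0 ∧ n1 • c + n2 • y + n3 • z ∈ RR H hs := by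
  obtain ⟨g, hg, e⟩ := (cy.2 1).exists
  obtain ⟨t, ht⟩ : ∃ t, t * (β * (1 - Q c * pB Q y x)) = -2 * pB Q y x :=
    ⟨_, div_mul_cancel₀ _ (mul_ne_zero β0 (sub_ne_zero.2 γ1.symm))⟩
  have t0 : t ≠ 0 := by rintro rfl; simp [h2, yx] at ht
  obtain ⟨g', hg', e'⟩ := (cz.2 t).exists
  have x0 : x ≠ 0 := by rintro rfl; simp at yx
  have hs : Q (g' (g x)) = 0 := by rw [hK hg', hK hg, hx]
  have := rr_conj (rr_conj cx hg (hK hg) ((hK hg x).trans hx) rfl) hg' (hK hg') hs rfl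
  refine ⟨g' (g x), by simpa using x0, hs, ⟨-pB Q y x, -(Q c * pB Q y x), ?_⟩,
    1 - 2 * Q c * β * t, -(2 * Q c), -(2 * Q c * t * (1 - t * Q c * β)), ?_, ?_⟩
  · simp only [e, e', eF, one_smul, map_add, map_sub, map_smul, LinearMap.smul_apply, smul_eq_mul,
      pB_zero cx.1, pB_zero cy.1, cz.1, zx, zy, pB_self, Q_smul]
    match_scalars
    · ring
    · linear_combination ht
    · ring
    · linear_combination (-t * Q c) * ht
  · refine neg_ne_zero.2 (mul_ne_zero (mul_ne_zero (mul_ne_zero h2 c0) t0) fun h => γ2 ?_)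
    linear_combination (1 - Q c * pB Q y x) * h + Q c * ht
  · convert this using 1
    simp only [e, e', eF, one_smul, map_add, map_sub, map_smul, LinearMap.smul_apply, smul_eq_mul,
      cy.1, pB_zero cy.1, cz.1, zy, pB_self, Q_smul]
    module

theorem Fr.swap_apply (S : Fr Q b) {i j : ι} (h : i ≠ j) (x : V) :
    rE Q (b i - b j) x = x - (b.repr x i - b.repr x j) • (b i - b j) := by
  rw [rE_apply, S.Q_sub_b h, map_sub, LinearMap.sub_apply, S.pB_b, S.pB_b, ← mul_sub,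
    inv_mul_cancel_left₀ S.two]

theorem five_le_of_basis (b : Basis ι F V) (h : 9 ≤ Fintype.card ι) : 5 ≤ finrank F V := by
  rw [finrank_eq_card_basis b]; omega

/-- Groups of isometries containing the full monomial group, over a prime field. -/
structure FF (Q : QuadraticForm F V) (b : Basis ι F V) (H : Subgroup (V ≃ₗ[F] V)) : Prop
    extends Fr Q b where
  nine : 9 ≤ Fintype.card ι
  prime : ∀ c : F, ∃ n : ℕ, c = n
  le : H ≤ OG Q
  r1 : ∀ i, rE Q (b i) ∈ H
  r2 : ∀ i j, i ≠ j → rE Q (b i - b j) ∈ H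

namespace FF

variable (S : FF Q b H)
include S

theorem rr_of_ee {u v : V} (hu : Q u = 0) (huv : pB Q u v = 0) (h : EE Q H u v) :
    v ∈ RR H hu := rr_of_ll fun c => by
  obtain ⟨n, rfl⟩ := S.prime c
  rw [Nat.cast_smul_eq_nsmul]
  exact (LL H hu).nsmul_mem ⟨huv, h⟩ n

theorem rr_sign {u v : V} {hu : Q u = 0} (h : v ∈ RR H hu) {m : ι} (um : b.repr u m = 0)
    (vm : b.repr v m ≠ 0) : b m ∈ RR H hu := by
  have := (RR H hu).sub_mem h (rr_conj h (S.r1 m) (rE_mem _) hu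
    (rE_of_perp (by simp [S.pB_b, um])))
  rw [rE_apply, sub_sub_cancel, S.one, S.pB_b] at this
  exact (Submodule.smul_mem_iff _ (by simp [vm, S.two])).1 this

theorem rr_swap {u : V} {hu : Q u = 0} {i j : ι} (h : b i ∈ RR H hu) (ui : b.repr u i = 0)
    (uj : b.repr u j = 0) : b j ∈ RR H hu := by
  by_cases hij : i = j
  · rwa [← hij]
  simpa [S.swap_apply hij, hij] using rr_conj h (S.r2 i j hij) (rE_mem _) hu
    (by simp [S.swap_apply hij, ui, uj])

theorem fin1 {u : V} (u0 : u ≠ 0) {hu : Q u = 0} {T : Finset ι} (h3 : 3 ≤ T.card)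
    (hT : ∀ t ∈ T, b.repr u t = 0) {a : ι} (ha : a ∈ T) (h : b a ∈ RR H hu) : OM Q ≤ H := by
  have hX : Submodule.span F (b '' T) ≤ RR H hu := by
    rw [Submodule.span_le]
    rintro _ ⟨t, ht, rfl⟩
    exact S.rr_swap h (hT a ha) (hT t ht)
  obtain ⟨s, hs, s1, s0⟩ := exists_sing_sub (Q := Q) (X := Submodule.span F (b '' T)) (by
    rw [Set.image_eq_range]
    erw [finrank_span_eq_card (b.linearIndependent.comp _ Subtype.val_injective)]
    simpa using h3)
  have sT : ∀ k ∉ T, b.repr s k = 0 := fun k hk => by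
    by_contra h0
    exact hk (b.mem_span_image.1 hs (Finsupp.mem_support_iff.2 h0))
  have us := rr_symm (hX hs) s1
  obtain ⟨m, hm⟩ := S.exists_repr_ne u0
  have mT : m ∉ T := fun h => hm (hT m h)
  have bm := S.rr_sign us (sT m mT) hm
  have A : AO Q H s := ⟨s1, fun v hv => by
    have hz : ∑ k ∈ Tᶜ, b.repr v k • b k ∈ RR H s1 := Submodule.sum_mem _ fun k hk =>
      Submodule.smul_mem _ _ (S.rr_swap bm (sT m mT) (sT k (by simpa using hk)))
    have e := b.sum_repr v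
    rw [← Finset.sum_add_sum_compl T] at e
    have hy : ∑ k ∈ T, b.repr v k • b k ∈ RR H hu := hX (Submodule.sum_mem _ fun k hk =>
      Submodule.smul_mem _ _ (Submodule.subset_span ⟨k, hk, rfl⟩))
    generalize ∑ k ∈ T, b.repr v k • b k = y at *
    generalize ∑ k ∈ Tᶜ, b.repr v k • b k = z at *
    subst e
    have := rr_move bm hy (pB_zero us.1) (pB_zero (by simpa [hz.1] using hv))
    rw [Submodule.sub_mem_iff_left _ ((RR H s1).smul_mem _ us),
      Submodule.smul_mem_iff _ (by simp [S.pB_b', hm, S.two])] at this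
    exact (RR H s1).add_mem this hz⟩
  obtain ⟨k, hk⟩ := S.exists_repr_ne s0
  refine OM_le_of_two S.nd (five_le_of_basis b S.nine) A (A.conj (S.r1 k) (rE_mem _)) ?_
  simp [rE_apply, pB_self, s1, S.pB_b, S.pB_b', S.one, hk, S.two]

theorem fin2 (h3 : (3 : F) ≠ 0) {u c : V} (u0 : u ≠ 0) {hu : Q u = 0} (h : c ∈ RR H hu)
    (c0 : Q c ≠ 0) {J : Finset ι} (h5 : J.card ≤ 5) (uJ : ∀ t ∉ J, b.repr u t = 0)
    (cJ : ∀ t ∉ J, b.repr c t = 0) : OM Q ≤ H := by
  have h9 := S.nine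
  have h2 := S.two
  obtain ⟨m, hm⟩ := S.exists_repr_ne u0
  have mJ : m ∈ J := by_contra fun h => hm (uJ m h)
  obtain ⟨c, h, c0, cJ, cm⟩ : ∃ c ∈ RR H hu, Q c ≠ 0 ∧ (∀ t ∉ J, b.repr c t = 0) ∧
      b.repr c m = 0 :=
    ⟨c - (b.repr c m / b.repr u m) • u, (RR H hu).sub_mem h ((RR H hu).smul_mem _ (rr_self hu)),
      by simpa [Qsub, Q_smul, hu, pB_zero h.1] using c0, fun t ht => by simp [uJ t ht, cJ t ht],
      by simp [hm]⟩
  obtain ⟨a, ha⟩ : Jᶜ.Nonempty := by rw [← Finset.card_pos, Finset.card_compl]; omega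
  have c3 : 3 ≤ (insert a J)ᶜ.card := by
    have := Finset.card_insert_le a J
    rw [Finset.card_compl]; omega
  obtain ⟨d, hd⟩ : (insert a J)ᶜ.Nonempty := by rw [← Finset.card_pos]; omega
  simp only [Finset.mem_compl, Finset.mem_insert, not_or] at ha hd
  have ne : ∀ a ∉ J, m ≠ a := fun a ha e => ha (e ▸ mJ)
  obtain ⟨μ, hμ⟩ : ∃ μ, b.repr u m = μ := ⟨_, rfl⟩
  rw [hμ] at hm
  have X : ∀ a ∉ J, ∃ hx : Q (u - μ • (b m - b a)) = 0, c ∈ RR H hx := fun a ha => by
    have e : rE Q (b m - b a) u = u - μ • (b m - b a) := by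
      simp [S.swap_apply (ne a ha), uJ a ha, hμ]
    refine ⟨e ▸ (rE_mem _ u).trans hu, ?_⟩
    simpa [S.swap_apply (ne a ha), cm, cJ a ha] using
      rr_conj h (S.r2 m a (ne a ha)) (rE_mem _) _ e
  obtain ⟨hy, cy⟩ := X a ha
  obtain ⟨hz, cz⟩ := X d hd.2
  have uu : pB Q u u = 0 := by simp [pB_self, hu]
  have key : ∀ x, ∀ hx : Q x = 0, c ∈ RR H hx → (∀ t ∉ insert a J, b.repr x t = 0) →
      pB Q (u - μ • (b m - b d)) x = -2 * μ * μ → ∀ k : F, k ≠ 0 →
      pB Q (u - μ • (b m - b a)) x = k * μ * μ → Q c * (k * μ * μ) ≠ 1 →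
      Q c * (k * μ * μ) ≠ -1 → OM Q ≤ H := by
    intro x hx cx xJ e1 k k0 e2 g1 g2
    obtain ⟨s, s0, hs, ⟨l1, l2, rfl⟩, n1, n2, n3, n0, hn⟩ := rr_move2 h2 S.le cy cz cx
      (β := -2 * μ * μ) (by simp [h2, hm]) e1 (by
        simp [uu, S.pB_b, S.pB_b', hμ, uJ a ha, uJ d hd.2, ne a ha, ne d hd.2, Ne.symm hd.1]
        ring) (by rw [e2]; simp [k0, hm]) c0 (e2 ▸ g1) (e2 ▸ g2)
    have z : ∀ t ∈ (insert a J)ᶜ, b.repr (x + l1 • c + l2 • (u - μ • (b m - b a))) t = 0 := by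
      intro t ht
      have := xJ t (by simpa using ht)
      simp only [Finset.mem_compl, Finset.mem_insert, not_or] at ht
      simp [this, cJ t ht.2, uJ t ht.2, ne t ht.2, Ne.symm ht.1]
    have dT : d ∈ (insert a J)ᶜ := by simp [hd]
    exact S.fin1 s0 c3 z dT (S.rr_sign hn (z d dT) (by
      simp [cJ d hd.2, uJ d hd.2, ne d hd.2, Ne.symm hd.1, n0, hm]))
  by_cases g : Q c * (-2 * μ * μ) = 1 ∨ Q c * (-2 * μ * μ) = -1
  · have e : rE Q (b a) (u - μ • (b m - b a)) = u - μ • (b m + b a) := by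
      simp [rE_apply, S.one, S.pB_b, uJ a ha, ne a ha]
      module
    have hx : Q (u - μ • (b m + b a)) = 0 := e ▸ (rE_mem _ _).trans hy
    refine key _ hx (by
      simpa [rE_of_perp (show pB Q (b a) c = 0 by simp [S.pB_b, cJ a ha])] using
        rr_conj cy (S.r1 a) (rE_mem _) hx e) (fun t ht => ?_) ?_ (-4) ?_ ?_ ?_ ?_
    · simp only [Finset.mem_insert, not_or] at ht
      simp [uJ t ht.2, ne t ht.2, Ne.symm ht.1]
    · simp [uu, S.pB_b, S.pB_b', hμ, uJ a ha, uJ d hd.2, ne a ha, ne d hd.2, Ne.symm hd.1]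
      ring
    · exact fun h => mul_ne_zero h2 h2 (by linear_combination -h)
    · simp [uu, S.pB_b, S.pB_b', hμ, uJ a ha, ne a ha, (ne a ha).symm]
      ring
    · rcases g with g | g
      · exact fun h => one_ne_zero (α := F) (by linear_combination h - 2 * g)
      · exact fun h => h3 (by linear_combination 2 * g - h)
    · rcases g with g | g
      · exact fun h => h3 (by linear_combination h - 2 * g)
      · exact fun h => one_ne_zero (α := F) (by linear_combination 2 * g - h)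
  · push Not at g
    refine key u hu h (fun t ht => uJ t fun h => ht (by simp [h])) ?_ (-2) (by simp [h2]) ?_ g.1 g.2
    · simp [uu, S.pB_b, hμ, uJ d hd.2]
      ring
    · simp [uu, S.pB_b, hμ, uJ a ha]
      ring

theorem finV {v : V} (hv : rE Q v ∈ H) (v0 : Q v ≠ 0) {J : Finset ι} (h4 : J.card ≤ 4)
    (vJ : ∀ t ∉ J, b.repr v t = 0) (vf : ∀ l, v ∉ frame b l) (h3 : (3 : F) = 0 → Q v = 1) {i : ι}
    (hi : b.repr v i ≠ 0) (hτ : 2 * (b.repr v i * b.repr v i) ≠ Q v) : OM Q ≤ H := by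
  have h9 := S.nine
  obtain ⟨α, hα⟩ : ∃ α, b.repr v i = α := ⟨_, rfl⟩
  obtain ⟨w, rfl⟩ : ∃ w, v = α • b i + w := ⟨v - α • b i, by abel⟩
  have wi : b.repr w i = 0 := by simpa using hα
  have iJ : i ∈ J := by_contra fun h => hi (vJ i h)
  have wJ : ∀ t ∉ J, b.repr w t = 0 := fun t ht => by
    simpa [show i ≠ t from fun e => ht (e ▸ iJ)] using vJ t ht
  have w0 : w ≠ 0 := by rintro rfl; exact vf i (mem_frame.2 ⟨α, by simp⟩)
  have q : Q (α • b i + w) = α * α + Q w := by simp [Qadd, Q_smul, S.one, S.pB_b, wi]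
  rw [hα] at hi hτ
  rw [q] at v0 hτ h3
  by_cases qw : Q w = 0
  · have o : pB Q w (α • b i) = 0 := by simp [S.pB_b', wi]
    have := S.rr_of_ee qw (by simp [o]) (ee_of_pair (H := H) qw o (by simp [Q_smul, S.one, hi])
      (Q (α • b i))⁻¹ (by
        rw [inv_mul_cancel₀ (by simp [Q_smul, S.one, hi]), one_smul, rE_smul hi]
        exact H.mul_mem (S.r1 i) hv))
    rw [smul_smul, Submodule.smul_mem_iff _ (by simp [Q_smul, S.one, hi])] at this
    refine S.fin1 w0 (T := insert i Jᶜ) ?_ (fun t ht => ?_) (by simp) this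
    · have := Finset.card_le_card (Finset.subset_insert i Jᶜ)
      rw [Finset.card_compl] at this; omega
    · rcases Finset.mem_insert.1 ht with rfl | ht
      exacts [wi, wJ t (by simpa using ht)]
  obtain ⟨j, hj⟩ : Jᶜ.Nonempty := by rw [← Finset.card_pos, Finset.card_compl]; omega
  rw [Finset.mem_compl] at hj
  have hij : i ≠ j := fun e => hj (e ▸ iJ)
  obtain ⟨u, hu, c, hc, u0, u1, u2, c0, hE⟩ := exists_ee_three S.two S.le (S.one i) (S.one j) qw
    (S.orth i j hij) (by simp [S.pB_b, wi]) (by simp [S.pB_b, wJ j hj]) hi v0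
    (fun h => hτ (by linear_combination h)) (S.r1 i) (S.r2 i j hij) hv
  have sup : ∀ x ∈ Submodule.span F (Set.range ![b i, b j, w]), ∀ t ∉ insert j J,
      b.repr x t = 0 := fun x hx t ht => by
    simp only [Finset.mem_insert, not_or] at ht
    obtain ⟨c, rfl⟩ := (Submodule.mem_span_range_iff_exists_fun F).1 hx
    simp [Fin.sum_univ_three, wJ t ht.2, Ne.symm ht.1, show i ≠ t from fun e => ht.2 (e ▸ iJ)]
  refine S.fin2 (fun h => qw ?_) u0 (S.rr_of_ee u1 u2 hE) c0 (J := insert j J)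
    ((Finset.card_insert_le _ _).trans (by omega)) (sup u hu) (sup c hc)
  obtain ⟨n, rfl⟩ := S.prime α
  have e : (n : F) = (n % 3 : ℕ) := by
    conv_lhs => rw [← Nat.mod_add_div n 3]
    simp [h]
  have h1 := h3 h
  rw [e] at hi h1
  have := Nat.mod_lt n (show 0 < 3 by omega)
  generalize n % 3 = r at *
  interval_cases r
  · simp at hi
  · simpa using h1
  · push_cast at h1; linear_combination h1 - h

end FF

end Cfsg.Agent.H27
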