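import Cfsg.Agent.H27.OFr4

/-!
Maximality of the stabiliser of an orthogonal frame over a prime field.
-/

set_option autoImplicit false
set_option linter.unusedSectionVars false

namespace Cfsg.Agent.H27

open Module Cfsg.Geo QuadraticMap H11

section Abs

variable {F V : Type*} [Field F] [AddCommGroup V] [Module F V] [FiniteDimensional F V] [Finite F]
variable {ι : Type*} [Fintype ι] [DecidableEq ι]
variable {Q : QuadraticForm F V} {b : Basis ι F V} {H : Subgroup (V ≃ₗ[F] V)}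

theorem Fr.exists_sign (S : Fr Q b) {x : V} {l : ι} (h : x ∈ frame b l) (q : Q x = 1) :
    ∃ c : F, c * c = 1 ∧ x = c • b l := by
  obtain ⟨c, rfl⟩ := mem_frame.1 h
  exact ⟨c, by simpa [Q_smul, S.one] using q, rfl⟩

theorem Fr.Q_root (S : Fr Q b) {s t : ι} (h : s ≠ t) {c c' : F} (hc : c * c = 1)
    (hc' : c' * c' = 1) : Q (c • b s - c' • b t) = 2 := by
  simp [Qsub, Q_smul, S.one, S.orth s t h, hc, hc', one_add_one_eq_two]

theorem Fr.root_mem (S : Fr Q b) {s t : ι} (h : s ≠ t) {c c' : F} (hc : c * c = 1)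
    (hc' : c' * c' = 1) : rE Q (c • b s - c' • b t) ∈ dstab (frame b) := mem_dstab_frame fun k => by
  have := S.two
  rw [rE_apply, S.Q_root h hc hc', S.pB_b', inv_mul_cancel_left₀ this]
  by_cases h1 : k = s
  · refine ⟨t, mem_frame.2 ⟨c * c', ?_⟩⟩
    simp [h1, h.symm, smul_sub, smul_smul, hc]
  by_cases h2 : k = t
  · refine ⟨s, mem_frame.2 ⟨c' * c, ?_⟩⟩
    simp [h2, h, smul_sub, smul_smul, hc']
  · exact ⟨k, by simpa [Ne.symm h1, Ne.symm h2] using self_mem_frame b k⟩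

/-- Overgroups of the frame stabiliser in `Ω`. -/
structure OFr (Q : QuadraticForm F V) (b : Basis ι F V) (H : Subgroup (V ≃ₗ[F] V)) : Prop
    extends Fr Q b where
  nine : 9 ≤ Fintype.card ι
  prime : ∀ c : F, ∃ n : ℕ, c = n
  le : H ≤ OG Q
  ds : dstab (frame b) ⊓ OM Q ≤ H

namespace OFr

variable (S : OFr Q b H)
include S

theorem rr1 (i j : ι) : rE Q (b i) * rE Q (b j) ∈ H :=
  S.ds ⟨by rw [S.rE_b, S.rE_b]; exact Subgroup.mul_mem _ (sg_mem_dstab _) (sg_mem_dstab _),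
    rE_mul_mem S.nd (by simp [S.one]) (by simp [S.one])⟩

theorem rr2 {s t k l : ι} (h : s ≠ t) (h' : k ≠ l) {c c' : F} (hc : c * c = 1)
    (hc' : c' * c' = 1) : rE Q (c • b s - c' • b t) * rE Q (b k - b l) ∈ H :=
  S.ds ⟨Subgroup.mul_mem _ (S.root_mem h hc hc') (by
      simpa using S.root_mem h' (one_mul 1) (one_mul 1)),
    rE_mul_mem S.nd (by simpa [S.Q_root h hc hc'] using S.two)
      (by rw [S.Q_root h hc hc', S.Q_sub_b h'])⟩

theorem rr3 {s t k l : ι} (h : s ≠ t) (h' : k ≠ l) : rE Q (b s - b t) * rE Q (b k - b l) ∈ H := by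
  simpa using S.rr2 h h' (one_mul 1) (one_mul 1)

theorem mem_ext1 {g : V ≃ₗ[F] V} (hg : g ∈ H) {k l : ι} (h : g (b k) ∈ frame b l) :
    g ∈ extG Q H (b k) := by
  obtain ⟨c, hc, e⟩ := S.exists_sign h ((S.le hg _).trans (S.one k))
  exact ⟨S.le hg, by
    rw [e, rE_smul (left_ne_zero_of_mul_eq_one hc)]; exact S.rr1 _ _, Or.inl hg⟩

theorem mem_ext2 {g : V ≃ₗ[F] V} (hg : g ∈ H) {k l s t : ι} (hkl : k ≠ l)
    (h : g (b k) ∈ frame b s) (h' : g (b l) ∈ frame b t) : g ∈ extG Q H (b k - b l) := by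
  obtain ⟨c, hc, e⟩ := S.exists_sign h ((S.le hg _).trans (S.one k))
  obtain ⟨c', hc', e'⟩ := S.exists_sign h' ((S.le hg _).trans (S.one l))
  refine ⟨S.le hg, ?_, Or.inl hg⟩
  rw [map_sub, e, e']
  refine S.rr2 ?_ hkl hc hc'
  rintro rfl
  have := (OG_pB (S.le hg) _ _).trans (S.orth k l hkl)
  simp [e, e', pB_self, S.one, S.two, left_ne_zero_of_mul_eq_one hc,
    left_ne_zero_of_mul_eq_one hc'] at this

omit S in
theorem exists_mem_frame {g : V ≃ₗ[F] V} (hg : g ∈ dstab (frame b)) (k : ι) :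
    ∃ l, g (b k) ∈ frame b l := by
  obtain ⟨σ, hσ⟩ := exists_of_mem_dstab_frame hg
  obtain ⟨c, -, hc⟩ := hσ k
  exact ⟨σ k, mem_frame.2 ⟨c, hc.symm⟩⟩

theorem ext1 (k : ι) : OFr Q b (extG Q H (b k)) :=
  { S with
    le := fun _ h => h.1
    ds := fun _ hg => S.mem_ext1 (S.ds hg) (exists_mem_frame hg.1 k).choose_spec }

theorem not_part {g : V ≃ₗ[F] V} (hg : g ∈ H) (hg' : g ∉ dstab (frame b)) :
    ¬ PartI b H Finset.univ := fun P => hg' (S.ph_core S.le (I := Finset.univ) (r := 2) two_pos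
  (by have := S.nine; simp; omega) (by simp)
  (fun T _ h => (S.sg_mem_of_even S.rr1 T).1 (by rcases h with h | h <;> rw [h] <;> decide))
  (fun g hg k _ T _ hT h => by
    obtain ⟨i, j, hij, rfl⟩ := Finset.card_eq_two.1 hT
    exact S.ca2 S.nine S.le P (fun c d e f => S.rr3) S.rr1 hg hij (h i (by simp)) (h j (by simp)))
  hg)

theorem descent (hr : ∀ i, rE Q (b i) ∈ H) {g : V ≃ₗ[F] V} (hg : g ∈ H)
    (hg' : g ∉ dstab (frame b)) : ∃ I : Finset ι, I.card ≤ 4 ∧ ∃ h ∈ H, h ∉ dstab (frame b) ∧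
      ∀ j ∉ I, h (b j) ∈ frame b j := by
  classical
  have ex : ∃ n, ∃ I : Finset ι, I.card = n ∧ ∃ h ∈ H, h ∉ dstab (frame b) ∧
      ∀ j ∉ I, h (b j) ∈ frame b j := ⟨_, Finset.univ, rfl, g, hg, hg', by simp⟩
  obtain ⟨I, hI, h, hh, hh', h1⟩ := Nat.find_spec ex
  refine ⟨I, ?_, h, hh, hh', h1⟩
  by_contra h5
  let K := H ⊓ ⨅ j : {j // j ∉ I}, stab (frame b j)
  have mK : ∀ {g}, g ∈ K ↔ g ∈ H ∧ ∀ j ∉ I, g (b j) ∈ frame b j := by
    intro g
    simp only [K, Subgroup.mem_inf, Subgroup.mem_iInf, Subtype.forall]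
    refine and_congr_right fun _ => forall₂_congr fun j _ =>
      ⟨fun h => stab_apply h (self_mem_frame b j), fun h => mem_stab_of_mapsTo fun x hx => ?_⟩
    obtain ⟨c, rfl⟩ := mem_frame.1 hx
    rw [map_smul]; exact Submodule.smul_mem _ _ h
  have hK : K ≤ OG Q := fun _ h => S.le h.1
  have ne : ∀ i ∈ I, ∀ j ∉ I, i ≠ j := fun i hi j hj e => hj (e ▸ hi)
  have k1 : ∀ i ∈ I, rE Q (b i) ∈ K := fun i hi => mK.2 ⟨hr i, fun j hj => by
    rw [rE_of_perp (S.orth i j (ne i hi j hj))]; exact self_mem_frame b j⟩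
  have k2 : ∀ c ∈ I, ∀ d ∈ I, ∀ e ∈ I, ∀ f ∈ I, c ≠ d → e ≠ f →
      rE Q (b c - b d) * rE Q (b e - b f) ∈ K := fun c hc d hd e he f hf h1 h2 =>
    mK.2 ⟨S.rr3 h1 h2, fun j hj => by
      simpa [S.swap_apply h1, S.swap_apply h2, ne c hc j hj, ne d hd j hj, ne e he j hj,
        ne f hf j hj, (ne c hc j hj).symm, (ne d hd j hj).symm, (ne e he j hj).symm,
        (ne f hf j hj).symm] using self_mem_frame b j⟩
  have P0 : ∀ g ∈ K, ∀ k ∈ I, g (b k) ∈ frame b k → g ∈ dstab (frame b) := fun g hg k hk h => by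
    by_contra hn
    refine Nat.find_min ex (m := (I.erase k).card) (by
      rw [← hI]; exact Finset.card_erase_lt_of_mem hk) ⟨_, rfl, g, hg.1, hn, fun j hj => ?_⟩
    by_cases e : j = k
    · rwa [e]
    · exact (mK.1 hg).2 j (by simpa [e] using hj)
  have P : PartI b K I := fun g hg k hk l h => by
    by_cases e : k = l
    · exact P0 g hg k hk (e ▸ h)
    obtain ⟨c, hc, e1⟩ := S.exists_sign h ((hK hg _).trans (S.one k))
    have hl : l ∈ I := by
      by_contra hl
      obtain ⟨c', hc', e2⟩ := S.exists_sign ((mK.1 hg).2 l hl) ((hK hg _).trans (S.one l))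
      have := (OG_pB (hK hg) _ _).trans (S.orth k l e)
      simp [e1, e2, pB_self, S.one, S.two, left_ne_zero_of_mul_eq_one hc,
        left_ne_zero_of_mul_eq_one hc'] at this
    obtain ⟨r, hr, s, hs, hrs⟩ := (Finset.one_lt_card (s := I \ {k, l})).1 (by
      have := Finset.le_card_sdiff {k, l} I
      have := Finset.card_le_two (a := k) (b := l)
      omega)
    simp only [Finset.mem_sdiff, Finset.mem_insert, Finset.mem_singleton, not_or] at hr hs
    have hn := k2 k hk l hl r hr.1 s hs.1 e hrs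
    refine (Subgroup.mul_mem_cancel_left _ (Subgroup.mul_mem _
      (by simpa using S.root_mem e (one_mul 1) (one_mul 1))
      (by simpa using S.root_mem hrs (one_mul 1) (one_mul 1)))).1
      (P0 _ (K.mul_mem hn hg) k hk (mem_frame.2 ⟨c, ?_⟩))
    simp [e1, S.swap_apply e, S.swap_apply hrs, Ne.symm hr.2.2, Ne.symm hs.2.2, Ne.symm e]
  refine hh' (S.ph_core hK (I := I) (r := 1) one_pos (by omega) (fun g hg => (mK.1 hg).2)
    (fun T hT _ => S.sg_mem_of_refl k1 hT) (fun g hg k hk T hT cT h => ?_) (mK.2 ⟨hh, h1⟩))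
  obtain ⟨i, rfl⟩ := Finset.card_eq_one.1 cT
  exact S.ca1 hK P k2 hg (by omega) k1 hk (hT (by simp)) (h i (by simp))

theorem OM_le_of_small (hr : ∀ i, rE Q (b i) ∈ H) {I : Finset ι} (h4 : I.card ≤ 4)
    {h : V ≃ₗ[F] V} (hh : h ∈ H) (hh' : h ∉ dstab (frame b))
    (h1 : ∀ j ∉ I, h (b j) ∈ frame b j) : OM Q ≤ H := by
  classical
  have h9 := S.nine
  obtain ⟨k, hk, l, hl, hkl⟩ := (Finset.one_lt_card (s := Iᶜ)).1 (by rw [Finset.card_compl]; omega)
  rw [Finset.mem_compl] at hk hl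
  refine OM_le_of_extG S.nd (five_le_of_basis b h9) (a := b k - b l) ?_
  have hh2 := S.mem_ext2 hh hkl (h1 k hk) (h1 l hl)
  have T : FF Q b (extG Q H (b k - b l)) :=
    { S with
      le := fun _ h => h.1
      r1 := fun i => by
        have : rE Q (b i) ∈ dstab (frame b) := S.rE_b i ▸ sg_mem_dstab _
        exact S.mem_ext2 (hr i) hkl (exists_mem_frame this k).choose_spec
          (exists_mem_frame this l).choose_spec
      r2 := fun i j hij => rE_mem_extG (S.rr3 hij hkl) }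
  generalize extG Q H (b k - b l) = M at T hh2
  have hi := S.le hh
  have cj : ∀ x, rE Q x ∈ M → rE Q (h x) ∈ M := fun x hx => by
    rw [← rE_conj hi]; exact M.mul_mem (M.mul_mem hh2 hx) (M.inv_mem hh2)
  obtain ⟨j, hj⟩ : ∃ j, ∀ l, h (b j) ∉ frame b l := by
    by_contra hc
    push Not at hc
    exact hh' (mem_dstab_frame hc)
  have q1 : Q (h (b j)) = 1 := (hi _).trans (S.one j)
  have vI : ∀ t ∉ I, b.repr (h (b j)) t = 0 := fun t ht => by
    obtain ⟨c, hc, e⟩ := S.exists_sign (h1 t ht) ((hi _).trans (S.one t))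
    have := (OG_pB hi _ _).trans (S.orth t j (by rintro rfl; exact hj _ (h1 _ ht)))
    simpa [e, S.pB_b, S.two, left_ne_zero_of_mul_eq_one hc] using this
  by_cases hτ : ∃ i, b.repr (h (b j)) i ≠ 0 ∧
      2 * (b.repr (h (b j)) i * b.repr (h (b j)) i) ≠ Q (h (b j))
  · obtain ⟨i, hi, hτ⟩ := hτ
    exact T.finV (cj _ (T.r1 j)) (by simp [q1]) h4 vI hj (fun _ => q1) hi hτ
  push Not at hτ
  rw [q1] at hτ
  let J := (b.repr (h (b j))).support
  have hJ : J.card ≤ 3 := by
    by_contra h3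
    have e : J.card = 4 := le_antisymm ((Finset.card_le_card fun t ht => by_contra fun h =>
      Finsupp.mem_support_iff.1 ht (vI t h)).trans h4) (by omega)
    have e2 : (2 : F) * Q (h (b j)) = ∑ t ∈ J, 1 := by
      rw [S.Q_sum, Finset.mul_sum, ← Finset.sum_subset (Finset.subset_univ J) fun t _ ht => by
        simp [Finsupp.notMem_support_iff.1 ht]]
      exact Finset.sum_congr rfl fun t ht => hτ t (Finsupp.mem_support_iff.1 ht)
    rw [q1, Finset.sum_const, e] at e2
    exact S.two (by simp at e2; linear_combination -e2)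
  obtain ⟨i, hi0⟩ := S.exists_repr_ne (x := h (b j)) (fun e => by simp [e] at q1)
  obtain ⟨c, hc, e⟩ := S.exists_sign (h1 k hk) ((hi _).trans (S.one k))
  have hkj : k ≠ j := by rintro rfl; exact hj _ (h1 _ hk)
  have hki : k ≠ i := by rintro rfl; exact hi0 (vI _ hk)
  have q2 : Q (h (b k - b j)) = 2 := (hi _).trans (S.Q_sub_b hkj)
  have e3 : b.repr (h (b k - b j)) i = -b.repr (h (b j)) i := by simp [e, hki]
  refine T.finV (cj _ (T.r2 k j hkj)) (by rw [q2]; exact S.two) (J := insert k J)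
    ((Finset.card_insert_le _ _).trans (by omega)) (fun t ht => ?_) (fun l hl => ?_)
    (fun h3 => ?_) (i := i) (by rw [e3]; exact neg_ne_zero.2 hi0) ?_
  · simp only [Finset.mem_insert, not_or] at ht
    simp [e, Ne.symm ht.1, Finsupp.notMem_support_iff.1 ht.2]
  · by_cases e4 : k = l
    · exact hi0 (neg_eq_zero.1 (e3 ▸ repr_of_mem_frame hl (e4 ▸ hki.symm)))
    · simpa [e, vI k hk, left_ne_zero_of_mul_eq_one hc] using repr_of_mem_frame hl e4
  · exfalso
    obtain ⟨n, hn⟩ := S.prime (b.repr (h (b j)) i)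
    have e : (n : F) = (n % 3 : ℕ) := by
      conv_lhs => rw [← Nat.mod_add_div n 3]
      simp [h3]
    have h1 := hτ i hi0
    rw [hn, e] at h1
    have := Nat.mod_lt n (show 0 < 3 by omega)
    generalize n % 3 = r at *
    interval_cases r
    · simp at h1
    · exact one_ne_zero (α := F) (by push_cast at h1; linear_combination h1)
    · exact one_ne_zero (α := F) (by push_cast at h1; linear_combination h1 - 2 * h3)
  · rw [e3, q2, neg_mul_neg, hτ i hi0]
    exact fun h => one_ne_zero (α := F) (by linear_combination -h)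

theorem OM_le {g : V ≃ₗ[F] V} (hg : g ∈ H) (hg' : g ∉ dstab (frame b)) : OM Q ≤ H := by
  have := S.not_part hg hg'
  simp only [PartI, not_forall] at this
  obtain ⟨h, hh, k, -, l, h1, h2⟩ := this
  have hr : ∀ i, rE Q (b i) ∈ extG Q H (b k) := fun i => rE_mem_extG (S.rr1 i k)
  obtain ⟨I, h4, h', a1, a2, a3⟩ := (S.ext1 k).descent hr (S.mem_ext1 hh h1) h2
  exact OM_le_of_extG S.nd (five_le_of_basis b S.nine) ((S.ext1 k).OM_le_of_small hr h4 a1 a2 a3)

end OFr

theorem OI.OM_le_frame {D : ι → Submodule F V} (S : OI Q D H) (d : Dec D)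
    (h1 : ∀ i, finrank F (D i) = 1) (h9 : 9 ≤ Fintype.card ι) (h2 : (2 : F) ≠ 0)
    (hp : ∀ c : F, ∃ n : ℕ, c = n) {g : V ≃ₗ[F] V} (hg : g ∈ H) (hg' : g ∉ dstab D) :
    OM Q ≤ H := by
  obtain ⟨b, rfl⟩ := exists_basis_frame d h1
  obtain ⟨i, -⟩ := exists_not_mem_list (ι := ι) [] (by simp; omega)
  have q0 : Q (b i) ≠ 0 := fun h => b.ne_zero i (S.ndon d i _ (self_mem_frame b i) fun y hy => by
    obtain ⟨c, rfl⟩ := mem_frame.1 hy
    simp [pB_self, h])
  have : ∀ j, ∃ c : Fˣ, Q (c • b j) = Q (b i) := fun j => by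
    obtain ⟨e, he⟩ := S.iso i j
    obtain ⟨c, hc⟩ := mem_frame.1 (e ⟨b i, self_mem_frame b i⟩).2
    have q := he ⟨b i, self_mem_frame b i⟩
    rw [← hc] at q
    exact ⟨Units.mk0 c (by rintro rfl; exact q0 (by simpa using q.symm)), q⟩
  choose c hc using this
  have e1 : OG ((Q (b i))⁻¹ • Q) = OG Q := by
    ext g
    exact forall_congr' fun x => by simp [q0]
  have e2 : OM ((Q (b i))⁻¹ • Q) = OM Q := by rw [OM, OM, e1]
  have T : OFr ((Q (b i))⁻¹ • Q) (b.unitsSMul c) H :=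
    { two := h2
      one := fun j => by simp [Basis.unitsSMul_apply, hc, q0]
      orth := fun j k hjk => by
        have := S.orth j k hjk _ ((frame b j).smul_mem (c j : F) (self_mem_frame b j)) _
          ((frame b k).smul_mem (c k : F) (self_mem_frame b k))
        rw [pB_eq, polar] at this ⊢
        simp only [Basis.unitsSMul_apply, Units.smul_def, _root_.smul_apply, smul_eq_mul]
        linear_combination (Q (b i))⁻¹ * this
      nine := h9
      prime := hp
      le := e1 ▸ S.le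
      ds := by rw [frame_unitsSMul, e2]; exact S.ds }
  exact e2 ▸ T.OM_le hg (by rwa [frame_unitsSMul])

end Abs

variable {ι : Type} [Fintype ι] [DecidableEq ι] {F : Type*} [Field F] [Fintype F]
variable {Q : QuadraticForm F (ι → F)} {t : ℕ} {D : Fin t → Submodule F (ι → F)}

/-- The stabiliser of an orthogonal frame over a prime field of odd order is maximal in `Ω` in
dimension at least `9`. -/
theorem isMaximalIn_frameO (h : ND Q) (hd : 9 ≤ Fintype.card ι) (hodd : Odd (Fintype.card F))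
    (hp : (Fintype.card F).Prime) (hD : IsOrthogonalMDecomposition Q 1 D) :
    IsMaximalIn (omegaGL Q) (decompositionStabilizer D ⊓ omegaGL Q) := by
  have hn := H98.IsMDecomposition_mul_eq hD.decomp.decomp
  refine isMaximalIn_dec_of h (by omega) hD fun M S d g hg hg' =>
    S.OM_le_frame d hD.decomp.decomp.finrank_eq (by simp; omega) (two_ne_zero_iff_odd.2 hodd)
      (fun c => ?_) hg hg'
  have : NeZero (Fintype.card F) := ⟨hp.ne_zero⟩
  obtain ⟨x, rfl⟩ := (ZMod.ringEquivOfPrime F hp rfl).surjective c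
  obtain ⟨n, rfl⟩ := ZMod.natCast_zmod_surjective x
  exact ⟨n, map_natCast _ n⟩

end Cfsg.Agent.H27
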