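/-
Glauberman - Sims: dihedral amalgams. Local analysis.
-/
import Cfsg.Agent.H49.Hall
import Cfsg.Agent.H49.Core
import Cfsg.Agent.H49.Quot
import Cfsg.Agent.H8.OddCore

set_option autoImplicit false

namespace Cfsg.Agent.H27.Sims

open Subgroup Cfsg.Agent.H49

variable {G : Type*} [Group G]

/-- the central elements of order at most two -/
def OZ (Q : Subgroup G) : Subgroup G where
  carrier := {v | v ∈ Q ∧ v ∈ 𝒞(Q) ∧ v * v = 1}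
  one_mem' := ⟨one_mem _, one_mem _, mul_one _⟩
  mul_mem' := fun {a b} ha hb => ⟨mul_mem ha.1 hb.1, mul_mem ha.2.1 hb.2.1, by
    calc a * b * (a * b) = a * (b * a) * b := by group
      _ = a * a * (b * b) := by rw [ha.2.1 b hb.1]; group
      _ = 1 := by rw [ha.2.2, hb.2.2, mul_one]⟩
  inv_mem' := fun {a} ha => ⟨inv_mem ha.1, inv_mem ha.2.1, by rw [← mul_inv_rev, ha.2.2, inv_one]⟩

theorem OZ_le (Q : Subgroup G) : OZ Q ≤ Q := fun _ h => h.1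
theorem OZ_cent (Q : Subgroup G) : OZ Q ≤ 𝒞(Q) := fun _ h => h.2.1
theorem OZ_sq {Q : Subgroup G} {v : G} (h : v ∈ OZ Q) : v * v = 1 := h.2.2
theorem OZ_inv {Q : Subgroup G} {v : G} (h : v ∈ OZ Q) : v⁻¹ = v :=
  inv_eq_of_mul_eq_one_right h.2.2
theorem OZ_comm {Q : Subgroup G} {v q : G} (h : v ∈ OZ Q) (hq : q ∈ Q) : q * v = v * q := h.2.1 q hq

theorem cj_OZ (g : G) (Q : Subgroup G) : cj g (OZ Q) = OZ (cj g Q) := by
  ext x
  rw [mem_cj]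
  change _ ∧ _ ∧ _ ↔ _ ∧ _ ∧ _
  rw [← cj_centralizer, mem_cj, mem_cj]
  refine and_congr_right fun _ => and_congr_right fun _ => ?_
  have : g⁻¹ * x * g * (g⁻¹ * x * g) = g⁻¹ * (x * x) * g⁻¹⁻¹ := by group
  rw [this, conj_eq_one_iff]

theorem norm_OZ {A Q : Subgroup G} (h : A ≤ 𝒩(Q)) : A ≤ 𝒩(OZ Q) :=
  le_norm_of_cj fun a ha => by rw [cj_OZ, cj_eq_of_mem_norm (h ha)]

theorem card_two {A B : Subgroup G} (h : A ≤ B) {a : G} (ha : a ∈ B) (ha' : a ∉ A)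
    (idx : ∀ g ∈ B, ∀ g' ∈ B, g ∉ A → g' ∉ A → g * g' ∈ A) : Nat.card B = 2 * Nat.card A := by
  have : A.relIndex B = 2 := relIndex_eq_two_iff.2 ⟨a, ha, fun b hb => by
    by_cases h1 : b ∈ A
    · exact Or.inr ⟨h1, fun h2 => ha' (by simpa using mul_mem (inv_mem h1) h2)⟩
    · exact Or.inl ⟨idx b hb a ha h1 ha', h1⟩⟩
  rw [← card_mul_relIndex h, this, mul_comm]

/-- The hypotheses, read inside `G`. -/
structure Am (H Q P : Subgroup G) (y d : G) : Prop where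
  QP : Q ≤ P
  PH : P ≤ H
  two : IsPGroup 2 P
  nQ : H ≤ 𝒩(Q)
  idx : ∀ g ∈ P, ∀ g' ∈ P, g ∉ Q → g' ∉ Q → g * g' ∈ Q
  yP : y ∈ 𝒩(P)
  y2 : y * y ∈ P ⊔ 𝒞(P)
  star : ∀ X ≤ P, H ≤ 𝒩(X) → y ∈ 𝒩(X) → X = ⊥
  Q0 : Q ≠ ⊥
  dH : d ∈ H
  odd : Odd (orderOf d)
  inv : ∀ g ∈ P, g ∉ Q → g * d * g⁻¹ * d ∈ Q
  gen : ∀ h ∈ H, ∃ i : ℕ, ∃ p ∈ P, h = d ^ i * p

variable {H Q P : Subgroup G} {y d : G}

theorem mem_norm_cj {g x : G} {X : Subgroup G} : g * x * g⁻¹ ∈ 𝒩(cj g X) ↔ x ∈ 𝒩(X) := by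
  rw [← cj_normalizer, conj_mem_cj]

theorem Am.conj (h : Am H Q P y d) (g : G) :
    Am (cj g H) (cj g Q) (cj g P) (g * y * g⁻¹) (g * d * g⁻¹) where
  QP := cj_mono g h.QP
  PH := cj_mono g h.PH
  two := isPGroup_cj.2 h.two
  nQ := by rw [← cj_normalizer]; exact cj_mono g h.nQ
  idx := fun a ha b hb ha' hb' => by
    rw [mem_cj] at *
    have := h.idx _ ha _ hb ha' hb'
    simpa [mul_assoc] using this
  yP := mem_norm_cj.2 h.yP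
  y2 := by rw [← cj_centralizer, ← cj_sup, conj_mul]; exact conj_mem_cj.2 h.y2
  star := fun X hX h1 h2 => by
    obtain ⟨Y, rfl⟩ : ∃ Y, X = H49.cj g Y := ⟨H49.cj g⁻¹ X, (cj_cj_inv g X).symm⟩
    rw [← cj_normalizer, cj_le_cj_iff] at h1
    rw [h.star Y (cj_le_cj_iff.1 hX) h1 (mem_norm_cj.1 h2)]
    exact map_bot _
  Q0 := fun e => h.Q0 ((map_eq_bot_iff_of_injective Q (MulAut.conj g).injective).1 e)
  dH := conj_mem_cj.2 h.dH
  odd := by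
    have := (MulAut.conj g).orderOf_eq d
    rw [MulAut.conj_apply] at this
    rw [this]; exact h.odd
  inv := fun a ha ha' => by
    rw [mem_cj] at *
    have := h.inv _ ha ha'
    simpa [mul_assoc] using this
  gen := fun a ha => by
    obtain ⟨i, p, hp, e⟩ := h.gen _ (mem_cj.1 ha)
    refine ⟨i, g * p * g⁻¹, conj_mem_cj.2 hp, ?_⟩
    rw [conj_pow, conj_mul, ← e]; group

namespace Am

theorem y2_norm (h : Am H Q P y d) {X : Subgroup G} (hX : X ≤ P) (hn : P ≤ 𝒩(X)) :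
    cj y (cj y X) = X := by
  rw [cj_cj]
  exact cj_eq_of_mem_norm (sup_le hn (norm_of_cent (cent_anti hX)) h.y2)

theorem y2_cent (h : Am H Q P y d) {z : G} (hz : z ∈ P) (hc : z ∈ 𝒞(P)) :
    y * (y * z * y⁻¹) * y⁻¹ = z := by
  have : y * y ∈ 𝒞[z] := sup_le (le_cent1_iff.2 hc) (cent_le_cent1 hz) h.y2
  calc _ = y * y * z * (y * y)⁻¹ := by group
    _ = z := by rw [mem_cent1.1 this, mul_inv_cancel_right]

theorem cjP (h : Am H Q P y d) : cj y P = P := cj_eq_of_mem_norm h.yP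

theorem y_mem (h : Am H Q P y d) {g : G} : y * g * y⁻¹ ∈ P ↔ g ∈ P := by
  conv_lhs => rw [← h.cjP]
  exact conj_mem_cj

theorem Q1P (h : Am H Q P y d) : cj y Q ≤ P := h.cjP ▸ cj_mono y h.QP

theorem nQ1 (h : Am H Q P y d) : P ≤ 𝒩(cj y Q) := by
  rw [← cj_normalizer, ← h.cjP]; exact cj_mono y (h.PH.trans h.nQ)

theorem idx1 (h : Am H Q P y d) : ∀ g ∈ P, ∀ g' ∈ P, g ∉ cj y Q → g' ∉ cj y Q → g * g' ∈ cj y Q := by
  have := (h.conj y).idx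
  rwa [h.cjP] at this

theorem le_of (h : Am H Q P y d) {K : Subgroup G} (hP : P ≤ K) (hd : d ∈ K) : H ≤ K := fun x hx => by
  obtain ⟨i, p, hp, rfl⟩ := h.gen x hx
  exact mul_mem (pow_mem hd i) (hP hp)

/-- `P ^ d` and an element of `P - Q` generate `H` -/
theorem le_of_cj (h : Am H Q P y d) {K : Subgroup G} (hP : cj d P ≤ K) {g : G} (hg : g ∈ P)
    (hg' : g ∉ Q) (gK : g ∈ K) : H ≤ K := by
  have QK : Q ≤ K := by
    rw [← cj_eq_of_mem_norm (h.nQ h.dH)]; exact (cj_mono d h.QP).trans hP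
  have dK : d ∈ K := by
    refine H8.mem_of_sq_mem_of_odd h.odd ?_
    have := mul_mem (mul_mem (hP (conj_mem_cj.2 hg)) (inv_mem gK)) (QK (h.inv g hg hg'))
    have e : d * g * d⁻¹ * g⁻¹ * (g * d * g⁻¹ * d) = d ^ 2 := by rw [pow_two]; group
    rwa [e] at this
  refine h.le_of (fun p hp => ?_) dK
  simpa [mul_assoc] using mul_mem (mul_mem (inv_mem dK) (hP (conj_mem_cj.2 hp))) dK

variable [Finite G]

omit [Finite G] in
theorem one_of_odd (h : Am H Q P y d) {x : G} (hx : x ∈ P) (ho : Odd (orderOf x)) : x = 1 := by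
  obtain ⟨k, hk⟩ := h.two ⟨x, hx⟩
  have h1 : orderOf x ∣ 2 ^ k := orderOf_dvd_of_pow_eq_one (congrArg Subtype.val hk)
  exact orderOf_eq_one_iff.1
    ((Nat.Coprime.pow_left k (Nat.coprime_two_left.2 ho)).symm.eq_one_of_dvd h1)

theorem exists_not (h : Am H Q P y d) : ∃ g ∈ Q, g ∉ cj y Q := by
  by_contra hn
  exact h.Q0 (h.star Q h.QP h.nQ (mem_norm_of_le_cj fun g hg => by_contra fun e => hn ⟨g, hg, e⟩))

theorem exists_not' (h : Am H Q P y d) : ∃ g ∈ cj y Q, g ∉ Q := by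
  by_contra hn
  exact h.Q0 (h.star Q h.QP h.nQ (mem_norm_of_cj_le fun g hg => by_contra fun e => hn ⟨g, hg, e⟩))

theorem sup_eq (h : Am H Q P y d) : Q ⊔ cj y Q = P := by
  refine le_antisymm (sup_le h.QP h.Q1P) fun g hg => ?_
  obtain ⟨a, ha, ha'⟩ := h.exists_not'
  by_cases e : g ∈ Q
  · exact mem_sup_left e
  · have := mul_mem (mem_sup_left (T := cj y Q) (h.idx g hg a (h.Q1P ha) e ha'))
      (inv_mem (mem_sup_right ha))
    simpa using this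

omit [Finite G] in
/-- a subgroup normalised by `H` which meets `P - Q` contains `d` -/
theorem mem_of (h : Am H Q P y d) {C : Subgroup G} (hC : H ≤ 𝒩(C)) {g : G} (hg : g ∈ P)
    (hg' : g ∉ Q) (gC : g ∈ C) : d ∈ C := by
  have hq := h.inv g hg hg'
  obtain ⟨k, hk⟩ := h.two ⟨_, h.QP hq⟩
  have hk' : (g * d * g⁻¹ * d) ^ 2 ^ k = 1 := congrArg Subtype.val hk
  let π := cosetOn hC
  have e1 : π ⟨g, h.PH hg⟩ = 1 := coset_eq_one_iff.2 gC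
  have e2 : π (⟨g, h.PH hg⟩ * ⟨d, h.dH⟩ * ⟨g, h.PH hg⟩⁻¹ * ⟨d, h.dH⟩) ^ 2 ^ k = 1 := by
    rw [← map_pow, ← map_one π]; exact congrArg π (Subtype.ext hk')
  rw [map_mul, map_mul, map_mul, map_inv, e1, one_mul, inv_one, mul_one, ← pow_two, ← pow_mul,
    ← pow_succ'] at e2
  have e3 : π ⟨d, h.dH⟩ ^ orderOf d = 1 := by
    rw [← map_pow, ← map_one π]; exact congrArg π (Subtype.ext (pow_orderOf_eq_one d))
  have e4 := pow_gcd_eq_one.2 ⟨e2, e3⟩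
  rw [(Nat.Coprime.pow_left (k + 1) (Nat.coprime_two_left.2 h.odd)).gcd_eq_one, pow_one] at e4
  exact coset_eq_one_iff.1 e4

theorem Z_ne (h : Am H Q P y d) : OZ P ≠ ⊥ := by
  have h1 := center_ne_bot_of_nilpotent (isPi_of_isPGroup Nat.prime_two h.two).nilpotent
    (ne_bot_mono h.QP h.Q0)
  obtain ⟨z, hz, oz⟩ := exists_orderOf_eq_of_dvd_card Nat.prime_two
    (((isPi_of_isPGroup Nat.prime_two h.two).of_le inf_le_left).dvd_card h1)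
  refine ne_bot_iff_exists.2 ⟨z, ⟨hz.1, hz.2, by rw [← pow_two, ← oz, pow_orderOf_eq_one]⟩, ?_⟩
  rintro rfl
  rw [orderOf_one] at oz
  exact absurd oz (by decide)

omit [Finite G] in
theorem Z_le (h : Am H Q P y d) (hd : d ∉ 𝒞(Q)) : OZ P ≤ OZ Q := fun z hz => by
  have zQ : z ∈ Q := by_contra fun e =>
    hd (h.mem_of (norm_cent h.nQ) hz.1 e (cent_anti h.QP hz.2.1))
  exact ⟨zQ, cent_anti h.QP hz.2.1, hz.2.2⟩

theorem Z_nc (h : Am H Q P y d) : d ∉ 𝒞(OZ P) := fun hd =>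
  h.Z_ne (h.star _ (OZ_le P) (h.le_of (norm_OZ le_normalizer) (cent_le_norm _ hd))
    (norm_OZ le_rfl h.yP))

theorem dV (h : Am H Q P y d) (hd : d ∉ 𝒞(Q)) : d ∉ 𝒞(OZ Q) := fun e =>
  h.Z_nc (cent_anti (h.Z_le hd) e)

theorem F (h : Am H Q P y d) (hd : d ∉ 𝒞(Q)) {g : G} (hg : g ∈ P) (hg' : g ∉ Q) :
    g ∉ 𝒞(OZ Q) := fun e => h.dV hd (h.mem_of (norm_cent (norm_OZ h.nQ)) hg hg' e)

omit [Finite G] in
/-- an element of `V` commuting with an element of `P - Q` is central in `P` -/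
theorem cent_P (h : Am H Q P y d) {a v : G} (ha : a ∈ P) (ha' : a ∉ Q) (hv : v ∈ OZ Q)
    (e : a * v = v * a) : v ∈ 𝒞(P) := fun g hg => by
  by_cases gQ : g ∈ Q
  · exact OZ_comm hv gQ
  · have := OZ_comm hv (h.idx g hg a ha gQ ha')
    rw [mul_assoc, e, ← mul_assoc, ← mul_assoc] at this
    exact mul_right_cancel this

/-- the Thompson subgroup argument -/
theorem hyp (h : Am H Q P y d) : Nat.card (OZ Q) ≤ 2 * Nat.card ↥(OZ Q ⊓ 𝒞(P)) := by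
  obtain ⟨A₀, h₀, hm⟩ := Set.exists_max_image {A : Subgroup G | A ≤ P ∧ A ≤ OZ A}
    (fun A => Nat.card A) (Set.toFinite _) ⟨⊥, bot_le, bot_le⟩
  have cjm : ∀ (g : G) (A : Subgroup G), A ≤ OZ A → cj g A ≤ OZ (cj g A) := fun g A hA => by
    rw [← cj_OZ]; exact cj_mono g hA
  obtain ⟨A, ⟨AP, AZ, Ac⟩, hA⟩ : ∃ A : Subgroup G, (A ≤ P ∧ A ≤ OZ A ∧ Nat.card A = Nat.card A₀) ∧
      ¬ A ≤ Q := by
    by_contra hn
    have hQ : ∀ A : Subgroup G, A ≤ P ∧ A ≤ OZ A ∧ Nat.card A = Nat.card A₀ → A ≤ Q :=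
      fun A hA => by_contra fun e => hn ⟨A, hA, e⟩
    have nJ : ∀ g : G, (∀ A : Subgroup G, A ≤ Q → cj g A ≤ P) → g ∈ 𝒩(sSup
        {A : Subgroup G | A ≤ P ∧ A ≤ OZ A ∧ Nat.card A = Nat.card A₀}) := fun g hg =>
      mem_norm_of_cj_le (cj_le_iff.2 (sSup_le fun A hA => cj_le_iff.1 (le_sSup
        ⟨hg A (hQ A hA), cjm g A hA.2.1, (card_cj g A).trans hA.2.2⟩)))
    have J0 := h.star _ (sSup_le fun A hA => hA.1)
      (fun g hg => nJ g fun A hA => (cj_le_of_mem_norm hA (h.nQ hg)).trans h.QP)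
      (nJ y fun A hA => cj_le_of_mem_norm (hA.trans h.QP) h.yP)
    have A0 : A₀ = ⊥ := by
      rw [eq_bot_iff, ← J0]; exact le_sSup ⟨h₀.1, h₀.2, rfl⟩
    have := hm (OZ P) ⟨OZ_le P, fun z hz => ⟨hz, cent_anti (OZ_le P) hz.2.1, hz.2.2⟩⟩
    rw [A0, card_bot] at this
    exact h.Z_ne ((card_le_one_iff_eq_bot _).1 this)
  obtain ⟨a, ha, ha'⟩ := SetLike.not_le_iff_exists.1 hA
  have c1 : Nat.card A = 2 * Nat.card ↥(A ⊓ Q) := card_two inf_le_left ha (fun e => ha' e.2)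
    fun g hg g' hg' e e' => ⟨mul_mem hg hg', h.idx g (AP hg) g' (AP hg')
      (fun k => e ⟨hg, k⟩) (fun k => e' ⟨hg', k⟩)⟩
  have cV : A ⊓ Q ≤ 𝒞(OZ Q) := inf_le_right.trans (cent_symm (OZ_cent Q))
  have c2 : Nat.card ↥(A ⊓ Q ⊔ OZ Q) ≤ Nat.card A₀ := by
    refine hm _ ⟨sup_le (inf_le_left.trans AP) ((OZ_le Q).trans h.QP), sup_le ?_ ?_⟩
    · refine fun x hx => ⟨mem_sup_left hx, ?_, (AZ hx.1).2.2⟩
      rw [cent_sup]
      exact ⟨cent_anti inf_le_left (AZ hx.1).2.1, cV hx⟩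
    · refine fun x hx => ⟨mem_sup_right hx, ?_, hx.2.2⟩
      rw [cent_sup]
      exact ⟨cent_symm cV hx, cent_anti (OZ_le Q) hx.2.1⟩
  have c3 := card_sup_mul_card_inf (Or.inl (norm_of_cent cV))
  have c4 : Nat.card ↥(A ⊓ Q ⊓ OZ Q) ≤ Nat.card ↥(OZ Q ⊓ 𝒞(P)) := card_le_of_le fun x hx =>
    ⟨hx.2, h.cent_P (AP ha) ha' hx.2 ((AZ hx.1.1).2.1 a ha)⟩
  have c5 := card_pos' (A ⊓ Q)
  rw [← Ac, c1] at c2
  refine Nat.le_of_mul_le_mul_left ?_ c5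
  rw [← c3]
  calc _ ≤ 2 * Nat.card ↥(A ⊓ Q) * Nat.card ↥(OZ Q ⊓ 𝒞(P)) := Nat.mul_le_mul c2 c4
    _ = _ := by ring

theorem exV (h : Am H Q P y d) (hd : d ∉ 𝒞(Q)) : ∃ v ∈ OZ Q, v ∉ 𝒞(P) := by
  obtain ⟨g, hg, hg'⟩ := h.exists_not'
  by_contra hn
  exact h.F hd (h.Q1P hg) hg' fun v hv =>
    ((show v ∈ 𝒞(P) from by_contra fun e => hn ⟨v, hv, e⟩) g (h.Q1P hg)).symm

theorem idxV (h : Am H Q P y d) {v w : G} (hv : v ∈ OZ Q) (hw : w ∈ OZ Q) (hv' : v ∉ 𝒞(P))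
    (hw' : w ∉ 𝒞(P)) : v * w ∈ 𝒞(P) := by
  have c1 := card_mul_relIndex (inf_le_left : OZ Q ⊓ 𝒞(P) ≤ OZ Q)
  have c2 := h.hyp
  have c3 := card_pos' (OZ Q ⊓ 𝒞(P))
  have c4 := relIndex_pos (OZ Q ⊓ 𝒞(P)) (OZ Q)
  have c5 : (OZ Q ⊓ 𝒞(P)).relIndex (OZ Q) ≠ 1 := fun e => hv' (relIndex_eq_one.1 e hv).2
  have c6 : (OZ Q ⊓ 𝒞(P)).relIndex (OZ Q) = 2 := by
    have : (OZ Q ⊓ 𝒞(P)).relIndex (OZ Q) ≤ 2 := by
      refine Nat.le_of_mul_le_mul_left ?_ c3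
      rw [c1, mul_comm]; exact c2
    omega
  have := (mul_mem_iff_of_index_two c6 (a := ⟨v, hv⟩) (b := ⟨w, hw⟩)).2
    (iff_of_false (fun e => hv' e.2) fun e => hw' e.2)
  exact this.2

end Am

end Cfsg.Agent.H27.Sims
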