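/-
Glauberman - Sims: dihedral amalgams. The structure of `Ω₁ Z(Q)`, and the graph.
-/
import Cfsg.Agent.H27.SimsA

set_option autoImplicit false

namespace Cfsg.Agent.H27.Sims

open Subgroup Cfsg.Agent.H49

variable {G : Type*} [Group G]

/-- `u` generates `[P, V]` -/
def IsU (P V : Subgroup G) (u : G) : Prop :=
  u ≠ 1 ∧ (∀ g ∈ P, ∀ v ∈ V, g * v * g⁻¹ = v ∨ g * v * g⁻¹ = u * v) ∧
    ∃ g ∈ P, ∃ v ∈ V, g * v * g⁻¹ = u * v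

variable {H Q P V : Subgroup G} {y d u u' : G}

theorem IsU.uniq (h : IsU P V u) (h' : IsU P V u') : u = u' := by
  obtain ⟨g, hg, v, hv, e⟩ := h.2.2
  rcases h'.2.1 g hg v hv with e' | e'
  · exact absurd (mul_eq_right.1 (e.symm.trans e')) h.1
  · exact mul_right_cancel (e.symm.trans e')

theorem IsU.of_ne (h : IsU P V u) {g v : G} (hg : g ∈ P) (hv : v ∈ V) (e : g * v ≠ v * g) :
    g * v * g⁻¹ = u * v :=
  (h.2.1 g hg v hv).resolve_left fun e' => e (mul_inv_eq_iff_eq_mul.1 e')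

theorem IsU.conj (h : IsU P V u) (k : G) : IsU (cj k P) (cj k V) (k * u * k⁻¹) := by
  refine ⟨fun e => h.1 (conj_eq_one_iff.1 e), fun g hg v hv => ?_, ?_⟩
  · obtain ⟨a, ha, rfl⟩ := mem_cj'.1 hg
    obtain ⟨b, hb, rfl⟩ := mem_cj'.1 hv
    have e : k * a * k⁻¹ * (k * b * k⁻¹) * (k * a * k⁻¹)⁻¹ = k * (a * b * a⁻¹) * k⁻¹ := by group
    rw [e, conj_mul]
    exact (h.2.1 a ha b hb).imp (fun e => by rw [e]) fun e => by rw [e]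
  · obtain ⟨g, hg, v, hv, e⟩ := h.2.2
    refine ⟨_, conj_mem_cj.2 hg, _, conj_mem_cj.2 hv, ?_⟩
    rw [conj_mul (a := u), ← e]; group

namespace Am

variable [Finite G]

theorem exU (h : Am H Q P y d) (hd : d ∉ 𝒞(Q)) :
    ∃ u, IsU P (OZ Q) u ∧ u ∈ OZ Q ∧ u ∈ 𝒞(P) := by
  obtain ⟨v₀, hv₀, hv₀'⟩ := h.exV hd
  obtain ⟨a, ha, ha'⟩ := h.exists_not'
  have aP := h.Q1P ha
  have nV : P ≤ 𝒩(OZ Q) := norm_OZ (h.PH.trans h.nQ)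
  have c1 : a * v₀ * a⁻¹ ∈ OZ Q := conj_mem_of_norm nV aP hv₀
  have c2 : a * v₀ * a⁻¹ ∉ 𝒞(P) := fun e => hv₀' (by
    simpa [mul_assoc] using conj_mem_of_norm' (norm_cent le_normalizer) aP e)
  have e0 : a * v₀ * a⁻¹ = a * v₀ * a⁻¹ * v₀ * v₀ := by
    rw [mul_assoc _ v₀ v₀, OZ_sq hv₀, mul_one]
  refine ⟨a * v₀ * a⁻¹ * v₀, ⟨fun e => hv₀' (h.cent_P aP ha' hv₀ ?_), fun g hg v hv => ?_,
    a, aP, v₀, hv₀, e0⟩, mul_mem c1 hv₀, h.idxV c1 hv₀ c2 hv₀'⟩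
  · rw [e, one_mul] at e0
    exact mul_inv_eq_iff_eq_mul.1 e0
  · by_cases vP : v ∈ 𝒞(P)
    · exact Or.inl (mul_inv_eq_iff_eq_mul.2 (vP g hg))
    by_cases gQ : g ∈ Q
    · exact Or.inl (mul_inv_eq_iff_eq_mul.2 (OZ_comm hv gQ))
    right
    have z := h.idxV hv₀ hv hv₀' vP
    have q := OZ_comm hv₀ (h.idx _ (inv_mem aP) g hg (fun e => ha' (inv_mem_iff.1 e)) gQ)
    calc g * v * g⁻¹ = g * (v₀ * v₀) * v * g⁻¹ := by rw [OZ_sq hv₀, mul_one]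
      _ = a * (a⁻¹ * g * v₀) * (g⁻¹ * (g * (v₀ * v))) * g⁻¹ := by group
      _ = a * v₀ * a⁻¹ * v₀ * v := by rw [q, z g hg]; group

theorem uV (h : Am H Q P y d) (hd : d ∉ 𝒞(Q)) (hu : IsU P (OZ Q) u) : u ∈ OZ Q := by
  obtain ⟨w, h1, h2, -⟩ := h.exU hd
  rwa [hu.uniq h1]

theorem uP (h : Am H Q P y d) (hd : d ∉ 𝒞(Q)) (hu : IsU P (OZ Q) u) : u ∈ 𝒞(P) := by
  obtain ⟨w, h1, -, h2⟩ := h.exU hd
  rwa [hu.uniq h1]

theorem uZ (h : Am H Q P y d) (hd : d ∉ 𝒞(Q)) (hu : IsU P (OZ Q) u) : u ∈ OZ P :=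
  ⟨h.QP (h.uV hd hu).1, h.uP hd hu, (h.uV hd hu).2.2⟩

theorem unc (h : Am H Q P y d) (hd : d ∉ 𝒞(Q)) (hu : IsU P (OZ Q) u) : u ∉ 𝒞(H) := by
  intro e
  have c : H ≤ 𝒞(zpowers u) := cent_symm (zpowers_le.2 e)
  have n := norm_of_cent c
  have VH : OZ Q ≤ H := (OZ_le Q).trans (h.QP.trans h.PH)
  have h1 : P ≤ quoPre (zpowers u) 𝒞(quo (OZ Q) (zpowers u)) := by
    rw [← quo_le_iff (h.PH.trans n), quo_cent_iff (h.PH.trans n) (VH.trans n), commutator_le]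
    intro g hg v hv
    rw [commutatorElement_def]
    rcases hu.2.1 g hg v hv with e | e <;> rw [e]
    · rw [mul_inv_cancel]; exact one_mem _
    · rw [mul_inv_cancel_right]; exact mem_zpowers u
  obtain ⟨a, ha, ha'⟩ := h.exists_not'
  have h2 := h.mem_of (norm_quoPre n (norm_cent (quo_norm _ (norm_OZ h.nQ)))) (h.Q1P ha) ha'
    (h1 (h.Q1P ha))
  have dH : zpowers d ≤ H := zpowers_le.2 h.dH
  rw [← zpowers_le, ← quo_le_iff (dH.trans n), quo_cent_iff (dH.trans n) (VH.trans n),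
    commutator_comm] at h2
  refine h.dV hd (zpowers_le.1 (coprime_cent_of_stable (dH.trans (norm_OZ h.nQ)) ?_
    (Or.inl (solvable_of_abelian (abelian_of_cyclic inferInstance)))
    (h2.trans (cent_symm (dH.trans c)))))
  refine IsPi.coprime' (π := {2}) ((isPi_compl_singleton Nat.prime_two).2 ?_)
    ((isPi_of_isPGroup Nat.prime_two h.two).of_le ((OZ_le Q).trans h.QP))
  rw [Nat.card_zpowers]
  exact h.odd.not_two_dvd_nat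

theorem centH (h : Am H Q P y d) {z : G} (h1 : z ∈ 𝒞(P)) (h2 : z ∈ 𝒞(cj d P)) : z ∈ 𝒞(H) := by
  obtain ⟨a, ha, ha'⟩ := h.exists_not'
  exact le_cent1_iff.1 (h.le_of_cj (le_cent1_iff.2 h2) (h.Q1P ha) ha' (le_cent1_iff.2 h1 (h.Q1P ha)))

theorem Zsplit (h : Am H Q P y d) (hd : d ∉ 𝒞(Q)) (hu : IsU P (OZ Q) u) {z : G} (hz : z ∈ OZ Q)
    (hz' : z ∈ 𝒞(P)) : z ∈ 𝒞(H) ∨ u * z ∈ 𝒞(H) := by
  by_cases e : z ∈ 𝒞(cj d P)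
  · exact Or.inl (h.centH hz' e)
  · have h1 := h.conj d
    rw [cj_eq_of_mem_norm (h.nQ h.dH)] at h1
    exact Or.inr (h.centH (mul_mem (h.uP hd hu) hz') (h1.idxV (h.uV hd hu) hz
      (fun k => h.unc hd hu (h.centH (h.uP hd hu) k)) e))

theorem Euniq (h : Am H Q P y d) (hd : d ∉ 𝒞(Q)) {e e' : G} (he : e ∈ OZ Q) (he' : e' ∈ OZ Q)
    (c : e ∈ 𝒞(H)) (c' : e' ∈ 𝒞(H)) (n : e ≠ 1) (n' : e' ≠ 1) : e = e' := by
  obtain ⟨u, hu, uV, uP⟩ := h.exU hd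
  have EP : OZ Q ⊓ 𝒞(H) ≤ P := inf_le_left.trans ((OZ_le Q).trans h.QP)
  have E0 : (OZ Q ⊓ 𝒞(H)) ⊓ cj y (OZ Q ⊓ 𝒞(H)) = ⊥ := by
    refine h.star _ (inf_le_left.trans EP)
      (norm_of_cent (cent_symm (inf_le_left.trans inf_le_right))) (mem_norm_iff_cj.2 ?_)
    rw [cj_inf, h.y2_norm EP (h.PH.trans (norm_of_cent (cent_symm inf_le_right))), inf_comm]
  have key : ∀ e ∈ OZ Q, e ∈ 𝒞(H) → e ≠ 1 → y⁻¹ * e * y ∈ OZ Q ∧ u * (y⁻¹ * e * y) ∈ 𝒞(H) := by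
    intro e he c n
    have z : y⁻¹ * e * y ∈ OZ P := conj_mem_of_norm' (norm_OZ le_rfl) h.yP
      ⟨h.QP he.1, cent_anti h.PH c, he.2.2⟩
    refine ⟨h.Z_le hd z, (h.Zsplit hd hu (h.Z_le hd z) z.2.1).resolve_left fun k => n ?_⟩
    exact mem_bot.1 (E0.le ⟨⟨he, c⟩, mem_cj.2 ⟨h.Z_le hd z, k⟩⟩)
  obtain ⟨a1, a2⟩ := key e he c n
  obtain ⟨b1, b2⟩ := key e' he' c' n'
  have e1 : u * (y⁻¹ * e * y) * (u * (y⁻¹ * e' * y)) = y⁻¹ * (e * e') * y := by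
    rw [← OZ_comm uV a1.1, mul_assoc, ← mul_assoc u, OZ_sq uV]; group
  have : e * e' = 1 := mem_bot.1 (E0.le ⟨⟨mul_mem he he', mul_mem c c'⟩, mem_cj.2 ⟨by
    have := mul_mem a1 b1
    simpa [mul_assoc] using this, e1 ▸ mul_mem a2 b2⟩⟩)
  rw [← OZ_inv he']
  exact eq_inv_of_mul_eq_one_left this

theorem cases (h : Am H Q P y d) (hd : d ∉ 𝒞(Q)) (hu : IsU P (OZ Q) u) :
    y * u * y⁻¹ = u ∨ y * u * y⁻¹ ∈ 𝒞(H) := by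
  have z := h.uZ hd hu
  have z1 : y * u * y⁻¹ ∈ OZ P := conj_mem_of_norm (norm_OZ le_rfl) h.yP z
  rcases h.Zsplit hd hu (h.Z_le hd z1) z1.2.1 with e | e
  · exact Or.inr e
  · left
    have e1 : y * (u * (y * u * y⁻¹)) = u * (y * u * y⁻¹) * y := by
      rw [← mul_inv_eq_iff_eq_mul, ← conj_mul, h.y2_cent z.1 z.2.1]
      exact OZ_comm z z1.1
    have := h.star (zpowers (u * (y * u * y⁻¹))) (zpowers_le.2 (mul_mem z.1 z1.1))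
      (norm_of_cent (cent_symm (zpowers_le.2 e)))
      (cent_le_norm _ (by rw [cent_zpowers]; exact mem_cent1.2 e1))
    rw [zpowers_eq_bot] at this
    rw [← OZ_inv z1]
    exact (eq_inv_of_mul_eq_one_left this).symm

theorem notnorm (h : Am H Q P y d) (hd : d ∉ 𝒞(Q)) : ¬ H ≤ 𝒩(OZ Q ⊔ OZ (cj y Q)) := fun e => by
  have := h.star _ (sup_le ((OZ_le _).trans h.QP) ((OZ_le _).trans h.Q1P)) e (mem_norm_iff_cj.2 (by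
    rw [cj_sup, cj_OZ, cj_OZ, h.y2_norm h.QP (h.PH.trans h.nQ), sup_comm]))
  exact h.Z_ne (eq_bot_iff.2 ((h.Z_le hd).trans (le_sup_left.trans this.le)))

omit [Finite G] in
theorem isU1 (h : Am H Q P y d) (hu : IsU P (OZ Q) u) : IsU P (OZ (cj y Q)) (y * u * y⁻¹) := by
  have := hu.conj y
  rwa [h.cjP, cj_OZ] at this

end Am

/-- a vertex: a subgroup and its `2`-core -/
abbrev Vx (G : Type*) [Group G] := Subgroup G × Subgroup G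

/-- conjugate of a vertex -/
def vcj (g : G) (x : Vx G) : Vx G := (cj g x.1, cj g x.2)

/-- half of an edge -/
def Hf (x x' : Vx G) : Prop :=
  ∃ y d, Am x.1 x.2 (x.2 ⊔ x'.2) y d ∧ d ∉ 𝒞(x.2) ∧ x'.2 = cj y x.2 ∧ OZ x'.2 ≤ x.2

/-- the commutator attached to an oriented edge -/
def Uu (x x' : Vx G) (u : G) : Prop := IsU (x.2 ⊔ x'.2) (OZ x.2) u

/-- an edge of type `c` -/
structure Ed (c : Prop) (x x' : Vx G) : Prop where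
  l : Hf x x'
  r : Hf x' x
  typ : c ↔ ∃ u, Uu x x' u ∧ Uu x' x u

/-- the central involution of a vertex -/
def Ce (x : Vx G) (e : G) : Prop := e ∈ OZ x.2 ∧ e ∈ 𝒞(x.1) ∧ e ≠ 1

variable {c : Prop} {x x' : Vx G}

theorem Ed.symm (h : Ed c x x') : Ed c x' x :=
  ⟨h.r, h.l, h.typ.trans (exists_congr fun _ => and_comm)⟩

theorem Hf.conj (h : Hf x x') (g : G) : Hf (vcj g x) (vcj g x') := by
  obtain ⟨y, d, h1, h2, h3, h4⟩ := h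
  refine ⟨g * y * g⁻¹, g * d * g⁻¹, ?_, ?_, ?_, ?_⟩
  · have := h1.conj g
    rwa [cj_sup] at this
  · change _ ∉ 𝒞(cj g x.2)
    rwa [← cj_centralizer, conj_mem_cj]
  · change cj g x'.2 = cj _ (cj g x.2)
    rw [h3, cj_cj, cj_cj, inv_mul_cancel_right]
  · change OZ (cj g x'.2) ≤ cj g x.2
    rw [← cj_OZ]; exact cj_mono g h4

theorem Uu.conj (h : Uu x x' u) (g : G) : Uu (vcj g x) (vcj g x') (g * u * g⁻¹) := by
  have := IsU.conj h g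
  rwa [cj_sup, cj_OZ] at this

theorem vcj_inv (g : G) (x : Vx G) : vcj g⁻¹ (vcj g x) = x :=
  Prod.ext (cj_inv_cj g _) (cj_inv_cj g _)

theorem Ed.conj (h : Ed c x x') (g : G) : Ed c (vcj g x) (vcj g x') := by
  refine ⟨h.l.conj g, h.r.conj g, h.typ.trans ⟨fun ⟨u, a, b⟩ => ⟨_, a.conj g, b.conj g⟩, ?_⟩⟩
  rintro ⟨u, a, b⟩
  have a' := a.conj g⁻¹
  have b' := b.conj g⁻¹
  rw [vcj_inv, vcj_inv] at a' b'
  exact ⟨_, a', b'⟩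

namespace Hf

theorem TH (h : Hf x x') : x.2 ⊔ x'.2 ≤ x.1 := let ⟨_, _, h, _⟩ := h; h.PH
theorem nQ (h : Hf x x') : x.1 ≤ 𝒩(x.2) := let ⟨_, _, h, _⟩ := h; h.nQ
theorem le (h : Hf x x') : OZ x'.2 ≤ x.2 := let ⟨_, _, _, _, _, h⟩ := h; h
theorem fix (h : Hf x x') {g : G} (hg : g ∈ x.1) : vcj g x = x :=
  Prod.ext (cj_eq_of_mem hg) (cj_eq_of_mem_norm (h.nQ hg))
theorem idx (h : Hf x x') : ∀ g ∈ x.2 ⊔ x'.2, ∀ g' ∈ x.2 ⊔ x'.2, g ∉ x.2 → g' ∉ x.2 → g * g' ∈ x.2 :=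
  let ⟨_, _, h, _⟩ := h; h.idx
theorem cent_T (h : Hf x x') {a v : G} (ha : a ∈ x.2 ⊔ x'.2) (ha' : a ∉ x.2) (hv : v ∈ OZ x.2)
    (e : a * v = v * a) : v ∈ 𝒞(x.2 ⊔ x'.2) := let ⟨_, _, h, _⟩ := h; h.cent_P ha ha' hv e
theorem Z_le (h : Hf x x') : OZ (x.2 ⊔ x'.2) ≤ OZ x.2 := let ⟨_, _, h, k, _⟩ := h; h.Z_le k

variable [Finite G]

theorem exU (h : Hf x x') : ∃ u, Uu x x' u :=
  let ⟨_, _, h, k, _⟩ := h; let ⟨u, hu, _⟩ := h.exU k; ⟨u, hu⟩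
theorem uV (h : Hf x x') (hu : Uu x x' u) : u ∈ OZ x.2 := let ⟨_, _, h, k, _⟩ := h; h.uV k hu
theorem uZ (h : Hf x x') (hu : Uu x x' u) : u ∈ OZ (x.2 ⊔ x'.2) :=
  let ⟨_, _, h, k, _⟩ := h; h.uZ k hu
theorem unc (h : Hf x x') (hu : Uu x x' u) : u ∉ 𝒞(x.1) := let ⟨_, _, h, k, _⟩ := h; h.unc k hu
theorem F (h : Hf x x') {g : G} (hg : g ∈ x.2 ⊔ x'.2) (hg' : g ∉ x.2) : g ∉ 𝒞(OZ x.2) :=
  let ⟨_, _, h, k, _⟩ := h; h.F k hg hg'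
theorem idxV (h : Hf x x') {v w : G} (hv : v ∈ OZ x.2) (hw : w ∈ OZ x.2) (hv' : v ∉ 𝒞(x.2 ⊔ x'.2))
    (hw' : w ∉ 𝒞(x.2 ⊔ x'.2)) : v * w ∈ 𝒞(x.2 ⊔ x'.2) :=
  let ⟨_, _, h, _⟩ := h; h.idxV hv hw hv' hw'
theorem Zsplit (h : Hf x x') (hu : Uu x x' u) {z : G} (hz : z ∈ OZ x.2)
    (hz' : z ∈ 𝒞(x.2 ⊔ x'.2)) : z ∈ 𝒞(x.1) ∨ u * z ∈ 𝒞(x.1) :=
  let ⟨_, _, h, k, _⟩ := h; h.Zsplit k hu hz hz'
theorem Euniq (h : Hf x x') {e e' : G} (he : Ce x e) (he' : Ce x e') : e = e' :=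
  let ⟨_, _, h, k, _⟩ := h; h.Euniq k he.1 he'.1 he.2.1 he'.2.1 he.2.2 he'.2.2
theorem notnorm (h : Hf x x') : ¬ x.1 ≤ 𝒩(OZ x.2 ⊔ OZ x'.2) := by
  obtain ⟨_, _, h, k, e, _⟩ := h
  rw [e]; exact h.notnorm k
theorem exists_not (h : Hf x x') : ∃ g ∈ x.2 ⊔ x'.2, g ∉ x.2 :=
  let ⟨_, _, h, _⟩ := h; let ⟨g, a, b⟩ := h.exists_not'; ⟨g, h.Q1P a, b⟩

theorem cases (h : Hf x x') (hu : Uu x x' u) (hu' : Uu x' x u') : u' = u ∨ u' ∈ 𝒞(x.1) := by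
  obtain ⟨y, _, h, k, e, _⟩ := h
  have := h.isU1 hu
  rw [← e, sup_comm] at this
  rw [IsU.uniq hu' this]
  exact h.cases k hu

end Hf

variable [Finite G]

theorem Ed.ce (h : Ed False x x') (hu : Uu x x' u) : Ce x' u := by
  obtain ⟨w, hw⟩ := h.r.exU
  refine ⟨h.r.Z_le (by rw [sup_comm]; exact h.l.uZ hu), (h.r.cases hw hu).resolve_left ?_, hu.1⟩
  rintro rfl
  exact h.typ.2 ⟨_, hu, hw⟩

theorem Ed.uu (h : Ed False x x') {e : G} (he : Ce x' e) : Uu x x' e := by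
  obtain ⟨w, hw⟩ := h.l.exU
  rwa [h.r.Euniq he (h.ce hw)]

theorem Ed.exCe (h : Ed False x x') : ∃ e, Ce x' e := let ⟨w, hw⟩ := h.l.exU; ⟨w, h.ce hw⟩

omit [Finite G] in
theorem Ed.uu' (h : Ed True x x') (hu : Uu x x' u) : Uu x' x u := by
  obtain ⟨w, a, b⟩ := h.typ.1 trivial
  rwa [IsU.uniq hu a]

end Cfsg.Agent.H27.Sims
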