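/-
Glauberman - Sims: dihedral amalgams. Critical paths.
-/
import Cfsg.Agent.H27.SimsB

set_option autoImplicit false

namespace Cfsg.Agent.H27.Sims

open Subgroup Cfsg.Agent.H49

variable {G : Type*} [Group G] {c : Prop}

/-- `z'` and `w` are neighbours of `z` in general position -/
def Opp (z' z w : Vx G) : Prop :=
  ∀ g ∈ z.2 ⊔ z'.2, g ∉ z.2 → ∀ K : Subgroup G, z.2 ⊔ w.2 ≤ K → g ∈ K → z.1 ≤ K

section
variable [Finite G] {a a' z z' w : Vx G} {u u' : G}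

theorem crit_symm (e : Ed c z z') (h1 : OZ a.2 ≤ z'.2) (h : ¬ OZ a.2 ≤ z.2) : ¬ OZ z.2 ≤ a.2 := by
  obtain ⟨g, hg, hg'⟩ := SetLike.not_le_iff_exists.1 h
  exact fun k => e.l.F (mem_sup_right (h1 hg)) hg' (cent_anti k hg.2.1)

theorem crit_u (e1 : Ed c z z') (h1 : OZ a.2 ≤ z'.2) (h2 : OZ z.2 ≤ a'.2) (h : ¬ OZ a.2 ≤ z.2)
    (u0 : Uu a a' u) (u1 : Uu z z' u') : u = u' := by
  obtain ⟨g, hg, hg'⟩ := SetLike.not_le_iff_exists.1 h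
  obtain ⟨v, hv, hv'⟩ : ∃ v ∈ OZ z.2, v * g ≠ g * v := by
    by_contra hn
    exact e1.l.F (mem_sup_right (h1 hg)) hg' fun v hv => by_contra fun e => hn ⟨v, hv, e⟩
  have k1 := IsU.of_ne u0 (mem_sup_right (h2 hv)) hg hv'
  have k2 := IsU.of_ne u1 (mem_sup_right (h1 hg)) hv hv'.symm
  rw [← OZ_inv (e1.l.uV u1), ← mul_inv_eq_iff_eq_mul.2 k1, ← mul_inv_eq_iff_eq_mul.2 k2]
  group

theorem shift (e0 : Ed c a a') (e1 : Ed c z z') (h1 : OZ a.2 ≤ z'.2) (h2 : OZ z.2 ≤ a'.2)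
    (h : ¬ OZ a.2 ≤ z.2) : ∃ d ∈ z.1, Odd (orderOf d) ∧
      (∀ g ∈ z.2 ⊔ z'.2, g ∉ z.2 → g * d * g⁻¹ * d ∈ z.2) ∧ Opp z' z (vcj d z') ∧
      Ed c z (vcj d z') ∧ ¬ OZ (vcj d z').2 ≤ a'.2 := by
  obtain ⟨y, d, hA, -⟩ := id e1.l
  have e2 := e1.conj d
  rw [e1.l.fix hA.dH] at e2
  have dQ : cj d z.2 = z.2 := cj_eq_of_mem_norm (hA.nQ hA.dH)
  have op : Opp z' z (vcj d z') := fun g hg hg' K hK gK =>
    hA.le_of_cj (by rw [cj_sup, dQ]; exact hK) hg hg' gK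
  refine ⟨d, hA.dH, hA.odd, hA.inv, op, e2, fun k => e1.l.notnorm ?_⟩
  obtain ⟨g, hg, hg'⟩ := SetLike.not_le_iff_exists.1 h
  obtain ⟨u, u0⟩ := e0.l.exU
  obtain ⟨u', u1⟩ := e1.l.exU
  obtain rfl := crit_u e1 h1 h2 h u0 u1
  have gT : g ∈ z.2 ⊔ z'.2 := mem_sup_right (h1 hg)
  have n1 : z.1 ≤ 𝒩(OZ z.2 ⊔ OZ (vcj d z').2) := by
    refine op g gT hg' _ (norm_sup (norm_OZ (e2.l.TH.trans e2.l.nQ))
      (norm_OZ ((sup_comm _ _).le.trans (e2.r.TH.trans e2.r.nQ)))) (mem_norm_of_cj_le ?_)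
    rw [cj_sup, cj_eq_of_mem_norm (norm_OZ e1.l.nQ (e1.l.TH gT))]
    refine sup_le le_sup_left fun x hx => ?_
    obtain ⟨v, hv, rfl⟩ := mem_cj'.1 hx
    have e : g * v * g⁻¹ = (v * g * v⁻¹ * g⁻¹)⁻¹ * v := by group
    rw [e]
    refine mul_mem (mem_sup_left (inv_mem ?_)) (mem_sup_right hv)
    rcases u0.2.1 v (mem_sup_right (k hv)) g hg with e | e <;> rw [e]
    · rw [mul_inv_cancel]; exact one_mem _
    · rw [mul_inv_cancel_right]; exact e1.l.uV u1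
  have e : OZ z.2 ⊔ OZ (vcj d z').2 = cj d (OZ z.2 ⊔ OZ z'.2) := by
    rw [cj_sup, cj_OZ, cj_OZ, dQ]; rfl
  rw [e, ← cj_normalizer, ← cj_eq_of_mem hA.dH, cj_le_cj_iff] at n1
  exact n1

theorem not_cent (e1 : Ed c z z') (e2 : Ed c z w) (op : Opp z' z w) (hu : Uu z w u) {g : G}
    (hg : g ∈ z.2 ⊔ z'.2) (hg' : g ∉ z.2) : g * u ≠ u * g := fun e =>
  e2.l.unc hu (le_cent1_iff.1 (op g hg hg' _ (le_cent1_iff.2 (e2.l.uZ hu).2.1) (mem_cent1.2 e)))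

theorem span (e1 : Ed False z z') (e2 : Ed False z w) (op : Opp z' z w) {e : G} (hu : Uu z z' u)
    (he : Ce z e) (hu' : Uu z w u') {K : Subgroup G} (uK : u ∈ K) (eK : e ∈ K) (uK' : u' ∈ K) :
    OZ z.2 ≤ K := by
  have k1 : ∀ v ∈ OZ z.2, v ∈ 𝒞(z.1) → v ∈ K := fun v hv hc => by
    by_cases v1 : v = 1
    · rw [v1]; exact one_mem _
    · rwa [e1.l.Euniq ⟨hv, hc, v1⟩ he]
  have k2 : ∀ v ∈ OZ z.2, v ∈ 𝒞(z.2 ⊔ z'.2) → v ∈ K := fun v hv hc => by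
    rcases e1.l.Zsplit hu hv hc with k | k
    · exact k1 v hv k
    · simpa using mul_mem (inv_mem uK) (k1 _ (mul_mem (e1.l.uV hu) hv) k)
  intro v hv
  by_cases hc : v ∈ 𝒞(z.2 ⊔ z'.2)
  · exact k2 v hv hc
  · obtain ⟨g, hg, hg'⟩ := e1.l.exists_not
    have := k2 _ (mul_mem hv (e2.l.uV hu')) (e1.l.idxV hv (e2.l.uV hu') hc
      fun k => not_cent e1 e2 op hu' hg hg' (k g hg))
    simpa using mul_mem this (inv_mem uK')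

end

/-- the calculation modulo `V` for critical distance two -/
theorem two_calc {X : Type*} [Group X] {B : Subgroup X} {δ γ φ : X} (hδ : δ ∈ 𝒩(B)) (hφ : φ ∈ OZ B)
    (h1 : γ * δ * γ⁻¹ * δ ∈ B) (h2 : γ * φ * γ⁻¹ = φ) (ho : Odd (orderOf δ))
    (h3 : δ * φ * δ⁻¹ ≠ φ)
    (h4 : γ * (δ * (δ * φ * δ⁻¹) * δ⁻¹) * γ⁻¹ = δ * (δ * φ * δ⁻¹) * δ⁻¹ ∨
      γ * (δ * (δ * φ * δ⁻¹) * δ⁻¹) * γ⁻¹ =
        δ * (δ * φ * δ⁻¹) * δ⁻¹ * (δ * φ * δ⁻¹ * (γ * (δ * φ * δ⁻¹) * γ⁻¹))) :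
    γ * (δ * φ * δ⁻¹) * γ⁻¹ = δ * (δ * φ * δ⁻¹) * δ⁻¹ := by
  have n := norm_OZ (le_refl 𝒩(B))
  have up : ∀ x ∈ OZ B, δ * x * δ⁻¹ ∈ OZ B := fun x hx => conj_mem_of_norm n hδ hx
  have dn : ∀ x ∈ OZ B, δ⁻¹ * x * δ ∈ OZ B := fun x hx => conj_mem_of_norm' n hδ hx
  have key : ∀ x y, y ∈ OZ B → γ * x * γ⁻¹ = y → γ * (δ * x * δ⁻¹) * γ⁻¹ = δ⁻¹ * y * δ := by
    intro x y hy e
    calc _ = γ * δ * γ⁻¹ * δ * (δ⁻¹ * (γ * x * γ⁻¹) * δ) * (γ * δ * γ⁻¹ * δ)⁻¹ := by group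
      _ = _ := by rw [e, OZ_comm (dn y hy) h1, mul_inv_cancel_right]
  have k1 := key φ φ hφ h2
  have k2 := key _ _ (dn φ hφ) k1
  have sq : ∀ x : X, δ * (δ * x * δ⁻¹) * δ⁻¹ = x → δ * x * δ⁻¹ = x := fun x e => by
    have : δ ∈ 𝒞[x] := H8.mem_of_sq_mem_of_odd ho (mem_cent1.2 (by
      rw [← mul_inv_eq_iff_eq_mul, pow_two]
      exact Eq.trans (by group) e))
    exact mul_inv_eq_iff_eq_mul.2 (mem_cent1.1 this)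
  rw [k2, k1] at h4
  rw [k1]
  rcases h4 with e | e
  · refine absurd ?_ h3
    have h5 : δ ∈ 𝒞[φ] := H8.mem_of_sq_mem_of_odd ho (H8.mem_of_sq_mem_of_odd (ho.of_dvd_nat (orderOf_pow_dvd 2))
      (mem_cent1.2 (by
        rw [← mul_inv_eq_iff_eq_mul, pow_two, pow_two]
        calc _ = δ * δ * (δ * (δ * φ * δ⁻¹) * δ⁻¹) * (δ * δ)⁻¹ := by group
          _ = φ := by rw [← e]; group)))
    exact mul_inv_eq_iff_eq_mul.2 (mem_cent1.1 h5)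
  · have m1 := up φ hφ
    have m2 := up _ m1
    have m3 := dn φ hφ
    have m4 := dn _ m3
    have e1 : δ⁻¹ * (δ⁻¹ * φ * δ) * δ * (δ⁻¹ * φ * δ) * φ =
        φ * (δ * φ * δ⁻¹) * (δ * (δ * φ * δ⁻¹) * δ⁻¹) := by
      rw [e, mul_assoc _ _ (δ⁻¹ * φ * δ), mul_assoc _ _ (δ⁻¹ * φ * δ), OZ_sq m3, mul_one,
        OZ_comm hφ (mul_mem m2 m1).1, OZ_comm m1 m2.1, mul_assoc φ]
    have e2 := sq _ (Eq.trans (by group) e1.symm)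
    have e3 : δ⁻¹ * φ * δ * φ * (δ * φ * δ⁻¹) = δ⁻¹ * φ * δ * φ * (δ⁻¹ * (δ⁻¹ * φ * δ) * δ) := by
      rw [OZ_comm m4 (mul_mem m3 hφ).1, ← mul_assoc _ (δ⁻¹ * φ * δ) φ]
      exact Eq.trans (by group) e2
    rw [mul_left_cancel e3]; group

section
variable [Finite G] {x₀ x₁ x₂ : Vx G}

theorem two_false (e0 : Ed False x₀ x₁) (e1 : Ed False x₂ x₁) (h : ¬ OZ x₀.2 ≤ x₂.2) : False := by
  obtain ⟨d, dH, od, inv, -, e2, h'⟩ := shift e0 e1 e0.r.le e1.r.le h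
  obtain ⟨g, hg, hg'⟩ := SetLike.not_le_iff_exists.1 h
  obtain ⟨f, hf, hf'⟩ := SetLike.not_le_iff_exists.1 h'
  obtain ⟨a, ha⟩ := e0.exCe
  obtain ⟨b, hb⟩ := e1.symm.exCe
  have gQ : g ∈ x₁.2 := e0.r.le hg
  have fQ : f ∈ x₂.2 := e2.l.le hf
  have gH : g ∈ x₂.1 := e1.l.TH (mem_sup_right gQ)
  have fH : f ∈ x₁.1 := e1.r.TH (mem_sup_right fQ)
  have cQ : ∀ k ∈ x₂.1, ∀ q ∈ x₂.2, k * q * k⁻¹ ∈ x₂.2 := fun k hk q hq =>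
    conj_mem_of_norm e1.l.nQ hk hq
  have aV : a ∈ OZ x₂.2 := e1.l.uV (e1.uu ha)
  have ff : g * f * g⁻¹ * f = f * (g * f * g⁻¹) := by
    have k1 := (e2.symm.uu hb).2.1 _ (mem_sup_right (cQ g gH f fQ)) f hf
    have k2 := (e0.uu ha).2.1 _ (mem_sup_right (conj_mem_of_norm e1.r.nQ fH gQ)) g hg
    refine mul_inv_eq_iff_eq_mul.1 (k1.resolve_right fun k1 => ?_)
    have r : b⁻¹ = f * g * f⁻¹ * g * (f * g * f⁻¹)⁻¹ * g⁻¹ := by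
      rw [← mul_inv_eq_iff_eq_mul.2 k1]
      simp only [mul_inv_rev, OZ_inv hf, OZ_inv hg, mul_assoc]
    rw [OZ_inv hb.1] at r
    rcases k2 with k2 | k2 <;> rw [k2] at r
    · exact hb.2.2 (by rw [r, mul_inv_cancel])
    · rw [mul_inv_cancel_right] at r
      exact e1.l.unc (e1.uu ha) (r ▸ hb.2.1)
  obtain ⟨φ, hφ, rfl⟩ : ∃ φ ∈ OZ x₁.2, f = d * φ * d⁻¹ := by
    have : f ∈ cj d (OZ x₁.2) := by rw [cj_OZ]; exact hf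
    exact mem_cj'.1 this
  have nV : x₂.1 ≤ 𝒩(OZ x₂.2) := norm_OZ e1.l.nQ
  have φQ : φ ∈ x₂.2 := e1.l.le hφ
  have nc : d * φ * d⁻¹ * φ ≠ φ * (d * φ * d⁻¹) := fun e =>
    hf' (e1.r.le (conj_mem_of_norm nV dH (e1.l.Z_le ⟨mem_sup_left φQ, by
      rw [sup_comm]; exact e1.r.cent_T (mem_sup_right fQ) hf' hφ e, hφ.2.2⟩)))
  have QH : x₂.2 ≤ x₂.1 := le_sup_left.trans e1.l.TH
  let π := cosetOn nV
  have eq : ∀ s t : x₂.1, π s = π t ↔ (s : G)⁻¹ * t ∈ OZ x₂.2 := fun s t => coset_eq_iff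
  have mB : ∀ q : x₂.1, (q : G) ∈ x₂.2 → π q ∈ quo x₂.2 (OZ x₂.2) := fun q hq => coset_mem_quo hq
  have cg : ∀ q ∈ x₂.2, q ∈ x₁.2 → q⁻¹ * (g * q * g⁻¹) ∈ OZ x₂.2 := fun q _ hq' => by
    have e : q⁻¹ * (g * q * g⁻¹) = q⁻¹ * g * q⁻¹⁻¹ * g⁻¹ := by group
    rw [e]
    rcases (e0.uu ha).2.1 _ (mem_sup_right (inv_mem hq')) g hg with k | k <;> rw [k]
    · rw [mul_inv_cancel]; exact one_mem _
    · rwa [mul_inv_cancel_right]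
  have key := two_calc (B := quo x₂.2 (OZ x₂.2)) (δ := π ⟨d, dH⟩) (γ := π ⟨g, gH⟩)
    (φ := π ⟨φ, QH φQ⟩) (quo_norm _ e1.l.nQ (coset_mem_quo dH)) ⟨mB _ φQ, ?_, ?_⟩
    (by rw [← map_inv, ← map_mul, ← map_mul, ← map_mul]; exact mB _ (inv g (mem_sup_right gQ) hg'))
    (by
      rw [← map_inv, ← map_mul, ← map_mul]
      exact congrArg π (Subtype.ext (mul_inv_eq_iff_eq_mul.2 (OZ_comm hφ gQ))))
    (od.of_dvd_nat ((orderOf_map_dvd π _).trans (orderOf_mk _ _).dvd)) ?_ ?_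
  · simp only [← map_inv, ← map_mul] at key
    have k1 : (g * (d * φ * d⁻¹) * g⁻¹)⁻¹ * (d * (d * φ * d⁻¹) * d⁻¹) ∈ OZ x₂.2 := (eq _ _).1 key
    have k2 := OZ_comm k1 fQ
    apply nc
    calc _ = d⁻¹ * (g * (d * φ * d⁻¹) * g⁻¹) * ((g * (d * φ * d⁻¹) * g⁻¹)⁻¹ *
          (d * (d * φ * d⁻¹) * d⁻¹) * (d * φ * d⁻¹)) * d := by group
      _ = d⁻¹ * (g * (d * φ * d⁻¹) * g⁻¹ * (d * φ * d⁻¹)) * ((g * (d * φ * d⁻¹) * g⁻¹)⁻¹ *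
          (d * (d * φ * d⁻¹) * d⁻¹)) * d := by rw [← k2]; simp only [mul_assoc]
      _ = _ := by rw [ff]; group
  · rintro _ ⟨q, hq, rfl⟩
    have hq' : (q : G) ∈ x₂.2 := hq
    refine coset_eq_iff.2 (show ((q : G) * φ)⁻¹ * (φ * q) ∈ OZ x₂.2 from ?_)
    have e : ((q : G) * φ)⁻¹ * (φ * q) = φ⁻¹ * ((q : G)⁻¹ * φ * (q : G)⁻¹⁻¹ * φ⁻¹) * φ := by group
    rw [e]
    refine conj_mem_of_norm' nV (QH φQ) ?_
    rcases (e1.symm.uu hb).2.1 _ (mem_sup_right (inv_mem hq')) φ hφ with k | k <;> rw [k]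
    · rw [mul_inv_cancel]; exact one_mem _
    · rw [mul_inv_cancel_right]; exact hb.1
  · rw [← map_mul, ← map_one π]
    exact congrArg π (Subtype.ext hφ.2.2)
  · intro k
    simp only [← map_inv, ← map_mul] at k
    have k1 : (d * φ * d⁻¹)⁻¹ * φ ∈ OZ x₂.2 := (eq _ _).1 k
    have k2 := OZ_comm k1 fQ
    apply nc
    calc _ = d * φ * d⁻¹ * (d * φ * d⁻¹ * ((d * φ * d⁻¹)⁻¹ * φ)) := by group
      _ = _ := by rw [k2]; group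
  · simp only [← map_inv, ← map_mul]
    have sQ := cQ d dH _ fQ
    by_cases s1 : d * (d * φ * d⁻¹) * d⁻¹ ∈ x₁.2
    · exact Or.inl ((eq _ _).2 (cg _ sQ s1)).symm
    · right
      have k1 := cg _ (mul_mem sQ fQ) (e1.r.idx _ (mem_sup_right sQ) _ (mem_sup_right fQ) s1 hf')
      have k2 := conj_mem_of_norm' nV (QH (cQ g gH _ fQ)) k1
      refine ((eq _ _).2 ?_).symm
      convert k2 using 1
      have fi : (d * φ * d⁻¹)⁻¹ = d * φ * d⁻¹ := OZ_inv hf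
      change (d * (d * φ * d⁻¹) * d⁻¹ * (d * φ * d⁻¹ * (g * (d * φ * d⁻¹) * g⁻¹)))⁻¹ *
        (g * (d * (d * φ * d⁻¹) * d⁻¹) * g⁻¹) = _
      generalize d * φ * d⁻¹ = f at *
      calc _ = (g * f * g⁻¹)⁻¹ * ((d * f * d⁻¹ * f)⁻¹ * (g * (d * f * d⁻¹ * f) * g⁻¹)) *
            (g * f⁻¹ * g⁻¹) := by group
        _ = _ := by rw [fi]

end

end Cfsg.Agent.H27.Sims
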