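/-
Glauberman - Sims: dihedral amalgams. The critical distance is one.
-/
import Cfsg.Agent.H27.SimsC

set_option autoImplicit false

namespace Cfsg.Agent.H27.Sims

open Subgroup Cfsg.Agent.H49

variable {G : Type*} [Group G] {c : Prop} {b k n : ℕ} {x : ℕ → Vx G}

/-- a walk of length `n` -/
def Path (c : Prop) (x : ℕ → Vx G) (n : ℕ) : Prop := ∀ i < n, Ed c (x i) (x (i + 1))

/-- no critical walk of length less than `b` -/
def Min (G : Type*) [Group G] (c : Prop) (b : ℕ) : Prop :=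
  ∀ k < b, ∀ x : ℕ → Vx G, Path c x k → OZ (x k).2 ≤ (x 0).2

theorem Min.down (hm : Min G c b) (hp : Path c x n) {i j : ℕ} (hij : i ≤ j) (hj : j ≤ n)
    (h : j < i + b) : OZ (x j).2 ≤ (x i).2 := by
  have := hm (j - i) (by omega) (fun t => x (i + t)) fun t ht => hp (i + t) (by omega)
  simpa only [Nat.add_sub_cancel' hij, Nat.add_zero] using this

theorem Min.up (hm : Min G c b) (hp : Path c x n) {i j : ℕ} (hij : i ≤ j) (hj : j ≤ n)
    (h : j < i + b) : OZ (x i).2 ≤ (x j).2 := by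
  have := hm (j - i) (by omega) (fun t => x (j - t)) fun t ht => by
    have e := (hp (j - (t + 1)) (by omega)).symm
    rwa [show j - (t + 1) + 1 = j - t by omega] at e
  simpa only [Nat.sub_sub_self hij, Nat.sub_zero] using this

/-- a critical walk of length `b + 1`, shifted `k` times -/
structure Seq (c : Prop) (b : ℕ) (x : ℕ → Vx G) (k : ℕ) : Prop where
  path : Path c x (b + 1 + k)
  crit : ∀ j ≤ k, ¬ OZ (x j).2 ≤ (x (j + b + 1)).2
  opp : ∀ j < k, Opp (x (j + b)) (x (j + b + 1)) (x (j + b + 2))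

variable [Finite G]

theorem Seq.succ (hm : Min G c (b + 1)) (h : Seq c b x k) : ∃ x' : ℕ → Vx G, Seq c b x' (k + 1) := by
  obtain ⟨d, -, -, -, op, e, cr⟩ := shift (h.path k (by omega)) (h.path (k + b) (by omega)).symm
    (hm.up h.path (by omega) (by omega) (by omega)) (hm.down h.path (by omega) (by omega) (by omega))
    (h.crit k le_rfl)
  let x' := Function.update x (k + b + 2) (vcj d (x (k + b)))
  have e1 : ∀ i, i < k + b + 2 → x' i = x i := fun i hi => Function.update_of_ne hi.ne _ _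
  have e2 : x' (k + b + 2) = vcj d (x (k + b)) := Function.update_self _ _ _
  have p : Path c x' (b + 1 + (k + 1)) := fun i hi => by
    rcases (show i + 1 < k + b + 2 ∨ i = k + b + 1 by omega) with h1 | rfl
    · rw [e1 _ h1, e1 _ (by omega)]; exact h.path i (by omega)
    · rw [e1 _ (by omega), e2]; exact e
  refine ⟨x', p, fun j hj => ?_, fun j hj => ?_⟩
  · rcases (show j ≤ k ∨ j = k + 1 by omega) with h1 | rfl
    · rw [e1 _ (by omega), e1 _ (by omega)]; exact h.crit j h1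
    · refine crit_symm (p (k + 1) (by omega)) (hm.down p (by omega) (by omega) (by omega)) ?_
      rw [show k + 1 + b + 1 = k + b + 2 by omega, e2, e1 _ (by omega)]
      exact cr
  · rcases (show j < k ∨ j = k by omega) with h1 | rfl
    · rw [e1 _ (by omega), e1 _ (by omega), e1 _ (by omega)]; exact h.opp j h1
    · rw [e1 _ (by omega), e1 _ (by omega), e2]; exact op

theorem Seq.u_eq (hm : Min G c (b + 1)) (h : Seq c b x k) {j : ℕ} (hj : j ≤ k) {u : G}
    (hu : Uu (x j) (x (j + 1)) u) : Uu (x (j + b + 1)) (x (j + b)) u := by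
  have e := (h.path (j + b) (by omega)).symm
  obtain ⟨w, hw⟩ := e.l.exU
  rwa [crit_u e (hm.up h.path (by omega) (by omega) (by omega))
    (hm.down h.path (by omega) (by omega) (by omega)) (h.crit j hj) hu hw]

theorem one_false (hm : Min G True (b + 1)) (hb : 1 ≤ b) (h : Seq True b x 1) : False := by
  obtain ⟨u, hu⟩ := (h.path 1 (by omega)).l.exU
  have h1 := h.u_eq hm le_rfl hu
  have e := h.path (1 + b) (by omega)
  have h2 := e.symm.uu' h1
  obtain ⟨g, hg, hg'⟩ := SetLike.not_le_iff_exists.1 (h.crit 0 (by omega))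
  have op := h.opp 0 (by omega)
  have e0 := (h.path (0 + b) (by omega)).symm
  rw [show 1 + b = 0 + b + 1 by omega] at e h2
  exact not_cent e0 e op h2 (mem_sup_right (hm.up h.path (by omega) (by omega) (by omega) hg)) hg'
    (OZ_comm ((h.path 1 (by omega)).l.uV hu) ((h.path 0 (by omega)).r.le hg))

theorem three_false (hm : Min G False (b + 1)) (hb : 2 ≤ b) (h : Seq False b x 3) : False := by
  have p1 := h.path 1 (by omega)
  have p2 := h.path 2 (by omega)
  have p3 := h.path 3 (by omega)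
  obtain ⟨e₂, h₂⟩ := p1.exCe
  obtain ⟨e₃, h₃⟩ := p2.exCe
  obtain ⟨e₄, h₄⟩ := p3.exCe
  have u₂ := h.u_eq hm (by omega) (p1.uu h₂)
  have u₃ := h.u_eq hm (by omega) (p2.uu h₃)
  have u₄ := h.u_eq hm (by omega) (p3.uu h₄)
  have q1 := (h.path (1 + b) (by omega)).symm
  have q2 := h.path (2 + b) (by omega)
  have q3 := h.path (3 + b) (by omega)
  have c₃ := q2.symm.ce u₃
  have c₄ := q3.symm.ce u₄
  rw [show 2 + b = 1 + b + 1 by omega] at q2 c₃
  rw [show 3 + b = 1 + b + 1 + 1 by omega] at c₄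
  have := span q1 q2 (h.opp 1 (by omega)) u₂ c₃ (q2.uu c₄) (K := OZ (x 3).2)
    (p2.r.uV (p2.symm.uu h₂)) h₃.1 (p3.l.uV (p3.uu h₄))
  exact crit_symm q1 (hm.up h.path (by omega) (by omega) (by omega)) (h.crit 1 (by omega))
    (this.trans (hm.down h.path (by omega) (by omega) (by omega)))

theorem no_crit (c : Prop) (n : ℕ) : Min G c n := by
  induction n with
  | zero => exact fun k hk => absurd hk (Nat.not_lt_zero k)
  | succ n hm =>
  intro k hk x hp
  rcases (show k < n ∨ k = n by omega) with h1 | rfl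
  · exact hm k h1 x hp
  by_contra hc
  rcases k with _ | b
  · exact hc (OZ_le _)
  rcases Nat.eq_zero_or_pos b with rfl | hb
  · exact hc (hp 0 (by omega)).l.le
  have s0 : Seq c b x 0 := ⟨hp, fun j hj => by
    obtain rfl : j = 0 := by omega
    rw [Nat.zero_add]
    exact crit_symm (hp 0 (by omega)) (hm.down hp (by omega) (by omega) (by omega)) hc,
    fun j hj => absurd hj (Nat.not_lt_zero j)⟩
  by_cases h : c
  · obtain rfl := eq_true h
    obtain ⟨_, s1⟩ := s0.succ hm
    exact one_false hm hb s1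
  obtain rfl := eq_false h
  rcases (show b = 1 ∨ 2 ≤ b by omega) with rfl | hb
  · exact two_false (hp 0 (by omega)) (hp 1 (by omega)).symm (s0.crit 0 le_rfl)
  · obtain ⟨_, s1⟩ := s0.succ hm
    obtain ⟨_, s2⟩ := s1.succ hm
    obtain ⟨_, s3⟩ := s2.succ hm
    exact three_false hm hb s3

theorem Am.not_le {H Q P : Subgroup G} {y d : G} (h : Am H Q P y d) (hd : d ∉ 𝒞(Q)) :
    ¬ OZ (cj y Q) ≤ Q := by
  intro hle
  have yy := h.y2_norm h.QP (h.PH.trans h.nQ)
  have l : Hf (H, Q) (vcj y (H, Q)) := ⟨y, d, by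
    change Am H Q (Q ⊔ cj y Q) y d
    rwa [h.sup_eq], hd, rfl, hle⟩
  have r : Hf (vcj y (H, Q)) (H, Q) := by
    obtain ⟨y', d', k1, k2, k3, k4⟩ := l.conj y
    change Am (cj y H) (cj y Q) (cj y Q ⊔ cj y (cj y Q)) y' d' at k1
    change cj y (cj y Q) = cj y' (cj y Q) at k3
    change OZ (cj y (cj y Q)) ≤ cj y Q at k4
    rw [yy] at k1 k3 k4
    exact ⟨y', d', k1, k2, k3, k4⟩
  obtain ⟨c, e⟩ : ∃ c, Ed c (H, Q) (vcj y (H, Q)) := ⟨_, l, r, Iff.rfl⟩
  let R : Set (Subgroup G) := {A | ∃ n x, Path c x n ∧ x 0 = (H, Q) ∧ A = OZ (x n).2}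
  have RQ : sSup R ≤ Q := sSup_le (by
    rintro _ ⟨n, x, hp, h0, rfl⟩
    have := no_crit c (n + 1) n (by omega) x hp
    rwa [h0] at this)
  have nR : ∀ g : G, (∀ A ∈ R, cj g A ∈ R) → g ∈ 𝒩(sSup R) := fun g hg =>
    mem_norm_of_cj_le (cj_le_iff.2 (sSup_le fun A hA => cj_le_iff.1 (le_sSup (hg A hA))))
  have R0 := h.star _ (RQ.trans h.QP) (fun g hg => nR g (by
    rintro _ ⟨n, x, hp, h0, rfl⟩
    exact ⟨n, fun i => vcj g (x i), fun i hi => (hp i hi).conj g, by
      change vcj g (x 0) = _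
      rw [h0]; exact l.fix hg, cj_OZ _ _⟩)) (nR y (by
    rintro _ ⟨n, x, hp, h0, rfl⟩
    refine ⟨n + 1, fun i => Nat.casesOn i (H, Q) fun i => vcj y (x i), fun i hi => ?_, rfl,
      cj_OZ _ _⟩
    rcases i with _ | i
    · change Ed c (H, Q) (vcj y (x 0))
      rwa [h0]
    · exact (hp i (by omega)).conj y))
  have : OZ Q ≤ sSup R := le_sSup ⟨0, fun _ => (H, Q), fun i hi => absurd hi (Nat.not_lt_zero i),
    rfl, rfl⟩
  exact h.Z_ne (eq_bot_iff.2 ((h.Z_le hd).trans (this.trans R0.le)))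

end Cfsg.Agent.H27.Sims
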