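/-
Glauberman - Sims: dihedral amalgams. The end game.
-/
import Cfsg.Agent.H27.SimsD
import Cfsg.Agent.S1012

set_option autoImplicit false

namespace Cfsg.Agent.H27.Sims

open Subgroup Cfsg.Agent.H49

variable {G : Type*} [Group G] {H Q P : Subgroup G} {y d u : G}

theorem mem_sup_two {A : Subgroup G} {v x : G} (hv : v ∈ 𝒩(A)) (v2 : v * v = 1)
    (hx : x ∈ A ⊔ zpowers v) : x ∈ A ∨ x * v ∈ A := by
  obtain ⟨a, ha, b, hb, rfl⟩ := (mem_sup_of_norm_left (zpowers_le.2 hv)).1 hx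
  obtain ⟨k, rfl⟩ := mem_zpowers_iff.1 hb
  have e : v ^ (2 : ℤ) = 1 := by rw [zpow_two, v2]
  rcases Int.even_or_odd' k with ⟨j, rfl | rfl⟩
  · left; rwa [zpow_mul, e, one_zpow, mul_one]
  · right; rwa [zpow_add, zpow_mul, e, one_zpow, one_mul, zpow_one, mul_assoc, v2, mul_one]

theorem exists_sign {X : Type*} [Group X] [Finite X] {P P₀ : Subgroup X} (ho : ¬ 2 ∣ P.index)
    (h2 : P₀.relIndex P = 2) {e : X} (eP : e ∈ P) (e0 : e ∉ P₀) (e2 : e * e = 1)
    (ec : ∀ g, g * e = e * g) : ∃ σ : X →* Multiplicative (ZMod 2), σ e ≠ 1 := by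
  classical
  let χ : P →* Multiplicative (ZMod 2) :=
    MonoidHom.mk' (fun g => if g ∈ P₀.subgroupOf P then 1 else Multiplicative.ofAdd 1) fun a b => by
      simp only [mul_mem_iff_of_index_two h2]
      by_cases ha : a ∈ P₀.subgroupOf P <;> by_cases hb : b ∈ P₀.subgroupOf P <;> simp [ha, hb]
      rfl
  refine ⟨MonoidHom.transfer χ, ?_⟩
  rw [MonoidHom.transfer_eq_pow χ e fun k g _ => by
    rw [mul_assoc, ← (show Commute g e from ec g).pow_right k, inv_mul_cancel_left]]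
  obtain ⟨k, hk⟩ := Nat.not_even_iff_odd.1 fun h => ho (even_iff_two_dvd.1 h)
  have e1 : e ^ P.index ∉ P₀ := by rwa [hk, pow_succ, pow_mul, pow_two, e2, one_pow, one_mul]
  change (if _ then _ else _) ≠ _
  rw [if_neg (by exact e1)]
  decide

theorem prod_sign {X S : Type*} [Group X] [Group S] [Finite X] {O : Subgroup X} [O.Normal]
    (ho : Odd (Nat.card O)) {e : X} (e2 : e * e = 1) {σ : X →* Multiplicative (ZMod 2)}
    (he : σ e ≠ 1) {τ : X →* S} (hs : Function.Surjective τ) (hk : τ.ker = O ⊔ zpowers e) :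
    Nonempty (X ⧸ O ≃* S × Multiplicative (ZMod 2)) := by
  have z : ∀ a : Multiplicative (ZMod 2), a * a = 1 := by decide
  have z' : ∀ a b c : Multiplicative (ZMod 2), c ≠ 1 → a ≠ b → a * c = b := by decide
  have hO : ∀ x ∈ O, σ x = 1 := fun x hx =>
    H8.eq_one_of_sq_of_odd ((ho.of_dvd_nat (O.orderOf_dvd_natCard hx)).of_dvd_nat
      (orderOf_map_dvd σ x)) (z _)
  have te : τ e = 1 := by rw [← MonoidHom.mem_ker, hk]; exact mem_sup_right (mem_zpowers e)
  have k : (τ.prod σ).ker = O := by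
    ext x
    rw [MonoidHom.mem_ker, MonoidHom.prod_apply, Prod.mk_eq_one, ← MonoidHom.mem_ker, hk]
    refine ⟨fun ⟨a, b⟩ => (mem_sup_two (normal_iff_top_le_norm.1 ‹_› (mem_top e)) e2 a).resolve_right fun c => he ?_,
      fun a => ⟨mem_sup_left a, hO x a⟩⟩
    have := hO _ c
    rwa [map_mul, b, one_mul] at this
  refine ⟨(QuotientGroup.quotientMulEquivOfEq k.symm).trans
    (QuotientGroup.quotientKerEquivOfSurjective _ fun ⟨s, t⟩ => ?_)⟩
  obtain ⟨a, rfl⟩ := hs s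
  by_cases c : σ a = t
  · exact ⟨a, Prod.ext rfl c⟩
  · refine ⟨a * e, Prod.ext ?_ ?_⟩
    · change τ (a * e) = τ a
      rw [map_mul, te, mul_one]
    · change σ (a * e) = t
      rw [map_mul]; exact z' _ _ _ he c

namespace Am

theorem inv_pow (h : Am H Q P y d) {g : G} (hg : g ∈ P) (hg' : g ∉ Q) (i : ℕ) :
    g * d ^ i * g⁻¹ * d ^ i ∈ Q := by
  induction i with
  | zero => simp
  | succ i ih =>
    have := mul_mem (h.inv g hg hg') (conj_mem_of_norm' h.nQ h.dH ih)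
    have e : g * d * g⁻¹ * d * (d⁻¹ * (g * d ^ i * g⁻¹ * d ^ i) * d) =
      g * d ^ (i + 1) * g⁻¹ * d ^ (i + 1) := by group
    rwa [e] at this

theorem odd_pow (h : Am H Q P y d) (i : ℕ) : Odd (orderOf (d ^ i)) :=
  h.odd.of_dvd_nat (orderOf_pow_dvd i)

variable [Finite G]

theorem normD (h : Am H Q P y d) {i : ℕ} (hc : d ^ i ∈ 𝒞(Q)) : H ≤ 𝒩(zpowers (d ^ i)) := by
  refine h.le_of (fun g hg => mem_norm_of_cj_le ?_) (cent_le_norm _ ?_)
  · rw [cj_zpowers, zpowers_le]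
    by_cases gQ : g ∈ Q
    · rw [hc g gQ, mul_inv_cancel_right]; exact mem_zpowers _
    have hq := h.inv_pow hg gQ i
    have c : Commute (g * d ^ i * g⁻¹ * d ^ i) (d ^ i)⁻¹ := Commute.inv_right (hc _ hq)
    have e := c.mul_pow (orderOf (d ^ i))
    rw [mul_inv_cancel_right, conj_pow, _root_.inv_pow, pow_orderOf_eq_one, inv_one, mul_one, mul_one,
      mul_inv_cancel] at e
    rw [eq_inv_of_mul_eq_one_left (h.one_of_odd (h.QP hq)
      ((h.odd_pow i).of_dvd_nat (orderOf_dvd_of_pow_eq_one e.symm)))]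
    exact inv_mem (mem_zpowers _)
  · rw [cent_zpowers]; exact mem_cent1.2 (Commute.self_pow d i)

theorem core (h : Am H Q P y d) {i : ℕ} (hc : d ^ i ∈ 𝒞(Q)) :
    (⟨d, h.dH⟩ : H) ^ i ∈ oddCore H := by
  refine H8.le_pPrimeCore_two (normal_subgroupOf (h.normD hc)) ?_ (mem_zpowers (d ^ i))
  rw [Nat.card_congr (subgroupOfEquivOfLe (zpowers_le.2 (pow_mem h.dH i))).toEquiv, Nat.card_zpowers]
  exact h.odd_pow i

theorem core_P (h : Am H Q P y d) {x : H} (hx : x ∈ oddCore H) (xP : (x : G) ∈ P) : x = 1 :=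
  Subtype.ext (h.one_of_odd xP (by
    rw [orderOf_coe]
    exact H8.odd_card_pPrimeCore.of_dvd_nat (Subgroup.orderOf_dvd_natCard _ hx)))

theorem core_cent (h : Am H Q P y d) {x : H} (hx : x ∈ oddCore H) : (x : G) ∈ 𝒞(Q) := fun q hq => by
  have qH := h.PH (h.QP hq)
  have h1 : ⟨q, qH⟩ * x * ⟨q, qH⟩⁻¹ * x⁻¹ ∈ oddCore H :=
    mul_mem ((pPrimeCore_normal 2 H).conj_mem x hx _) (inv_mem hx)
  have h2 := h.core_P h1 (h.QP (by
    have := mul_mem hq (conj_mem_of_norm h.nQ x.2 (inv_mem hq))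
    simpa [mul_assoc] using this))
  exact commutatorElement_eq_one_iff_mul_comm.1 (congrArg Subtype.val h2)

theorem card_P (h : Am H Q P y d) : Nat.card P = 2 * Nat.card Q :=
  let ⟨_, a, b⟩ := h.exists_not'; card_two h.QP (h.Q1P a) b h.idx

theorem caseA (h : Am H Q P y d) (hd : d ∈ 𝒞(Q)) : Nat.card P = 4 ∧
    Nonempty (H ⧸ oddCore H ≃* Multiplicative (ZMod 2) × Multiplicative (ZMod 2)) := by
  have i0 : Q ⊓ cj y Q = ⊥ := by
    refine h.star _ (inf_le_left.trans h.QP) (h.le_of (norm_inf (h.PH.trans h.nQ) h.nQ1)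
      (cent_le_norm _ (cent_anti inf_le_left hd))) (mem_norm_iff_cj.2 ?_)
    rw [cj_inf, h.y2_norm h.QP (h.PH.trans h.nQ), inf_comm]
  obtain ⟨a, ha, ha'⟩ := h.exists_not
  have c1 : Nat.card Q = 2 * Nat.card ↥(Q ⊓ cj y Q) := card_two inf_le_left ha (fun e => ha' e.2)
    fun g hg g' hg' e e' => ⟨mul_mem hg hg', h.idx1 g (h.QP hg) g' (h.QP hg')
      (fun k => e ⟨hg, k⟩) fun k => e' ⟨hg', k⟩⟩
  have c2 : Nat.card P = 4 := by rw [h.card_P, c1, i0, card_bot]
  have sq : ∀ g ∈ P, g * g = 1 := fun g hg => mem_bot.1 (i0.le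
    ⟨by_cases (fun e => mul_mem e e) fun e => h.idx g hg g hg e e,
      by_cases (fun e => mul_mem e e) fun e => h.idx1 g hg g hg e e⟩)
  have dO := h.core (i := 1) (by rwa [pow_one])
  rw [pow_one] at dO
  let f := (QuotientGroup.mk' (oddCore H)).comp (inclusion h.PH)
  have bij : Function.Bijective f := by
    refine ⟨(injective_iff_map_eq_one _).2 fun x hx => inclusion_injective h.PH
      ((h.core_P ((QuotientGroup.eq_one_iff _).1 hx) x.2).trans (map_one _).symm), fun x => ?_⟩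
    obtain ⟨x, rfl⟩ := QuotientGroup.mk'_surjective _ x
    obtain ⟨i, p, hp, e⟩ := h.gen x x.2
    refine ⟨⟨p, hp⟩, ?_⟩
    rw [show x = ⟨d, h.dH⟩ ^ i * ⟨p, h.PH hp⟩ from Subtype.ext e, map_mul,
      show QuotientGroup.mk' (oddCore H) (⟨d, h.dH⟩ ^ i) = 1 from
        (QuotientGroup.eq_one_iff _).2 (pow_mem dO i), one_mul]
    rfl
  have k1 : IsKleinFour P := ⟨c2, by
    have : Nontrivial P := Finite.one_lt_card_iff_nontrivial.1 (by omega)
    exact (Monoid.exponent_eq_prime_iff Nat.prime_two).2 fun g hg =>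
      orderOf_eq_prime (by rw [pow_two]; exact Subtype.ext (sq g g.2)) hg⟩
  have k2 : IsKleinFour (Multiplicative (ZMod 2) × Multiplicative (ZMod 2)) := ⟨by simp,
    (Monoid.exponent_eq_prime_iff Nat.prime_two).2 fun g hg =>
      orderOf_eq_prime (by revert g; decide) hg⟩
  obtain ⟨e⟩ := IsKleinFour.nonempty_mulEquiv (G₁ := P)
    (G₂ := Multiplicative (ZMod 2) × Multiplicative (ZMod 2))
  exact ⟨c2, ⟨(MulEquiv.ofBijective f bij).symm.trans e⟩⟩

end Am

end Cfsg.Agent.H27.Sims
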