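/-
Glauberman - Sims: dihedral amalgams. The end game, second case.
-/
import Cfsg.Agent.H27.SimsE

set_option autoImplicit false

namespace Cfsg.Agent.H27.Sims

open Subgroup Cfsg.Agent.H49

variable {G : Type*} [Group G] {H Q P : Subgroup G} {y d u : G}

theorem cov_step {A B A' B' : Subgroup G} {e t : G} (h : ∀ b ∈ B, b ∈ A ∨ b * e ∈ A) (hA : A ≤ A')
    (ht : t ∈ A') (c : t * e = e * t) (hB : ∀ b ∈ B', b ∈ B ∨ b * t ∈ B) :
    ∀ b ∈ B', b ∈ A' ∨ b * e ∈ A' := fun b hb => by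
  rcases hB b hb with k | k
  · exact (h b k).imp (fun k => hA k) fun k => hA k
  · refine (h _ k).imp (fun k => (mul_mem_cancel_right ht).1 (hA k)) fun k => ?_
    rw [mul_assoc, c, ← mul_assoc] at k
    exact (mul_mem_cancel_right ht).1 (hA k)

namespace Am

variable [Finite G]

theorem elem (h : Am H Q P y d) (hd : d ∉ 𝒞(Q)) : Q ≤ OZ Q := by
  obtain ⟨v, hv, hv'⟩ := SetLike.not_le_iff_exists.1 (h.not_le hd)
  have n : ∀ g : G, (∀ q ∈ Q, ∃ q' ∈ Q, q' * q' = g * q * g⁻¹ * (g * q * g⁻¹)) →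
      g ∈ 𝒩(closure {x | ∃ q ∈ Q, q * q = x}) := fun g hg =>
    mem_norm_of_cj_le (cj_le_iff.2 ((closure_le _).2 (by
      rintro _ ⟨q, hq, rfl⟩
      obtain ⟨q', a, b⟩ := hg q hq
      exact mem_cj.2 (Subgroup.subset_closure ⟨q', a, by rw [b]; group⟩))))
  have s0 := h.star _ ((closure_le _).2 (by
    rintro _ ⟨q, hq, rfl⟩; exact h.QP (mul_mem hq hq)))
    (fun g hg => n g fun q hq => ⟨_, conj_mem_of_norm h.nQ hg hq, rfl⟩) (n y fun q hq => by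
      have q1 : y * q * y⁻¹ ∈ cj y Q := conj_mem_cj.2 hq
      by_cases e : y * q * y⁻¹ ∈ Q
      · exact ⟨_, e, rfl⟩
      · refine ⟨_, h.idx _ (h.Q1P q1) v (h.Q1P hv.1) e hv', ?_⟩
        rw [mul_assoc _ v, ← mul_assoc v, ← OZ_comm hv q1, mul_assoc _ v v, OZ_sq hv, mul_one])
  have sq : ∀ q ∈ Q, q * q = 1 := fun q hq => mem_bot.1 (s0.le (Subgroup.subset_closure ⟨q, hq, rfl⟩))
  have iv : ∀ q ∈ Q, q⁻¹ = q := fun q hq => inv_eq_of_mul_eq_one_right (sq q hq)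
  refine fun q hq => ⟨hq, fun a ha => ?_, sq q hq⟩
  rw [← iv _ (mul_mem ha hq), mul_inv_rev, iv a ha, iv q hq]

/-- the fixed points of `d` on `V` are central in `H` -/
theorem fixd (h : Am H Q P y d) (hd : d ∉ 𝒞(Q)) {n : G} (hn : n ∈ OZ Q) (c : d ∈ 𝒞[n]) :
    n ∈ 𝒞(H) := by
  obtain ⟨u, hu, uV, uP⟩ := h.exU hd
  obtain ⟨g, hg, hg'⟩ := h.exists_not'
  have gP := h.Q1P hg
  refine le_cent1_iff.1 (h.le_of (le_cent1_iff.2 (by_contra fun e => ?_)) c)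
  have e1 := hu.of_ne gP hn fun k => e (h.cent_P gP hg' hn k)
  have e2 : g⁻¹ * d * g ∈ 𝒞[n] := by
    have := mul_mem (cent_le_cent1 hn (cent_symm (OZ_cent Q)
      (h.inv _ (inv_mem gP) fun k => hg' (inv_mem_iff.1 k)))) (inv_mem c)
    simpa using this
  rw [← mem_cj, cj_cent1, e1, mem_cent1_comm] at e2
  exact h.unc hd hu (le_cent1_iff.1 (h.le_of (le_cent1_iff.2 uP) (mem_cent1_comm.1
    ((mul_mem_cancel_right (mem_cent1_comm.1 c)).1 e2))))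

theorem d3 (h : Am H Q P y d) (hd : d ∉ 𝒞(Q)) : d ^ 3 ∈ 𝒞(Q) := by
  obtain ⟨u, hu, uV, uP⟩ := h.exU hd
  obtain ⟨g, hg, hg'⟩ := h.exists_not'
  have gP := h.Q1P hg
  have nV := norm_OZ h.nQ
  have a1 := conj_mem_of_norm nV h.dH uV
  have a2 : d * u * d⁻¹ ∉ 𝒞(P) := fun e => h.unc hd hu (by
    have := h.centH e (by rw [← cj_centralizer]; exact conj_mem_cj.2 uP)
    simpa [mul_assoc] using conj_mem_of_norm' (norm_cent le_normalizer) h.dH this)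
  have e1 := hu.of_ne gP a1 fun k => a2 (h.cent_P gP hg' a1 k)
  have e2 : d⁻¹ * u * d = u * (d * u * d⁻¹) := by
    have q := OZ_comm (conj_mem_of_norm' nV h.dH uV) (h.inv g gP hg')
    have k := uP g⁻¹ (inv_mem gP)
    rw [← e1]
    calc _ = g * d * g⁻¹ * d * (d⁻¹ * u * d) * (g * d * g⁻¹ * d)⁻¹ := by rw [q]; group
      _ = g * d * (g⁻¹ * u) * (g * d⁻¹ * g⁻¹) := by group
      _ = _ := by rw [k]; group
  have e3 : d * (d * u * d⁻¹) * d⁻¹ = d * u * d⁻¹ * u := by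
    calc _ = (d * u * d⁻¹)⁻¹ * (d * (u * (d * u * d⁻¹)) * d⁻¹) := by group
      _ = _ := by rw [← e2, OZ_inv a1]; group
  have e4 : d ^ 3 ∈ 𝒞[u] := by
    rw [mem_cent1, ← mul_inv_eq_iff_eq_mul]
    calc _ = d * (d * (d * u * d⁻¹) * d⁻¹) * d⁻¹ := by rw [pow_three]; group
      _ = d * (d * u * d⁻¹ * u) * d⁻¹ := by rw [e3]
      _ = d * (d * u * d⁻¹) * d⁻¹ * (d * u * d⁻¹) := by group
      _ = u := by rw [e3, mul_assoc, OZ_comm a1 uV.1, ← mul_assoc, OZ_sq a1, one_mul]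
  have uK := mem_cent1_comm.1 e4
  have u1K : d * u * d⁻¹ ∈ 𝒞[d ^ 3] := by
    have dK : d ∈ 𝒞[d ^ 3] := mem_cent1.2 (Commute.self_pow d 3)
    exact mul_mem (mul_mem dK uK) (inv_mem dK)
  have EK := cent_le_cent1 (pow_mem h.dH 3)
  have ZK : ∀ z ∈ OZ Q, z ∈ 𝒞(P) → z ∈ 𝒞[d ^ 3] := fun z a b =>
    (h.Zsplit hd hu a b).elim (fun k => EK k) fun k => (mul_mem_cancel_left uK).1 (EK k)
  refine le_cent1_iff.1 fun q hq => ?_
  have qV := h.elem hd hq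
  by_cases e : q ∈ 𝒞(P)
  · exact ZK q qV e
  · exact (mul_mem_cancel_left u1K).1 (ZK _ (mul_mem a1 qV) (h.idxV a1 qV a2 e))

theorem card_E (h : Am H Q P y d) (hd : d ∉ 𝒞(Q)) : Nat.card P = 8 * Nat.card ↥(OZ Q ⊓ 𝒞(H)) := by
  obtain ⟨u, hu, uV, uP⟩ := h.exU hd
  obtain ⟨w, hw, hw'⟩ := h.exV hd
  have c1 : Nat.card (OZ Q) = 2 * Nat.card ↥(OZ Q ⊓ 𝒞(P)) := card_two inf_le_left hw
    (fun e => hw' e.2) fun a ha b hb e e' =>
      ⟨mul_mem ha hb, h.idxV ha hb (fun k => e ⟨ha, k⟩) fun k => e' ⟨hb, k⟩⟩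
  have c2 : Nat.card ↥(OZ Q ⊓ 𝒞(P)) = 2 * Nat.card ↥(OZ Q ⊓ 𝒞(H)) := card_two
    (inf_le_inf_left _ (cent_anti h.PH)) ⟨uV, uP⟩ (fun e => h.unc hd hu e.2)
    fun a ha b hb e e' => ⟨mul_mem ha.1 hb.1, by
      have := mul_mem ((h.Zsplit hd hu ha.1 ha.2).resolve_left fun k => e ⟨ha.1, k⟩)
        ((h.Zsplit hd hu hb.1 hb.2).resolve_left fun k => e' ⟨hb.1, k⟩)
      rwa [← OZ_comm uV ha.1.1, mul_assoc, ← mul_assoc u, OZ_sq uV, one_mul] at this⟩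
  rw [h.card_P, ← congrArg (fun X : Subgroup G => Nat.card X) (le_antisymm (OZ_le Q) (h.elem hd)),
    c1, c2]
  ring

theorem pow_cases (h : Am H Q P y d) (hd : d ∉ 𝒞(Q)) {K : Subgroup G} (hE : OZ Q ⊓ 𝒞(H) ≤ K)
    (h3 : d ^ 3 ∈ K) {x : G} (hx : x ∈ H) : x ^ 4 ∈ K ∨ x ^ 3 ∈ K := by
  obtain ⟨i, p, hp, rfl⟩ := h.gen x hx
  have c3 := h.d3 hd
  by_cases pQ : p ∈ Q
  swap
  · left
    have a := mul_mem (conj_mem_of_norm h.nQ (pow_mem h.dH i) (h.inv_pow hp pQ i))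
      (conj_mem_of_norm h.nQ (one_mem H) (h.idx p hp p hp pQ pQ))
    have e : d ^ i * (p * d ^ i * p⁻¹ * d ^ i) * (d ^ i)⁻¹ * (1 * (p * p) * 1⁻¹) = (d ^ i * p) ^ 2 := by
      rw [pow_two]; group
    rw [e, pow_two] at a
    rw [show 4 = 2 + 2 from rfl, pow_add, pow_two, OZ_sq (h.elem hd a)]
    exact one_mem K
  have pV := h.elem hd pQ
  by_cases i3 : 3 ∣ i
  · obtain ⟨k, rfl⟩ := i3
    left
    have c : Commute (d ^ (3 * k)) p := by rw [pow_mul]; exact Commute.pow_left (c3 p pQ).symm k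
    rw [c.mul_pow, show 4 = 2 + 2 from rfl, pow_add p, pow_two p, OZ_sq pV, mul_one, mul_one, pow_mul,
      ← pow_mul]
    exact pow_mem h3 _
  right
  have nQ : ∀ {x}, x ∈ Q → (d ^ i)⁻¹ * x * d ^ i ∈ Q := conj_mem_of_norm' h.nQ (pow_mem h.dH i)
  have a := mul_mem (mul_mem (nQ (nQ pQ)) (nQ pQ)) pQ
  have e : (d ^ i)⁻¹ * ((d ^ i)⁻¹ * p * d ^ i) * d ^ i * ((d ^ i)⁻¹ * p * d ^ i) * p =
      ((d ^ 3) ^ i)⁻¹ * (d ^ i * p) ^ 3 := by
    rw [← pow_mul, mul_comm 3 i, pow_mul, pow_succ, pow_two, pow_succ (d ^ i * p), pow_two]; group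
  rw [e] at a
  have aV := h.elem hd a
  refine (mul_mem_cancel_left (inv_mem (pow_mem h3 i))).1 (hE ⟨aV, h.fixd hd aV ?_⟩)
  have c1 : Commute (d ^ i * p) (d ^ 3) := ((Commute.refl d).pow_pow i 3).mul_left (c3 p pQ)
  have c2 : d ^ i * p ∈ 𝒞[((d ^ 3) ^ i)⁻¹ * (d ^ i * p) ^ 3] :=
    mem_cent1.2 ((c1.pow_right i).inv_right.mul_right (Commute.self_pow _ 3))
  have c4 := (mul_mem_cancel_right (mem_cent1.2 (OZ_comm aV pQ))).1 c2
  have c5 := cent_le_cent1 a c3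
  generalize 𝒞[((d ^ 3) ^ i)⁻¹ * (d ^ i * p) ^ 3] = C at c4 c5 ⊢
  obtain ⟨k, hk⟩ : ∃ k, i = 3 * k + 1 ∨ i + 1 = 3 * k := ⟨(i + 1) / 3, by omega⟩
  rcases hk with hk | hk
  · rw [hk, pow_succ, pow_mul] at c4
    exact (mul_mem_cancel_left (pow_mem c5 k)).1 c4
  · have := pow_mem c5 k
    rw [← pow_mul d 3 k, ← hk, pow_succ d i] at this
    exact (mul_mem_cancel_left c4).1 this

theorem s4 (h : Am H Q P y d) (hd : d ∉ 𝒞(Q)) {N : Subgroup H} [N.Normal] (hO : oddCore H ≤ N)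
    (hc : ∀ x ∈ N, (x : G) ∈ 𝒞(Q)) (hP : N.map H.subtype ⊓ P = OZ Q ⊓ 𝒞(H)) :
    Nonempty (H ⧸ N ≃* Equiv.Perm (Fin 4)) := by
  have d3 := hO (h.core (h.d3 hd))
  let π := QuotientGroup.mk' N
  have o3 : orderOf (π ⟨d, h.dH⟩) = 3 := orderOf_eq_prime
    (by rw [← map_pow]; exact (QuotientGroup.eq_one_iff _).2 d3)
    fun e => hd (hc _ ((QuotientGroup.eq_one_iff _).1 e))
  have c8 : Nat.card ((P.subgroupOf H).map π) = 8 := by
    have c1 := card_mul_relIndex (inf_le_right : N.map H.subtype ⊓ P ≤ P)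
    rw [inf_relIndex_right, hP, h.card_E hd, mul_comm 8] at c1
    rw [← relIndex_ker, QuotientGroup.ker_mk', ← Nat.eq_of_mul_eq_mul_left (card_pos' _) c1,
      ← relIndex_subgroupOf h.PH, subgroupOf, subgroupOf,
      comap_map_eq_self_of_injective H.subtype_injective]
  refine S1012.result ?_ fun g e => ?_
  · have : IsComplement' (zpowers (π ⟨d, h.dH⟩)) ((P.subgroupOf H).map π) := by
      refine isComplement'_of_disjoint_and_mul_eq_univ (disjoint_of_coprime_natCard ?_)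
        (Set.eq_univ_of_forall fun x => ?_)
      · rw [Nat.card_zpowers, o3, c8]; decide
      · obtain ⟨x, rfl⟩ := QuotientGroup.mk'_surjective N x
        obtain ⟨i, p, hp, e⟩ := h.gen x x.2
        refine ⟨_, pow_mem (mem_zpowers _) i, _, mem_map_of_mem π (x := ⟨p, h.PH hp⟩) hp, ?_⟩
        rw [show x = ⟨d, h.dH⟩ ^ i * ⟨p, h.PH hp⟩ from Subtype.ext e, map_mul, map_pow]
    rw [← this.card_mul_card, Nat.card_zpowers, o3, c8]
  · obtain ⟨x, rfl⟩ := QuotientGroup.mk'_surjective N g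
    have k : ∀ n : ℕ, (x : G) ^ n ∈ N.map H.subtype → 6 ∣ n := fun n hn => by
      obtain ⟨z, hz, ez⟩ := hn
      rw [← e, orderOf_dvd_iff_pow_eq_one, ← map_pow, ← show z = x ^ n from Subtype.ext ez]
      exact (QuotientGroup.eq_one_iff _).2 hz
    rcases h.pow_cases hd (hP.ge.trans inf_le_left) ⟨_, d3, rfl⟩ x.2 with a | a <;>
      exact absurd (k _ a) (by decide)

theorem exE (h : Am H Q P y d) (hd : d ∉ 𝒞(Q)) :
    OZ Q ⊓ 𝒞(H) = ⊥ ∨ ∃ e ∈ OZ Q ⊓ 𝒞(H), e ≠ 1 ∧ ∀ z ∈ OZ Q ⊓ 𝒞(H), z = 1 ∨ z = e := by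
  refine or_iff_not_imp_left.2 fun n => ?_
  obtain ⟨e, he, n⟩ := ne_bot_iff_exists.1 n
  exact ⟨e, he, n, fun z hz => or_iff_not_imp_left.2 fun k => h.Euniq hd hz.1 he.1 hz.2 he.2 k n⟩

theorem sign (h : Am H Q P y d) (hd : d ∉ 𝒞(Q)) (ho : ¬ 2 ∣ P.relIndex H) {e : G}
    (he : e ∈ OZ Q ⊓ 𝒞(H)) (n : e ≠ 1) (hE : ∀ z ∈ OZ Q ⊓ 𝒞(H), z = 1 ∨ z = e) (eH : e ∈ H) :
    ∃ σ : H →* Multiplicative (ZMod 2), σ ⟨e, eH⟩ ≠ 1 := by
  obtain ⟨u, hu, uV, uP⟩ := h.exU hd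
  obtain ⟨w, hw, hw'⟩ := h.exV hd
  obtain ⟨v, hv, hv'⟩ := SetLike.not_le_iff_exists.1 (h.not_le hd)
  have vP := h.Q1P hv.1
  have eP := h.QP he.1.1
  have A1 : ⊥ ⊔ zpowers u ≤ OZ Q ⊓ 𝒞(P) := sup_le bot_le (zpowers_le.2 ⟨uV, uP⟩)
  have A2 : ⊥ ⊔ zpowers u ⊔ zpowers w ≤ OZ Q := sup_le (A1.trans inf_le_left) (zpowers_le.2 hw)
  have A3 : ⊥ ⊔ zpowers u ⊔ zpowers w ⊔ zpowers v ≤ P :=
    sup_le (A2.trans ((OZ_le Q).trans h.QP)) (zpowers_le.2 vP)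
  have n1 : P ≤ 𝒩(⊥ ⊔ zpowers u) := norm_of_cent (cent_symm (A1.trans inf_le_right))
  have n2 : v ∈ 𝒩(⊥ ⊔ zpowers u ⊔ zpowers w) := by
    refine mem_norm_of_cj_le ?_
    rw [cj_sup, cj_eq_of_mem_norm (n1 vP), cj_zpowers]
    refine sup_le le_sup_left (zpowers_le.2 ?_)
    rw [hu.of_ne vP hw fun k => hw' (h.cent_P vP hv' hw k)]
    exact mul_mem (mem_sup_left (mem_sup_right (mem_zpowers u))) (mem_sup_right (mem_zpowers w))
  have e0 : e ∉ ⊥ ⊔ zpowers u ⊔ zpowers w ⊔ zpowers v := fun k => by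
    rcases mem_sup_two n2 (OZ_sq hv) k with k | k
    · rcases mem_sup_two (n1 (h.QP hw.1)) (OZ_sq hw) k with k | k
      · rcases mem_sup_two (normal_iff_top_le_norm.1 inferInstance (mem_top u)) (OZ_sq uV) k with k | k
        · exact n k
        · exact h.unc hd hu ((mul_mem_cancel_left (mem_inf.1 he).2).1 ((bot_le : ⊥ ≤ 𝒞(H)) k))
      · exact hw' ((mul_mem_cancel_left (cent_anti h.PH he.2)).1 (A1 k).2)
    · exact hv' ((mul_mem_cancel_left he.1.1).1 (A2 k).1)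
  have B0 : ∀ b ∈ OZ Q ⊓ 𝒞(H), b ∈ (⊥ : Subgroup G) ∨ b * e ∈ (⊥ : Subgroup G) := fun b hb =>
    (hE b hb).imp id fun k => by rw [k]; exact OZ_sq he.1
  have B1 := cov_step (B' := OZ Q ⊓ 𝒞(P)) B0 le_sup_left (mem_sup_right (mem_zpowers u))
    (he.2 u (h.PH (h.QP uV.1))) fun b hb => (h.Zsplit hd hu hb.1 hb.2).imp (fun k => ⟨hb.1, k⟩)
      fun k => ⟨mul_mem hb.1 uV, by rwa [OZ_comm uV hb.1.1]⟩
  have B2 := cov_step (B' := Q) B1 le_sup_left (mem_sup_right (mem_zpowers w))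
    (he.2 w (h.PH (h.QP hw.1))) fun b hb => or_iff_not_imp_left.2 fun k =>
      ⟨mul_mem (h.elem hd hb) hw, h.idxV (h.elem hd hb) hw (fun k' => k ⟨h.elem hd hb, k'⟩) hw'⟩
  have B3 := cov_step (B' := P) B2 le_sup_left (mem_sup_right (mem_zpowers v))
    (he.2 v (h.PH vP)) fun b hb => or_iff_not_imp_left.2 fun k => h.idx b hb v vP k hv'
  refine exists_sign (P := P.subgroupOf H)
    (P₀ := (⊥ ⊔ zpowers u ⊔ zpowers w ⊔ zpowers v).subgroupOf H) ho ?_ eP e0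
    (Subtype.ext (OZ_sq he.1)) fun g => Subtype.ext (he.2 g g.2)
  rw [relIndex_subgroupOf h.PH]
  refine relIndex_eq_two_iff.2 ⟨e, eP, fun b hb => ?_⟩
  by_cases k : b ∈ ⊥ ⊔ zpowers u ⊔ zpowers w ⊔ zpowers v
  · exact Or.inr ⟨k, fun k' => e0 ((mul_mem_cancel_left k).1 k')⟩
  · exact Or.inl ⟨(B3 b hb).resolve_left k, k⟩

theorem caseB (h : Am H Q P y d) (hd : d ∉ 𝒞(Q)) (ho : ¬ 2 ∣ P.relIndex H) :
    (Nat.card P = 8 ∧ Nonempty (H ⧸ oddCore H ≃* Equiv.Perm (Fin 4))) ∨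
    (Nat.card P = 16 ∧
      Nonempty (H ⧸ oddCore H ≃* Equiv.Perm (Fin 4) × Multiplicative (ZMod 2))) := by
  have c := h.card_E hd
  rcases h.exE hd with e0 | ⟨e, he, n, hE⟩
  · refine Or.inl ⟨by rw [c, e0, card_bot], h.s4 hd le_rfl (fun x hx => h.core_cent hx) ?_⟩
    rw [e0, eq_bot_iff]
    rintro _ ⟨⟨x, hx, rfl⟩, xP⟩
    exact congrArg Subtype.val (h.core_P hx xP)
  have eP := h.QP he.1.1
  have e2 : (⟨e, h.PH eP⟩ : H) * ⟨e, h.PH eP⟩ = 1 := Subtype.ext (OZ_sq he.1)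
  have := H8.normal_zpowers_of_central (z := (⟨e, h.PH eP⟩ : H))
    (mem_center_iff.2 fun g => Subtype.ext (he.2 g g.2))
  have sp : ∀ x ∈ oddCore H ⊔ zpowers (⟨e, h.PH eP⟩ : H), x ∈ oddCore H ∨ x * ⟨e, h.PH eP⟩ ∈ oddCore H :=
    fun x hx => mem_sup_two (normal_iff_top_le_norm.1 inferInstance (mem_top _)) e2 hx
  obtain ⟨t⟩ := h.s4 hd (N := oddCore H ⊔ zpowers ⟨e, h.PH eP⟩) le_sup_left
    (fun x hx => (sp x hx).elim h.core_cent fun k =>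
      (mul_mem_cancel_right (OZ_cent Q he.1)).1 (h.core_cent k)) (le_antisymm (by
        rintro _ ⟨⟨x, hx, rfl⟩, xP⟩
        rcases sp x hx with k | k
        · rw [h.core_P k xP]; exact one_mem _
        · rw [eq_inv_of_mul_eq_one_left (h.core_P k (mul_mem xP eP))]; exact inv_mem he)
      fun z hz => ⟨by
        rcases hE z hz with rfl | rfl
        exacts [one_mem _, ⟨_, mem_sup_right (mem_zpowers _), rfl⟩], h.QP hz.1.1⟩)
  obtain ⟨σ, hσ⟩ := h.sign hd ho he n hE (h.PH eP)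
  refine Or.inr ⟨?_, prod_sign H8.odd_card_pPrimeCore e2 hσ
    (τ := t.toMonoidHom.comp (QuotientGroup.mk' _))
    (t.surjective.comp (QuotientGroup.mk'_surjective _)) ?_⟩
  · rw [c, card_two bot_le he n fun a ha b hb k k' => ?_, card_bot]
    rw [(hE a ha).resolve_left k, (hE b hb).resolve_left k']
    exact OZ_sq he.1
  · rw [← MonoidHom.comap_ker, (MonoidHom.ker_eq_bot_iff _).2 t.injective, MonoidHom.comap_bot,
      QuotientGroup.ker_mk']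

end Am

end Cfsg.Agent.H27.Sims
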