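import Mathlib

/-! Subgroups of a symplectic group in characteristic two containing a full group of
two-transvections at a point: basic calculus, the case with transvections. -/

set_option autoImplicit false

namespace Cfsg.Agent.H27.TT

variable {F V : Type*} [Field F] [AddCommGroup V] [Module F V]

/-- A group `L` of isometries of a nondegenerate alternating form in characteristic two. -/
structure Cx (B : V →ₗ[F] V →ₗ[F] F) (L : Set (Module.End F V)) : Prop where
  two : (2 : F) = 0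
  alt : ∀ v, B v v = 0
  nd : ∀ v, (∀ w, B w v = 0) → v = 0
  iso : ∀ g ∈ L, ∀ u v, B (g u) (g v) = B u v
  mul : ∀ g ∈ L, ∀ h ∈ L, g * h ∈ L
  inv : ∀ g ∈ L, ∃ h ∈ L, ∀ v, g (h v) = v
  one : 1 ∈ L

/-- The map `v ↦ v + B v x • b + (B v b + c * B v x) • x` lies in `L`. -/
def U (B : V →ₗ[F] V →ₗ[F] F) (L : Set (Module.End F V)) (x b : V) (c : F) : Prop :=
  ∃ g ∈ L, ∀ v, g v = v + B v x • b + (B v b + c * B v x) • x

/-- An invariant set of points carrying full groups. -/
structure Pts (B : V →ₗ[F] V →ₗ[F] F) (L : Set (Module.End F V)) (P : Set V) : Prop where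
  ne : ∀ x ∈ P, x ≠ 0
  full : ∀ x ∈ P, ∀ b, B b x = 0 → ∃ c, U B L x b c
  inv : ∀ g ∈ L, ∀ x ∈ P, g x ∈ P
  smul : ∀ x ∈ P, ∀ t : F, t ≠ 0 → t • x ∈ P
  span : ∀ S : Submodule F V, P ⊆ S → S = ⊤

variable {B : V →ₗ[F] V →ₗ[F] F} {L : Set (Module.End F V)} {P : Set V}

namespace Cx

theorem aa (h : Cx B L) (a : F) : a + a = 0 := by linear_combination a * h.two

theorem vv (h : Cx B L) (v : V) : v + v = 0 := by rw [← two_smul F v, h.two, zero_smul]

theorem symm (h : Cx B L) (u v : V) : B u v = B v u := by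
  have := h.alt (u + v)
  simp only [map_add, LinearMap.add_apply, h.alt] at this
  linear_combination this - h.aa (B v u)

theorem eq_of_add (h : Cx B L) {a b : F} (e : a + b = 0) : a = b := by
  linear_combination e - h.aa b

theorem exists_one (h : Cx B L) {v : V} (hv : v ≠ 0) : ∃ w, B w v = 1 := by
  by_contra hc
  push Not at hc
  refine hv (h.nd v fun w => by_contra fun e => hc ((B w v)⁻¹ • w) ?_)
  simp [e]

theorem U_congr {x b : V} {c : F} {x' b' : V} {c' : F} (H : U B L x b c)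
    (e : ∀ v, B v x • b + (B v b + c * B v x) • x = B v x' • b' + (B v b' + c' * B v x') • x') :
    U B L x' b' c' := by
  obtain ⟨g, hg, e'⟩ := H
  exact ⟨g, hg, fun v => by rw [e', add_assoc, e, add_assoc]⟩

theorem U_zero (h : Cx B L) (x : V) : U B L x 0 0 := ⟨1, h.one, fun v => by simp⟩

theorem U_mul (h : Cx B L) {x b b' : V} {c c' : F} (H : U B L x b c) (H' : U B L x b' c')
    (hb : B b x = 0) (hb' : B b' x = 0) : U B L x (b + b') (c + c' + B b b') := by
  obtain ⟨g, hg, e⟩ := H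
  obtain ⟨g', hg', e'⟩ := H'
  refine ⟨g * g', h.mul g hg g' hg', fun v => ?_⟩
  have hxb : B x b = 0 := by rw [h.symm, hb]
  rw [Module.End.mul_apply, e', e]
  simp only [map_add, map_smul, LinearMap.add_apply, LinearMap.smul_apply, smul_eq_mul, h.alt, hb',
    hxb, h.symm b' b]
  module

theorem U_conj (h : Cx B L) {x b : V} {c : F} (H : U B L x b c) {g : Module.End F V}
    (hg : g ∈ L) : U B L (g x) (g b) c := by
  obtain ⟨u, hu, e⟩ := H
  obtain ⟨g', hg', e'⟩ := h.inv g hg
  refine ⟨g * u * g', h.mul _ (h.mul g hg u hu) _ hg', fun v => ?_⟩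
  have : ∀ y, B (g' v) y = B v (g y) := fun y => by rw [← h.iso g hg, e']
  simp only [Module.End.mul_apply, e, map_add, map_smul, e', this]

theorem U_smul {x b : V} {c : F} (t : F) (H : U B L (t • x) b c) :
    U B L x (t • b) (t ^ 2 * c) :=
  U_congr H fun v => by simp only [map_smul, smul_eq_mul]; module

theorem U_smul' {x b : V} {c : F} (t : F) (H : U B L x (t • b) (t ^ 2 * c)) :
    U B L (t • x) b c :=
  U_congr H fun v => by simp only [map_smul, smul_eq_mul]; module

theorem U_add_self (h : Cx B L) {x b : V} {c : F} (s : F) (H : U B L x b c) :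
    U B L x (b + s • x) c :=
  U_congr H fun v => by
    simp only [map_add, map_smul, smul_eq_mul]
    linear_combination (norm := module) -(h.aa (s * B v x)) • x

theorem U_of_add_self (h : Cx B L) {x b : V} {c : F} (s : F) (H : U B L x (b + s • x) c) :
    U B L x b c := by
  have := h.U_add_self s H
  rwa [add_assoc, h.vv, add_zero] at this

/-- The commutator of an element fixing `x` with an element of the full group at `x`. -/
theorem U_comm (h : Cx B L) (hP : Pts B L P) {x : V} (hx : x ∈ P) {g : Module.End F V}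
    (hg : g ∈ L) (hgx : g x = x) {v : V} (hv : B v x = 0) : U B L x (v + g v) (B v (g v)) := by
  obtain ⟨c, hc⟩ := hP.full x hx v hv
  have h1 := h.U_conj hc hg
  rw [hgx] at h1
  have h2 := h.U_mul hc h1 hv (by rw [← hgx, h.iso g hg, hv])
  rwa [h.aa, zero_add] at h2

/-- Projection onto the complement of a hyperbolic pair. -/
def pr (B : V →ₗ[F] V →ₗ[F] F) (x z v : V) : V := v + B v x • z + B v z • x

theorem pr_x (h : Cx B L) {x z : V} (hz : B z x = 1) (v : V) : B (pr B x z v) x = 0 := by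
  simp [pr, hz, h.alt, h.aa]

theorem pr_z (h : Cx B L) {x z : V} (hz : B z x = 1) (v : V) : B (pr B x z v) z = 0 := by
  simp [pr, h.symm x z, hz, h.alt, h.aa]

theorem B_pr {x z w : V} (h : Cx B L) (h1 : B w x = 0) (h2 : B w z = 0) (v : V) :
    B (pr B x z v) w = B v w := by
  simp [pr, h.symm z w, h.symm x w, h1, h2]

theorem eq_pr (h : Cx B L) (x z v : V) : v = pr B x z v + B v x • z + B v z • x := by
  rw [pr]
  linear_combination (norm := module) -(h.aa (B v x)) • z - (h.aa (B v z)) • x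

theorem exists_partner (h : Cx B L) {x z b : V} (hz : B z x = 1) (h1 : B b x = 0) (h2 : B b z = 0)
    (hb : b ≠ 0) : ∃ e, B e x = 0 ∧ B e z = 0 ∧ B e b = 1 := by
  obtain ⟨w, hw⟩ := h.exists_one hb
  exact ⟨pr B x z w, h.pr_x hz w, h.pr_z hz w, by rw [h.B_pr h1 h2, hw]⟩

theorem exists_ne (h : Cx B L) (hP : Pts B L P) {w : V} (hw : w ≠ 0) : ∃ x ∈ P, B x w ≠ 0 := by
  by_contra hc
  push Not at hc
  have := hP.span (LinearMap.ker (B.flip w)) fun x hx => hc x hx
  refine hw (h.nd w fun v => ?_)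
  have hv : v ∈ LinearMap.ker (B.flip w) := this ▸ Submodule.mem_top
  exact hv

theorem exists_pt_one (h : Cx B L) (hP : Pts B L P) {w : V} (hw : w ≠ 0) : ∃ x ∈ P, B x w = 1 := by
  obtain ⟨x, hx, e⟩ := h.exists_ne hP hw
  exact ⟨_, hP.smul x hx _ (inv_ne_zero e), by simp [e]⟩

theorem move (hP : Pts B L P) {x b z : V} {c : F} (H : U B L x b c) (hz : z ∈ P) :
    z + B z x • b + (B z b + c * B z x) • x ∈ P := by
  obtain ⟨g, hg, e⟩ := H
  rw [← e]; exact hP.inv g hg z hz

variable [Finite F]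

theorem exists_sq (h : Cx B L) (t : F) : ∃ s : F, s ^ 2 = t := by
  refine (Finite.injective_iff_surjective (f := fun s : F => s ^ 2)).1 (fun a b e => ?_) t
  have : (a + b) ^ 2 = 0 := by
    simp only at e
    linear_combination e + h.aa (a * b) + h.aa (b ^ 2)
  exact h.eq_of_add (pow_eq_zero_iff two_ne_zero |>.1 this)

theorem exists_zero (h : Cx B L) (hP : Pts B L P) {x e : V} (hx : x ∈ P) (T : U B L x 0 1)
    (he : B e x = 0) : ∃ s : F, s ≠ 0 ∧ U B L x (s • e) 0 := by
  have hs : ∀ s : F, B (s • e) x = 0 := fun s => by simp [he]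
  choose c hc using fun s : F => hP.full x hx (s • e) (hs s)
  by_cases hi : Function.Injective c
  · obtain ⟨s, e0⟩ := Finite.injective_iff_surjective.1 hi 0
    obtain ⟨s', e1⟩ := Finite.injective_iff_surjective.1 hi 1
    by_cases h0 : s = 0
    · refine ⟨s', fun e => ?_, ?_⟩
      · rw [e, ← h0, e0] at e1; exact zero_ne_one e1
      · have := h.U_mul (hc s') T (hs s') (by simp)
        rwa [e1, h.aa, add_zero, map_zero, add_zero] at this
    · exact ⟨s, h0, e0 ▸ hc s⟩
  · obtain ⟨s, s', e1, e2⟩ := Function.not_injective_iff.1 hi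
    refine ⟨s + s', fun e => e2 (h.eq_of_add e), ?_⟩
    have := h.U_mul (hc s) (hc s') (hs s) (hs s')
    rw [← add_smul, e1, h.aa] at this
    simpa [h.alt] using this

omit [Finite F] in
theorem uniq (h : Cx B L) {x b : V} (hU : ∀ t, U B L x 0 t → t = 0) (hb : B b x = 0) {c c' : F}
    (H : U B L x b c) (H' : U B L x b c') : c = c' := by
  have := h.U_mul H H' hb hb
  rw [h.vv, h.alt, add_zero] at this
  exact h.eq_of_add (hU _ this)

/-- Surjectivity of the parameter on the complement of a hyperbolic pair. -/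
theorem surj (h : Cx B L) (hP : Pts B L P) {x z e : V} (hx : x ∈ P) (hz : B z x = 1)
    (hU : ∀ t, U B L x 0 t → t = 0) (h1 : B e x = 0) (h2 : B e z = 0) (he : e ≠ 0) (t : F) :
    ∃ b, B b x = 0 ∧ B b z = 0 ∧ U B L x b t := by
  classical
  obtain ⟨f, f1, f2, f3⟩ := h.exists_partner hz h1 h2 he
  have hs : ∀ s : F, B (s • e) x = 0 := fun s => by simp [h1]
  choose c hc using fun s : F => hP.full x hx (s • e) (hs s)
  obtain ⟨r, hr⟩ : ∃ r : F, ∀ s : F, s ≠ 0 → c s ≠ r * s := by
    have : ¬ Function.Surjective fun s : F => if s = 0 then c 1 else c s * s⁻¹ := fun hsu => by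
      have := Finite.injective_iff_surjective.2 hsu (a₁ := 0) (a₂ := 1) (by simp)
      exact zero_ne_one this
    rw [Function.Surjective] at this
    push Not at this
    obtain ⟨r, hr⟩ := this
    refine ⟨r, fun s hs e => hr s ?_⟩
    rw [if_neg hs, e, mul_inv_cancel_right₀ hs]
  have hi : Function.Injective fun s => c s + r * s := fun s s' e => by
    by_contra hne
    have := h.U_mul (hc s) (hc s') (hs s) (hs s')
    rw [← add_smul] at this
    have e2 := h.uniq hU (hs _) this (hc (s + s'))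
    simp only [map_smul, LinearMap.smul_apply, h.alt, smul_eq_mul, mul_zero, add_zero] at e2 e
    refine hr (s + s') (fun e3 => hne (h.eq_of_add e3)) ?_
    linear_combination -e2 + e + h.aa (c s') - h.aa (r * s)
  have hf : B (r • f) x = 0 := by simp [f1]
  obtain ⟨d, hd⟩ := hP.full x hx _ hf
  obtain ⟨s, e'⟩ := Finite.injective_iff_surjective.1 hi (t + d)
  refine ⟨s • e + r • f, by simp [h1, f1], by simp [h2, f2], ?_⟩
  have := h.U_mul (hc s) hd (hs s) hf
  convert this using 1
  simp only [map_smul, LinearMap.smul_apply, smul_eq_mul, h.symm e f, f3] at e' ⊢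
  linear_combination -e' - h.aa d

/-- A point with a transvection, orthogonal to another such point, has all transvections. -/
theorem all_tv (h : Cx B L) (hP : Pts B L P) {x y v w : V} (hx : x ∈ P) (hy : y ∈ P)
    (Tx : U B L x 0 1) (Ty : U B L y 0 1) (hxy : B y x = 0) (hv1 : B v x = 0) (hv2 : B v y = 1)
    (hw1 : B w y = 0) (hw2 : B w x = 1) (t : F) : U B L x 0 t := by
  have hyx : B x y = 0 := by rw [h.symm, hxy]
  have k : ∀ {x y v : V}, x ∈ P → U B L y 0 1 → B x y = 0 → B v x = 0 → B v y = 1 →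
      ∀ s : F, U B L x (s • y) (s ^ 2) := by
    intro x y v hx ⟨g, hg, e⟩ hxy hv1 hv2 s
    have := h.U_comm hP hx hg (by simp [e, hxy]) (v := s • v) (by simp [hv1])
    convert this using 1
    · rw [e]; simp only [map_smul, LinearMap.smul_apply, smul_eq_mul, hv2, map_zero]
      linear_combination (norm := module) -(h.aa s) • v
    · rw [e]; simp [hv2, h.alt, pow_two]
  by_cases hq : ∀ s : F, s ≠ 0 → s = 1
  · by_cases ht : t = 0
    · rw [ht]; exact h.U_zero x
    · rw [hq t ht]; exact Tx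
  push Not at hq
  obtain ⟨s, hs0, hs1⟩ := hq
  have hs2 : 1 + s ≠ 0 := fun e => hs1 (h.eq_of_add e).symm
  obtain ⟨g1, hg1, e1⟩ := k hx Ty hyx hv1 hv2 s
  obtain ⟨g2, hg2, e2⟩ := k hy Tx hxy hw1 hw2 s
  obtain ⟨m, rfl⟩ := h.exists_sq t
  set r := m / (s * (1 + s)) with hr
  have hm : m = r * (s * (1 + s)) := by rw [hr]; field_simp
  have a1 := h.U_comm hP hx (h.mul _ hg1 _ hg2) (by simp [e1, e2, hyx, h.alt]) (v := r • v)
    (by simp [hv1])
  have a2 := h.U_mul a1 (k hx Ty hyx hv1 hv2 (s ^ 2 * r))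
    (by simp [e1, e2, hxy, hyx, h.alt, hv1]) (by simp [hxy])
  refine h.U_of_add_self 0 ?_
  convert a2 using 1
  · simp only [Module.End.mul_apply, e1, e2, map_add, map_smul, LinearMap.add_apply,
      LinearMap.smul_apply, smul_eq_mul, hv1, hv2, hxy, hyx, h.alt]
    linear_combination (norm := module) -(h.aa r) • v - (h.aa (s * r)) • x -
      (h.aa (s ^ 2 * r)) • y
  · simp only [Module.End.mul_apply, e1, e2, map_add, map_smul, LinearMap.add_apply,
      LinearMap.smul_apply, smul_eq_mul, hv1, hv2, hxy, hyx, h.alt, hm]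
    linear_combination h.aa (r ^ 2 * s ^ 3) - h.aa (r ^ 2 * s ^ 2)

/-- If some point carries a transvection, all transvections are present. -/
theorem caseA (h : Cx B L) (hP : Pts B L P)
    (hirr : ∀ S : Submodule F V, (∀ g ∈ L, ∀ v ∈ S, g v ∈ S) → S = ⊥ ∨ S = ⊤)
    (hd : ∀ x z : V, ∃ e, e ≠ 0 ∧ B e x = 0 ∧ B e z = 0)
    {x₀ : V} (hx₀ : x₀ ∈ P) {t₀ : F} (ht₀ : t₀ ≠ 0) (T₀ : U B L x₀ 0 t₀) (w : V) (t : F) :
    U B L w 0 t := by
  let R : Set V := {x | x ∈ P ∧ U B L x 0 1}
  have Rinv : ∀ g ∈ L, ∀ x ∈ R, g x ∈ R := fun g hg x hx =>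
    ⟨hP.inv g hg x hx.1, by simpa using h.U_conj hx.2 hg⟩
  have Rne : ∀ w, w ≠ 0 → ∃ x ∈ R, B w x ≠ 0 := by
    intro w hw
    obtain ⟨s, rfl⟩ := h.exists_sq t₀
    have hs : s ≠ 0 := fun e => ht₀ (by simp [e])
    have hx : s • x₀ ∈ R := ⟨hP.smul _ hx₀ _ hs, U_smul' s (by simpa using T₀)⟩
    rcases hirr (Submodule.span F R) (fun g hg v hv => by
      have : (Submodule.span F R).map g ≤ Submodule.span F R := by
        rw [Submodule.map_span_le]
        exact fun m hm => Submodule.subset_span (Rinv g hg m hm)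
      exact this ⟨v, hv, rfl⟩) with e | e
    · exact absurd ((Submodule.eq_bot_iff _).1 e _ (Submodule.subset_span hx)) (hP.ne _ hx.1)
    · by_contra hc
      push Not at hc
      have : Submodule.span F R ≤ LinearMap.ker (B w) := Submodule.span_le.2 hc
      exact hw (h.nd w fun v => by rw [h.symm]; exact this (e ▸ Submodule.mem_top))
  have mv : ∀ {x b z : V} {c : F}, U B L x b c → z ∈ R →
      z + B z x • b + (B z b + c * B z x) • x ∈ R := by
    rintro x b z c ⟨g, hg, e⟩ hz
    rw [← e]; exact Rinv g hg z hz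
  have key : ∀ x ∈ R, ∀ t, U B L x 0 t := by
    intro x hx
    obtain ⟨z, hz, hxz⟩ := Rne x (hP.ne _ hx.1)
    obtain ⟨e, he, h1, h2⟩ := hd x z
    obtain ⟨s, hs, hb⟩ := h.exists_zero hP hz.1 hz.2 h2
    have hy := mv hb hx
    have hzx : B z x ≠ 0 := by rwa [h.symm]
    have k1 : B ((B z x)⁻¹ • z) x = 1 := by simp [hzx]
    obtain ⟨v, v1, v2, v3⟩ := h.exists_partner (b := (B x z * s) • e) k1 (by simp [h1])
      (by simp [h2]) (smul_ne_zero (mul_ne_zero hxz hs) he)
    have ey : x + B x z • s • e + (B x (s • e) + 0 * B x z) • z = x + (B x z * s) • e := by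
      simp [h.symm x e, h1, smul_smul]
    rw [ey] at hy
    refine h.all_tv hP hx.1 hy.1 hx.2 hy.2 (v := v) (w := (B z x)⁻¹ • z + v)
      (by simp [h.alt, h1]) v1 (by rw [map_add, v1, v3, zero_add]) ?_
      (by rw [map_add, LinearMap.add_apply, k1, v1, add_zero])
    rw [map_add, map_add, LinearMap.add_apply, LinearMap.add_apply, k1, v1, v3]
    simp [h.symm z e, h2, h.aa]
  by_cases hw : w = 0
  · rw [hw]; exact ⟨1, h.one, fun v => by simp⟩
  obtain ⟨x, hx, hwx⟩ := Rne w hw
  obtain ⟨z, hz, hxz⟩ := Rne x (hP.ne _ hx.1)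
  have hzx : B z x ≠ 0 := by rwa [h.symm]
  -- move a multiple of `z` to `w`
  set z' := (B w x / B z x) • z with hz'
  have k1 : B z' x = B w x := by simp [hz', hzx]
  have k2 : z' ∈ R := ⟨hP.smul _ hz.1 _ (div_ne_zero hwx hzx),
    U_smul' _ (by rw [smul_zero]; exact key z hz _)⟩
  have k3 : B ((B w x)⁻¹ • (w + z')) x = 0 := by simp [k1, h.aa]
  obtain ⟨c, hc⟩ := hP.full x hx.1 _ k3
  have k4 := h.U_mul hc (key x hx (c + (B w x)⁻¹ * (B w x)⁻¹ * B z' w)) k3 (by simp)
  have k5 := mv k4 k2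
  have : z' + B z' x • ((B w x)⁻¹ • (w + z') + 0) + (B z' ((B w x)⁻¹ • (w + z') + 0) +
      (c + (c + (B w x)⁻¹ * (B w x)⁻¹ * B z' w) + B ((B w x)⁻¹ • (w + z')) 0) * B z' x) • x = w := by
    simp only [add_zero, map_zero, k1, smul_smul, mul_inv_cancel₀ hwx, one_smul, map_smul, map_add,
      h.alt, smul_eq_mul, ← add_assoc c, h.aa, zero_add]
    have : (B w x)⁻¹ * B z' w + (B w x)⁻¹ * (B w x)⁻¹ * B z' w * B w x = 0 := by
      rw [← h.aa ((B w x)⁻¹ * B z' w)]; field_simp
    rw [this, zero_smul, add_zero, add_comm w, ← add_assoc, h.vv, zero_add]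
  rw [this] at k5
  exact key w k5 t

end Cx

end Cfsg.Agent.H27.TT
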