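import Cfsg.Agent.H27.TwoTv1

/-! Full groups of two-transvections, no transvections: three points on a hyperbolic line. -/

set_option autoImplicit false

namespace Cfsg.Agent.H27.TT

variable {F V : Type*} [Field F] [AddCommGroup V] [Module F V]
variable {B : V →ₗ[F] V →ₗ[F] F} {L : Set (Module.End F V)} {P : Set V}

namespace Cx

theorem key_perp (h : Cx B L) (hP : Pts B L P) {x y v : V} (hx : x ∈ P) (hxy : B x y = 0)
    (hv1 : B v x = 0) (hv2 : B v y = 1) {t c : F} (H : U B L y (t • x) c) (r : F) :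
    U B L x ((c * r) • y) (c * r ^ 2) := by
  obtain ⟨g, hg, e⟩ := H
  have := h.U_comm hP hx hg (by simp [e, hxy, h.alt]) (v := r • v) (by simp [hv1])
  refine h.U_of_add_self (r * t) ?_
  convert this using 1
  · rw [e]; simp only [map_smul, LinearMap.smul_apply, smul_eq_mul, hv1, hv2]
    linear_combination (norm := module) -(h.aa r) • v
  · rw [e]; simp [hv1, hv2, h.alt]; ring

theorem perp_zero (h : Cx B L) (hP : Pts B L P) (hU : ∀ x ∈ P, ∀ t, U B L x 0 t → t = 0)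
    {s : F} (hs0 : s ≠ 0) (hs1 : s ≠ 1) {x y v w : V} (hx : x ∈ P) (hy : y ∈ P) (hxy : B x y = 0)
    (hv1 : B v x = 0) (hv2 : B v y = 1) (hw1 : B w y = 0) (hw2 : B w x = 1) : U B L y x 0 := by
  obtain ⟨c, hc⟩ := hP.full y hy x hxy
  by_cases h0 : c = 0
  · exact h0 ▸ hc
  have h1 := h.key_perp hP hx hxy hv1 hv2 (t := 1) (by rwa [one_smul]) (s / c)
  have hd : c * (s / c) ^ 2 ≠ 0 := by positivity
  have h2 := h.key_perp hP hy (by rw [h.symm, hxy]) hw1 hw2 h1 (c * (s / c) ^ 2)⁻¹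
  rw [mul_inv_cancel₀ hd, one_smul] at h2
  have h3 := h.uniq (hU y hy) hxy hc h2
  have h4 : (s + 1) ^ 2 = 0 := by
    field_simp at h3
    linear_combination h3 + h.aa s + h.aa 1
  exact absurd (h.eq_of_add (pow_eq_zero_iff two_ne_zero |>.1 h4)) hs1

variable [Finite F]

theorem three_big (h : Cx B L) (hP : Pts B L P) (hU : ∀ x ∈ P, ∀ t, U B L x 0 t → t = 0)
    {s : F} (hs0 : s ≠ 0) (hs1 : s ≠ 1) {x z e : V} (hx : x ∈ P) (hz : z ∈ P) (hzx : B z x = 1)
    (h1 : B e x = 0) (h2 : B e z = 0) (he : e ≠ 0) {t : F} (ht : z + t • x ∈ P) : t = 0 := by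
  obtain ⟨b, b1, b2, hb⟩ := h.surj hP hx hzx (hU x hx) h1 h2 he t
  by_cases hb0 : b = 0
  · exact hU x hx t (hb0 ▸ hb)
  obtain ⟨f, f1, f2, f3⟩ := h.exists_partner hzx b1 b2 hb0
  have hxz : B x z = 1 := by rw [h.symm, hzx]
  have hxb : B x b = 0 := by rw [h.symm, b1]
  have hzb : B z b = 0 := by rw [h.symm, b2]
  have k1 : z + b ∈ P := by
    convert move hP hb ht using 1
    simp only [map_add, map_smul, LinearMap.add_apply, LinearMap.smul_apply, smul_eq_mul, h.alt,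
      hzx, hxb, hzb]
    linear_combination (norm := module) -(h.aa t) • x
  have k2 := h.perp_zero hP hU hs0 hs1 k1 hz (v := x + f) (w := f) (by simp [h.alt, b2])
    (by simp [hxz, hxb, f2, f3, h.aa]) (by simp [hxz, f2]) f2 (by simp [f2, f3])
  have k3 : U B L z b 0 := h.U_of_add_self 1 (by rwa [one_smul, add_comm])
  have k4 : x + b ∈ P := by simpa [hxz, hxb] using move hP k3 hx
  have k5 := h.perp_zero hP hU hs0 hs1 k4 hx (v := z + f) (w := f) (by simp [h.alt, b1])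
    (by simp [hzx, hzb, f1, f3, h.aa]) (by simp [hzx, f1]) f1 (by simp [f1, f3])
  exact h.uniq (hU x hx) b1 hb (h.U_of_add_self 1 (by rwa [one_smul, add_comm]))

omit [Finite F] in
theorem two_cases (h : Cx B L) (hq : ∀ s : F, s ≠ 0 → s = 1) (a b : F) : a = b ∨ a = b + 1 := by
  by_cases e : a + b = 0
  · exact Or.inl (h.eq_of_add e)
  · right
    linear_combination hq _ e - h.aa b + h.aa b - h.aa b + h.aa b - h.aa b

omit [Finite F] in
/-- Over two elements: an element fixing `x` that maps `z` or `z + x` to `w`. -/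
theorem two_move (h : Cx B L) (hP : Pts B L P) (hq : ∀ s : F, s ≠ 0 → s = 1) {x z w : V}
    (hx : x ∈ P) (hzx : B z x = 1) (hw : B w x = 1) :
    ∃ g ∈ L, g x = x ∧ (g z = w ∨ g (z + x) = w) := by
  have hb : B (w + z) x = 0 := by simp [hw, hzx, h.aa]
  obtain ⟨c, g, hg, e⟩ := hP.full x hx _ hb
  have hgx : g x = x := by rw [e, h.symm x (w + z), hb]; simp [h.alt]
  refine ⟨g, hg, hgx, ?_⟩
  have hgz : g z = w + (B z w + c) • x := by
    rw [e]; simp only [hzx, map_add, h.alt]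
    linear_combination (norm := module) (h.aa 1) • z
  rcases h.two_cases hq (B z w + c) 0 with k | k
  · left; rw [hgz, k, zero_smul, add_zero]
  · right; rw [map_add, hgz, hgx, k, zero_add, one_smul, add_assoc, h.vv, add_zero]

omit [Finite F] in
theorem two_all (h : Cx B L) (hP : Pts B L P) (hq : ∀ s : F, s ≠ 0 → s = 1) {x z w : V}
    (hx : x ∈ P) (hz : z ∈ P) (hzx : B z x = 1) (ht : z + x ∈ P) (hw : B w x = 1) : w ∈ P := by
  obtain ⟨g, hg, -, e | e⟩ := h.two_move hP hq hx hzx hw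
  · exact e ▸ hP.inv g hg _ hz
  · exact e ▸ hP.inv g hg _ ht

omit [Finite F] in
theorem three_two_big (h : Cx B L) (hP : Pts B L P) (hU : ∀ x ∈ P, ∀ t, U B L x 0 t → t = 0)
    (hq : ∀ s : F, s ≠ 0 → s = 1)
    (hd : ∀ a b c d : V, ∃ v, v ≠ 0 ∧ B v a = 0 ∧ B v b = 0 ∧ B v c = 0 ∧ B v d = 0)
    {x z : V} (hx : x ∈ P) (hz : z ∈ P) (hzx : B z x = 1) (ht : z + x ∈ P) : False := by
  obtain ⟨e, he, e1, e2, -⟩ := hd x z x z
  obtain ⟨f, f1, f2, f3⟩ := h.exists_partner hzx e1 e2 he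
  obtain ⟨v, hv, v1, v2, v3, v4⟩ := hd x z e f
  obtain ⟨u, u1, u2, u3⟩ := h.exists_partner hzx v1 v2 hv
  have key : ∀ b, B b x = 0 → B b z = 0 → B v b = 0 → B (pr B e f u) b = 0 → U B L z b 0 := by
    intro b b1 b2 b3 b4
    have hy : z + b ∈ P := h.two_all hP hq hx hz hzx ht (by simp [hzx, b1])
    have a1 : B (pr B e f u) z = 0 := by simp [pr, u2, e2, f2]
    obtain ⟨c, g, hg, eg⟩ := hP.full _ hy (pr B e f u) (by rw [map_add, a1, b4, add_zero])
    have a2 : B z (z + b) = 0 := by rw [map_add, h.alt, h.symm, b2, add_zero]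
    have a3 : B v (z + b) = 0 := by rw [map_add, v2, b3, add_zero]
    have a4 : g v = v + (z + b) := by
      rw [eg, a3, h.symm v, h.B_pr v3 v4, u3]; simp
    have := h.U_comm hP hz hg (by rw [eg, a2, h.symm z, a1]; simp) v2
    rw [a4, ← add_assoc, h.vv, zero_add, map_add, h.alt, a3, add_zero] at this
    exact h.U_of_add_self 1 (by rwa [one_smul, add_comm])
  have k1 := key e e1 e2 v3 (h.pr_x f3 u)
  have k2 := key f f1 f2 v4 (h.pr_z f3 u)
  have k3 := key (e + f) (by simp [e1, f1]) (by simp [e2, f2]) (by simp [v3, v4])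
    (by rw [map_add, h.pr_x f3 u, h.pr_z f3 u, add_zero])
  have := h.uniq (hU z hz) (by simp [e2, f2]) (h.U_mul k1 k2 e2 f2) k3
  rw [h.symm e f, f3] at this
  simp at this

/-- Over two elements the group is transitive on hyperbolic pairs. -/
theorem three_two_trans (h : Cx B L) (hP : Pts B L P) (hU : ∀ x ∈ P, ∀ t, U B L x 0 t → t = 0)
    (hq : ∀ s : F, s ≠ 0 → s = 1) (hd : ∀ x z : V, ∃ e, e ≠ 0 ∧ B e x = 0 ∧ B e z = 0)
    (hO : ∀ x ∈ P, ∀ y ∈ P, ∃ g ∈ L, g x = y)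
    {x z : V} (hx : x ∈ P) (hz : z ∈ P) (hzx : B z x = 1) (ht : z + x ∈ P) {x' w : V}
    (hw : B w x' = 1) : ∃ g ∈ L, g x = x' ∧ g z = w := by
  have stab : ∀ {x z w : V}, x ∈ P → z ∈ P → B z x = 1 → z + x ∈ P → B w x = 1 →
      ∃ g ∈ L, g x = x ∧ g z = w := by
    intro x z w hx hz hzx ht hw
    obtain ⟨g, hg, e1, e2 | e2⟩ := h.two_move hP hq hx hzx hw
    · exact ⟨g, hg, e1, e2⟩
    obtain ⟨e, he, h1, h2⟩ := hd x z
    obtain ⟨b, b1, b2, hb⟩ := h.surj hP hx hzx (hU x hx) h1 h2 he 1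
    have hb0 : b ≠ 0 := fun e => one_ne_zero (hU x hx 1 (e ▸ hb))
    obtain ⟨f, f1, f2, f3⟩ := h.exists_partner hzx b1 b2 hb0
    have hxz : B x z = 1 := by rw [h.symm, hzx]
    have hxb : B x b = 0 := by rw [h.symm, b1]
    have hzb : B z b = 0 := by rw [h.symm, b2]
    have k1 : z + f ∈ P := h.two_all hP hq hx hz hzx ht (by simp [hzx, f1])
    have k2 : x + (z + f) ∈ P := h.two_all hP hq hx hz hzx ht (by simp [hzx, f1, h.alt])
    have k3 : b ∈ P := h.two_all hP hq k1 hx (by simp [hxz, h.symm x f, f1]) k2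
      (by simp [b2, h.symm b f, f3])
    obtain ⟨g1, hg1, a1⟩ := h.key_perp hP k3 b1 hzb hzx (t := 1) (by rwa [one_smul]) 1
    obtain ⟨g2, hg2, a2⟩ := hb
    refine ⟨g * (g2 * g1), h.mul _ hg _ (h.mul _ hg2 _ hg1), ?_, ?_⟩
    · simp [a1, a2, hxb, h.alt, e1]
    · rw [← e2]
      simp only [Module.End.mul_apply]
      congr 1
      simp only [a1, a2, map_add, map_smul, LinearMap.add_apply, LinearMap.smul_apply, smul_eq_mul,
        h.alt, hzx, hxb, hzb, b1]
      linear_combination (norm := module) (h.aa 1) • b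
  have conj : ∀ g ∈ L, g z ∈ P ∧ B (g z) (g x) = 1 ∧ g z + g x ∈ P := fun g hg =>
    ⟨hP.inv g hg _ hz, by rw [h.iso g hg, hzx], by rw [← map_add]; exact hP.inv g hg _ ht⟩
  have hx' : x' ∈ P := by
    obtain ⟨y, hy, e⟩ := h.exists_pt_one hP (w := x') (by rintro rfl; simp at hw)
    obtain ⟨g, hg, rfl⟩ := hO x hx y hy
    obtain ⟨c1, c2, c3⟩ := conj g hg
    exact h.two_all hP hq hy c1 c2 c3 (by rwa [h.symm])
  obtain ⟨g, hg, rfl⟩ := hO x hx x' hx'
  obtain ⟨c1, c2, c3⟩ := conj g hg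
  obtain ⟨g', hg', e1, e2⟩ := stab hx' c1 c2 c3 hw
  exact ⟨g' * g, h.mul _ hg' _ hg, e1, e2⟩

end Cx

end Cfsg.Agent.H27.TT
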