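import Cfsg.Agent.H27.TwoTv2

/-! Full groups of two-transvections: two points on each hyperbolic line give a quadric. -/

set_option autoImplicit false

namespace Cfsg.Agent.H27.TT

variable {F V : Type*} [Field F] [AddCommGroup V] [Module F V]
variable {B : V →ₗ[F] V →ₗ[F] F} {L : Set (Module.End F V)} {P : Set V}

/-- `Q` is a quadratic form with polar form `B`. -/
structure IsQ (B : V →ₗ[F] V →ₗ[F] F) (Q : V → F) : Prop where
  add : ∀ u v, Q (u + v) = Q u + Q v + B u v
  smul : ∀ (t : F) v, Q (t • v) = t ^ 2 * Q v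

/-- The full group at `x` consists of the Eichler maps of `Q`. -/
def Good (B : V →ₗ[F] V →ₗ[F] F) (L : Set (Module.End F V)) (Q : V → F) (x : V) : Prop :=
  Q x = 0 ∧ ∀ y, B y x = 0 → U B L x y (Q y)

/-- Hyperbolic lines through a point contain exactly two points. -/
def Two (B : V →ₗ[F] V →ₗ[F] F) (P : Set V) : Prop :=
  ∀ x ∈ P, ∀ z ∈ P, B z x ≠ 0 → ∀ t : F, z + t • x ∈ P → t = 0

namespace Cx

theorem noT (h : Cx B L) (hP : Pts B L P) (h2 : Two B P) : ∀ x ∈ P, ∀ t, U B L x 0 t → t = 0 := by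
  intro x hx t H
  obtain ⟨z, hz, e⟩ := h.exists_pt_one hP (hP.ne x hx)
  exact h2 x hx z hz (by simp [e]) t (by simpa [e] using move hP H hz)

/-- The basic identity between the parameters at two opposite points. -/
theorem ident (h : Cx B L) (hP : Pts B L P) (h2 : Two B P) {x z b y : V} (hx : x ∈ P) (hz : z ∈ P)
    (hzx : B z x = 1) (b1 : B b x = 0) (b2 : B b z = 0) (y1 : B y x = 0) (y2 : B y z = 0)
    {k d : F} (hk : k ≠ 0) (hb : U B L x b k) (hy : U B L z y d) :
    U B L x (k • y + B y b • b) (k ^ 2 * d) := by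
  have hxz : B x z = 1 := by rw [h.symm, hzx]
  have hxb : B x b = 0 := by rw [h.symm, b1]
  have hzb : B z b = 0 := by rw [h.symm, b2]
  obtain ⟨c, g', hg', e'⟩ := hP.full z hz (k⁻¹ • b) (by simp [b2])
  obtain ⟨g, hg, e⟩ := hb
  have hw := h.mul _ hg' _ hg
  have a1 : (g' * g) z = k • x + (1 + k * c) • z := by
    simp only [Module.End.mul_apply, e, e', map_add, map_smul, LinearMap.add_apply,
      LinearMap.smul_apply, smul_eq_mul, h.alt, hzx, hxz, hxb, hzb, b2]
    match_scalars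
    · ring
    · rw [mul_comm, ← mul_assoc]
      simp [hk, h.aa]
    · ring
  have a2 : 1 + k * c = 0 :=
    h2 z hz (k • x) (hP.smul x hx k hk) (by simp [hxz, hk]) _ (a1 ▸ hP.inv _ hw z hz)
  have a3 := h.U_conj hy hw
  rw [a1, a2, zero_smul, add_zero] at a3
  refine h.U_of_add_self (k * B y b) ?_
  convert U_smul k a3 using 1
  simp only [Module.End.mul_apply, e, e', map_add, map_smul, LinearMap.add_apply,
    LinearMap.smul_apply, smul_eq_mul, h.alt, hxz, hxb, b2, y1, y2]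
  match_scalars
  · ring
  · field_simp; ring
  · ring
  · field_simp; linear_combination -(B y b) * a2

variable [Fintype F]

open Classical in
/-- The quadratic part of a function. -/
noncomputable def qp (c : V → F) (y : V) : F := ∑ t : Fˣ, ((t : F)⁻¹) ^ 2 * c ((t : F) • y)

open Classical in
theorem card_units (h : Cx B L) : ∑ _t : Fˣ, (1 : F) = 1 := by
  rw [Finset.sum_const, Finset.card_univ, Fintype.card_units, nsmul_eq_mul, mul_one,
    Nat.cast_sub Fintype.card_pos, FiniteField.cast_card_eq_zero]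
  linear_combination -h.aa 1

theorem qp_smul {c : V → F} (h0 : c 0 = 0) (s : F) (y : V) : qp c (s • y) = s ^ 2 * qp c y := by
  classical
  by_cases hs : s = 0
  · simp [qp, hs, h0]
  rw [qp, qp, Finset.mul_sum]
  refine Fintype.sum_equiv (Equiv.mulRight (Units.mk0 s hs)) _ _ fun t => ?_
  simp only [Equiv.coe_mulRight, Units.val_mul, Units.val_mk0, smul_smul]
  field_simp

theorem qp_add (h : Cx B L) {c : V → F} {u v : V}
    (ha : ∀ t : F, c (t • u + t • v) = c (t • u) + c (t • v) + B (t • u) (t • v)) :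
    qp c (u + v) = qp c u + qp c v + B u v := by
  classical
  conv_rhs => rw [← mul_one (B u v), ← h.card_units, Finset.mul_sum]
  rw [qp, qp, qp, ← Finset.sum_add_distrib, ← Finset.sum_add_distrib]
  refine Finset.sum_congr rfl fun t _ => ?_
  rw [smul_add, ha]
  simp only [map_smul, LinearMap.smul_apply, smul_eq_mul]
  field_simp

/-- The parameter is quadratic on the complement of a hyperbolic pair. -/
theorem quad (h : Cx B L) (W : Submodule F V) (hW : ∀ b ∈ W, b ≠ 0 → ∃ f ∈ W, B f b = 1)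
    {c c' : V → F} (ha : ∀ u ∈ W, ∀ v ∈ W, c (u + v) = c u + c v + B u v)
    (hi : ∀ b ∈ W, c b ≠ 0 → ∀ y ∈ W, c (c b • y + B y b • b) = c b ^ 2 * c' y)
    {y : V} (hy : y ∈ W) (s : F) : c (s • y) = s ^ 2 * c y := by
  have h0 : c 0 = 0 := by
    have := ha 0 W.zero_mem 0 W.zero_mem
    simp only [add_zero, map_zero] at this
    linear_combination -this
  by_cases hq : ∀ s : F, s ≠ 0 → s = 1
  · by_cases hs : s = 0
    · simp [hs, h0]
    · simp [hq s hs]
  push Not at hq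
  obtain ⟨r, hr0, hr1⟩ := hq
  have qa : ∀ u ∈ W, ∀ v ∈ W, qp c (u + v) = qp c u + qp c v + B u v := fun u hu v hv =>
    h.qp_add fun t => ha _ (W.smul_mem t hu) _ (W.smul_mem t hv)
  have k1 : ∀ b ∈ W, c b ≠ 0 → ∀ y ∈ W,
      c b ^ 2 * (qp c' y + qp c y) = B y b ^ 2 * (qp c b + c b) := by
    intro b hb hc y hy
    have e1 : c b ^ 2 * qp c' y = qp c (c b • y + B y b • b) := by
      rw [qp, qp, Finset.mul_sum]
      refine Finset.sum_congr rfl fun t _ => ?_
      have := hi b hb hc _ (W.smul_mem (t : F) hy)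
      rw [show c b • (t : F) • y + B ((t : F) • y) b • b = (t : F) • (c b • y + B y b • b) by
        simp only [map_smul, LinearMap.smul_apply, smul_eq_mul]; module] at this
      rw [this]; ring
    rw [qa _ (W.smul_mem _ hy) _ (W.smul_mem _ hb), qp_smul h0, qp_smul h0] at e1
    simp only [map_smul, LinearMap.smul_apply, smul_eq_mul] at e1
    linear_combination e1 + h.aa (c b ^ 2 * qp c y)
  have k2 : ∀ b ∈ W, c b ≠ 0 → qp c b + c b = 0 := by
    intro b hb hc
    by_contra hl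
    obtain ⟨f, hf, e⟩ := hW b hb (by rintro rfl; exact hc h0)
    have z1 : ∀ b' ∈ W, B b b' ≠ 0 → c b' = 0 := by
      intro b' hb' hne
      by_contra hc'
      have a1 := k1 b hb hc b' hb'
      have a2 := k1 b' hb' hc' b' hb'
      rw [h.alt] at a2
      have a3 : qp c' b' + qp c b' = 0 := by simpa [hc'] using a2
      rw [a3, h.symm b' b] at a1
      simp [hne, hl] at a1
    have e' : B b f = 1 := by rw [h.symm, e]
    have a1 := z1 (b + f) (W.add_mem hb hf) (by simp [h.alt, e'])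
    have a2 := z1 (b + r • f) (W.add_mem hb (W.smul_mem _ hf)) (by simp [h.alt, e', hr0])
    rw [ha _ hb _ hf, z1 f hf (by simp [e']), e'] at a1
    rw [ha _ hb _ (W.smul_mem _ hf), z1 _ (W.smul_mem _ hf) (by simp [e', hr0])] at a2
    simp only [map_smul, smul_eq_mul, e'] at a2
    exact hr1 (by linear_combination a2 - a1)
  have k3 : ∀ b ∈ W, qp c b + c b = 0 := by
    intro b hb
    by_contra hl
    have hc : c b = 0 := by_contra fun hc => hl (k2 b hb hc)
    have : ∀ t : F, c (t • b) = 0 := by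
      intro t
      by_contra ht
      have hb' := W.smul_mem t hb
      have a1 := k2 _ hb' ht
      have a2 : c (b + t • b) = c (t • b) := by rw [ha _ hb _ hb', hc]; simp [h.alt]
      have a3 := k2 _ (W.add_mem hb hb') (by rwa [a2])
      rw [a2, qa _ hb _ hb'] at a3
      simp only [map_smul, h.alt, smul_eq_mul] at a3
      exact hl (by linear_combination a3 - a1 + hc)
    exact hl (by simp [qp, this, hc])
  rw [← h.eq_of_add (k3 _ (W.smul_mem s hy)), ← h.eq_of_add (k3 _ hy), qp_smul h0]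

theorem exists_good (h : Cx B L) (hP : Pts B L P) (h2 : Two B P)
    (hd : ∀ x z : V, ∃ e, e ≠ 0 ∧ B e x = 0 ∧ B e z = 0) {x z : V} (hx : x ∈ P) (hz : z ∈ P)
    (hzx : B z x = 1) : ∃ Q, IsQ B Q ∧ Good B L Q x ∧ Good B L Q z := by
  classical
  have hU := h.noT hP h2
  have hxz : B x z = 1 := by rw [h.symm, hzx]
  have ex : ∀ x ∈ P, ∃ c : V → F, ∀ b, B b x = 0 → U B L x b (c b) := fun x hx => by
    choose c hc using hP.full x hx
    exact ⟨fun b => if hb : B b x = 0 then c b hb else 0, fun b hb => by simpa [hb] using hc b hb⟩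
  obtain ⟨c, hc⟩ := ex x hx
  obtain ⟨c', hc'⟩ := ex z hz
  let W : Submodule F V := LinearMap.ker (B.flip x) ⊓ LinearMap.ker (B.flip z)
  have mW : ∀ {b}, b ∈ W ↔ B b x = 0 ∧ B b z = 0 := Iff.rfl
  have ha : ∀ u ∈ W, ∀ v ∈ W, c (u + v) = c u + c v + B u v := fun u hu v hv =>
    h.uniq (hU x hx) (mW.1 (W.add_mem hu hv)).1 (hc _ (mW.1 (W.add_mem hu hv)).1)
      (h.U_mul (hc u hu.1) (hc v hv.1) hu.1 hv.1)
  have hi : ∀ b ∈ W, c b ≠ 0 → ∀ y ∈ W, c (c b • y + B y b • b) = c b ^ 2 * c' y := by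
    intro b hb hk y hy
    have hm := (mW.1 (W.add_mem (W.smul_mem (c b) hy) (W.smul_mem (B y b) hb))).1
    exact h.uniq (hU x hx) hm (hc _ hm)
      (h.ident hP h2 hx hz hzx hb.1 hb.2 hy.1 hy.2 hk (hc b hb.1) (hc' y hy.2))
  have hs : ∀ y ∈ W, ∀ s : F, c (s • y) = s ^ 2 * c y := fun y hy s =>
    h.quad W (fun b hb hb0 => by
      obtain ⟨f, f1, f2, f3⟩ := h.exists_partner hzx hb.1 hb.2 hb0
      exact ⟨f, mW.2 ⟨f1, f2⟩, f3⟩) ha hi hy s
  have hcc : ∀ y ∈ W, c' y = c y := by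
    intro y hy
    obtain ⟨e, he, e1, e2⟩ := hd x z
    obtain ⟨b, b1, b2, hb⟩ := h.surj hP hx hzx (hU x hx) e1 e2 he 1
    have hb1 : c b = 1 := h.uniq (hU x hx) b1 (hc b b1) hb
    have hbW : b ∈ W := mW.2 ⟨b1, b2⟩
    have := hi b hbW (by simp [hb1]) y hy
    rw [ha _ (W.smul_mem _ hy) _ (W.smul_mem _ hbW), hs y hy, hs b hbW, hb1] at this
    simp only [map_smul, LinearMap.smul_apply, smul_eq_mul] at this
    linear_combination -this + h.aa (B y b ^ 2)
  have pW : ∀ v, pr B x z v ∈ W := fun v => mW.2 ⟨h.pr_x hzx v, h.pr_z hzx v⟩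
  have h0 : c 0 = 0 := by simpa using hs 0 W.zero_mem 0
  refine ⟨fun v => c (pr B x z v) + B v x * B v z, ⟨fun u v => ?_, fun t v => ?_⟩,
    ⟨?_, fun y hy => ?_⟩, ⟨?_, fun y hy => ?_⟩⟩
  · have e : pr B x z (u + v) = pr B x z u + pr B x z v := by
      simp only [pr, map_add, LinearMap.add_apply]; module
    rw [e, ha _ (pW u) _ (pW v), h.B_pr (pW v).1 (pW v).2]
    simp only [pr, map_add, map_smul, LinearMap.add_apply, smul_eq_mul]
    linear_combination h.aa (B u z * B v x) + h.aa (B u x * B v z)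
  · have e : pr B x z (t • v) = t • pr B x z v := by
      simp only [pr, map_smul, LinearMap.smul_apply, smul_eq_mul]; module
    rw [e, hs _ (pW v)]
    simp only [map_smul, LinearMap.smul_apply, smul_eq_mul]
    ring
  · simp [pr, h.alt, hxz, h.vv, h0]
  · have := hc _ (pW y).1
    simp only [hy, zero_mul, add_zero]
    refine h.U_of_add_self (B y z) ?_
    convert this using 1
    simp [pr, hy]
  · simp [pr, h.alt, hzx, h.vv, h0]
  · have := hc' _ (pW y).2
    rw [hcc _ (pW y)] at this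
    simp only [hy, mul_zero, add_zero]
    refine h.U_of_add_self (B y x) ?_
    convert this using 1
    simp [pr, hy]

omit [Fintype F] in
theorem mem_iff (h : Cx B L) (hP : Pts B L P) (h2 : Two B P) {Q : V → F} (hQ : IsQ B Q) {x z w : V}
    (hx : x ∈ P) (hz : z ∈ P) (hzx : B z x ≠ 0) (gx : Good B L Q x) (gz : Q z = 0)
    (hw : B w x ≠ 0) : w ∈ P ↔ Q w = 0 := by
  set z' := (B w x / B z x) • z with hz'
  have k1 : B z' x = B w x := by simp [hz', hzx]
  have k2 : z' ∈ P := hP.smul _ hz _ (div_ne_zero hw hzx)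
  have k3 : B ((B w x)⁻¹ • (w + z')) x = 0 := by simp [k1, h.aa]
  have k4 : Q z' = 0 := by rw [hz', hQ.smul, gz, mul_zero]
  have k5 := move hP (gx.2 _ k3) k2
  have e : z' + B z' x • (B w x)⁻¹ • (w + z') + (B z' ((B w x)⁻¹ • (w + z')) +
      Q ((B w x)⁻¹ • (w + z')) * B z' x) • x = w + (Q w / B w x) • x := by
    rw [hQ.smul, hQ.add, k4, k1, smul_smul, mul_inv_cancel₀ hw, one_smul, add_comm w, ← add_assoc,
      h.vv, zero_add]
    congr 2
    simp only [map_smul, map_add, h.alt, smul_eq_mul, h.symm w z']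
    field_simp
    linear_combination h.aa (B z' w)
  rw [e] at k5
  refine ⟨fun hw' => ?_, fun e => by simpa [e] using k5⟩
  simpa [hw] using h2 x hx w hw' hw _ k5

/-- The quadric. -/
theorem quadric (h : Cx B L) (hP : Pts B L P) (h2 : Two B P)
    (hd : ∀ x z : V, ∃ e, e ≠ 0 ∧ B e x = 0 ∧ B e z = 0) :
    ∃ Q, IsQ B Q ∧ (∀ g ∈ L, ∀ v, Q (g v) = Q v) ∧ ∀ e y, Q e = 0 → B y e = 0 → U B L e y (Q y) := by
  have hU := h.noT hP h2
  obtain ⟨e₀, he₀, -⟩ := hd 0 0
  obtain ⟨x₀, hx₀, -⟩ := h.exists_ne hP he₀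
  obtain ⟨z₀, hz₀, hzx₀⟩ := h.exists_pt_one hP (hP.ne _ hx₀)
  obtain ⟨Q, hQ, gx₀, gz₀⟩ := h.exists_good hP h2 hd hx₀ hz₀ hzx₀
  let G : Set V := {x | x ∈ P ∧ Good B L Q x ∧ ∃ z ∈ P, B z x ≠ 0 ∧ Q z = 0}
  have step : ∀ x ∈ G, ∀ x' ∈ P, B x' x ≠ 0 → x' ∈ G := by
    rintro x ⟨hx, gx, z, hz, hzx, gz⟩ x' hx' hne
    have k1 : Q x' = 0 := (h.mem_iff hP h2 hQ hx hz hzx gx gz hne).1 hx'
    refine ⟨hx', ⟨k1, fun y hy => ?_⟩, x, hx, by rwa [h.symm], gx.1⟩
    have k2 : B ((B x' x)⁻¹ • x') x = 1 := by simp [hne]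
    obtain ⟨Q', hQ', g1, g2⟩ := h.exists_good hP h2 hd hx (hP.smul _ hx' _ (inv_ne_zero hne)) k2
    have k3 : ∀ v, B v x = 0 → Q' v = Q v := fun v hv =>
      h.uniq (hU x hx) hv (g1.2 v hv) (gx.2 v hv)
    have k4 : ∀ v, Q' v = Q v := fun v => by
      have a : B (v + B v x • (B x' x)⁻¹ • x') x = 0 := by simp [hne, h.aa]
      have := k3 _ a
      rw [hQ'.add, hQ.add, hQ'.smul, g2.1, hQ.smul, hQ.smul, k1] at this
      linear_combination this
    have := U_smul _ (g2.2 (B x' x • y) (by simp [hy]))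
    rw [k4, hQ.smul, smul_smul, inv_mul_cancel₀ hne, one_smul] at this
    convert this using 1
    field_simp
  have hxz₀ : B x₀ z₀ = 1 := by rw [h.symm, hzx₀]
  have Gx : x₀ ∈ G := ⟨hx₀, gx₀, z₀, hz₀, by simp [hzx₀], gz₀.1⟩
  have Gne : ∀ w, w ≠ 0 → ∃ y ∈ G, B w y ≠ 0 := by
    intro w hw
    by_contra hc
    push Not at hc
    have a1 := hc _ Gx
    have a2 := hc _ (step _ Gx _ hz₀ (by simp [hzx₀]))
    refine hw (h.nd w fun v => ?_)
    have b1 := h.pr_x hzx₀ v
    have b2 := h.pr_z hzx₀ v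
    have a3 := hc _ (step _ Gx _ (move hP (gx₀.2 _ b1) hz₀) (by simp [hzx₀, b1, h.alt]))
    simp only [map_add, map_smul, smul_eq_mul, a1, a2, hzx₀, mul_zero, add_zero, zero_add,
      one_mul] at a3
    rw [← h.B_pr a1 a2, h.symm, a3]
  have GP : ∀ x ∈ P, x ∈ G := fun x hx => by
    obtain ⟨y, hy, e⟩ := Gne x (hP.ne x hx)
    exact step y hy x hx e
  refine ⟨Q, hQ, fun g hg v => ?_, fun e y he hy => ?_⟩
  · let S : Submodule F V :=
      { carrier := {v | Q (g v) = Q v}
        add_mem' := fun {a b} ha hb => by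
          simp only [Set.mem_ofPred_eq] at ha hb ⊢
          rw [map_add, hQ.add, hQ.add, ha, hb, h.iso g hg]
        zero_mem' := by simp
        smul_mem' := fun t a ha => by
          simp only [Set.mem_ofPred_eq] at ha ⊢
          rw [map_smul, hQ.smul, hQ.smul, ha] }
    have : S = ⊤ := hP.span S fun x hx => by
      change Q (g x) = Q x
      rw [(GP x hx).2.1.1, (GP _ (hP.inv g hg x hx)).2.1.1]
    have hv : v ∈ S := this ▸ Submodule.mem_top
    exact hv
  · by_cases h0 : e = 0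
    · rw [h0]; exact ⟨1, h.one, fun v => by simp⟩
    obtain ⟨x, ⟨hx, gx, z, hz, hzx, gz⟩, hne⟩ := Gne e h0
    exact (GP e ((h.mem_iff hP h2 hQ hx hz hzx gx gz hne).2 he)).2.1.2 y hy

end Cx

end Cfsg.Agent.H27.TT
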