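import Cfsg.Agent.H27.TwoTv3
import Cfsg.Agent.H11.OGeo
import Cfsg.Agent.H29.OInv2
import Cfsg.Agent.H28.OrthSum
import Cfsg.Agent.H99.SymAut

/-! Two-transvection groups: the unipotent radical of a vector stabiliser, overgroups of the
Eichler maps, subgroups of small index in `S₆`. -/

set_option autoImplicit false

namespace Cfsg.Agent.H27.TT

open Matrix QuadraticMap

section abstract
variable {F V : Type*} [Field F] [AddCommGroup V] [Module F V]
variable {B : V →ₗ[F] V →ₗ[F] F} {L : Set (Module.End F V)}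

/-- The complement of a hyperbolic pair. -/
def Wc (B : V →ₗ[F] V →ₗ[F] F) (a z : V) : Submodule F V :=
  LinearMap.ker (B.flip a) ⊓ LinearMap.ker (B.flip z)

theorem mem_Wc {a z b : V} : b ∈ Wc B a z ↔ B b a = 0 ∧ B b z = 0 := Iff.rfl

theorem Cx.card_Wc (h : Cx B L) {a z : V} (hz : B z a = 1) :
    Nat.card V = Nat.card (Wc B a z) * Nat.card F * Nat.card F := by
  rw [← Nat.card_prod, ← Nat.card_prod]
  refine Nat.card_congr (Equiv.ofBijective
    (fun v => ((⟨Cx.pr B a z v, h.pr_x hz v, h.pr_z hz v⟩, B v a), B v z)) ⟨fun u v e => ?_, ?_⟩)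
  · simp only [Prod.mk.injEq] at e
    have e0 : Cx.pr B a z u = Cx.pr B a z v := congrArg Subtype.val e.1.1
    rw [h.eq_pr a z u, h.eq_pr a z v, e0, e.1.2, e.2]
  · rintro ⟨⟨⟨w, h1, h2⟩, s⟩, t⟩
    have h1 : B w a = 0 := h1
    have h2 : B w z = 0 := h2
    have e1 : B (w + s • z + t • a) a = s := by simp [h1, hz, h.alt]
    have e2 : B (w + s • z + t • a) z = t := by simp [h2, h.symm a z, hz, h.alt]
    refine ⟨w + s • z + t • a, ?_⟩
    refine Prod.ext (Prod.ext (Subtype.ext ?_) e1) e2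
    simp only [e1, e2, Cx.pr]
    linear_combination (norm := module) (h.aa s) • z + (h.aa t) • a

/-- A normal `2`-subgroup of the stabiliser of `a` acts trivially on `a^⊥ / a`. -/
theorem Cx.normal_two [Finite V] (h : Cx B L) {G : Type*} [Group G] (ρ : G →* Module.End F V)
    (hρ : ∀ g u v, B (ρ g u) (ρ g v) = B u v) {a z e : V} (ha : ∀ g, ρ g a = a) (hz : B z a = 1)
    (he : e ∈ Wc B a z) (he0 : e ≠ 0)
    (ht : ∀ w, B w a = 0 → ∃ t : G, ∀ v, ρ t v = v + B v w • w) (N : Subgroup G) [hN : N.Normal]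
    (h2 : IsPGroup 2 N) {g : G} (hg : g ∈ N) {v : V} (hv : B v a = 0) :
    ∃ s : F, ρ g v = v + s • a := by
  have hp : ∀ g v, B v a = 0 → B (ρ g v) a = 0 := fun g v hv => by rw [← ha g, hρ, hv]
  have pe : ∀ v, B v a = 0 → Cx.pr B a z v = v + B v z • a := fun v hv => by simp [Cx.pr, hv]
  let act : MulAction N (Wc B a z) :=
    { smul := fun g b => ⟨Cx.pr B a z (ρ g b), h.pr_x hz _, h.pr_z hz _⟩
      one_smul := fun b => Subtype.ext (by
        change Cx.pr B a z (ρ 1 b) = b
        rw [map_one, Module.End.one_apply, pe _ b.2.1, (mem_Wc.1 b.2).2, zero_smul, add_zero])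
      mul_smul := fun g g' b => Subtype.ext (by
        change Cx.pr B a z (ρ (g * g') b) = Cx.pr B a z (ρ g (Cx.pr B a z (ρ g' b)))
        have k := hp g' _ b.2.1
        rw [pe _ k, map_add, map_smul, ha, map_mul, Module.End.mul_apply, pe _ (hp _ _ k),
          pe _ (by simp [hp _ _ k, h.alt])]
        simp only [map_add, map_smul, LinearMap.add_apply, LinearMap.smul_apply, smul_eq_mul,
          h.symm a z, hz]
        linear_combination (norm := module) -(h.aa (B (ρ g' b) z)) • a) }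
  have hdvd : 2 ∣ Nat.card (Wc B a z) := by
    have : addOrderOf (⟨e, he⟩ : Wc B a z) = 2 :=
      addOrderOf_eq_prime (Subtype.ext (by simp [two_nsmul, h.vv])) (fun k => he0 (congrArg Subtype.val k))
    exact this ▸ addOrderOf_dvd_natCard _
  obtain ⟨b, hb, hb0⟩ := h2.exists_fixed_point_of_prime_dvd_card_of_fixed_point (Wc B a z) hdvd
    (a := 0) (fun g => Subtype.ext (by
      change Cx.pr B a z (ρ g (0 : V)) = 0
      simp [Cx.pr]))
  let C : Submodule F V :=
    { carrier := {v | B v a = 0 ∧ ∀ g ∈ N, ∃ s : F, ρ g v = v + s • a}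
      add_mem' := fun {u v} hu hv => ⟨by simp [hu.1, hv.1], fun g hg => by
        obtain ⟨s, e⟩ := hu.2 g hg
        obtain ⟨t, e'⟩ := hv.2 g hg
        exact ⟨s + t, by rw [map_add, e, e']; module⟩⟩
      zero_mem' := ⟨by simp, fun g _ => ⟨0, by simp⟩⟩
      smul_mem' := fun r v hv => ⟨by simp [hv.1], fun g hg => by
        obtain ⟨s, e⟩ := hv.2 g hg
        exact ⟨r * s, by rw [map_smul, e]; module⟩⟩ }
  have hbC : b.1 ∈ C := ⟨b.2.1, fun g hg => by
    have : Cx.pr B a z (ρ g b) = b := congrArg Subtype.val (hb ⟨g, hg⟩)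
    rw [pe _ (hp _ _ b.2.1)] at this
    exact ⟨B (ρ g b) z, by
      linear_combination (norm := module) this - (h.aa (B (ρ g b) z)) • a⟩⟩
  have Cinv : ∀ t : G, ∀ v ∈ C, ρ t v ∈ C := fun t v hv => ⟨hp _ _ hv.1, fun g hg => by
    obtain ⟨s, e⟩ := hv.2 (t⁻¹ * g * t) (by simpa using hN.conj_mem g hg t⁻¹)
    refine ⟨s, ?_⟩
    have := congrArg (ρ t) e
    rwa [map_add, map_smul, ha, ← Module.End.mul_apply, ← map_mul, ← mul_assoc, ← mul_assoc,
      mul_inv_cancel, one_mul, map_mul] at this⟩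
  have k1 : ∀ w, B w a = 0 → B b w ≠ 0 → w ∈ C := fun w hw hne => by
    obtain ⟨t, e⟩ := ht w hw
    have := C.sub_mem (Cinv t _ hbC) hbC
    rw [e, add_sub_cancel_left] at this
    exact (C.smul_mem_iff hne).1 this
  obtain ⟨f, f1, -, f3⟩ := h.exists_partner hz b.2.1 b.2.2 fun k => hb0 (Subtype.ext k.symm)
  have f4 : B b f = 1 := by rw [h.symm, f3]
  have : v ∈ C := by
    by_cases k : B b v = 0
    · have := C.sub_mem (k1 (v + f) (by simp [hv, f1]) (by simp [k, f4])) (k1 f f1 (by simp [f4]))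
      rwa [add_sub_cancel_right] at this
    · exact k1 v hv k
  exact this.2 g hg

theorem Cx.full_of_card [Finite V] (h : Cx B L) {G : Type*} [Group G] (ρ : G →* Module.End F V)
    (hi : Function.Injective ρ) (X : Subgroup G) (hL : ∀ g ∈ X, ρ g ∈ L) {a z : V} (hz : B z a = 1)
    (hX : ∀ g ∈ X, ∀ v, B v a = 0 → ∃ s : F, ρ g v = v + s • a) (ha : ∀ g ∈ X, ρ g a = a)
    (hc : Nat.card X = Nat.card (Wc B a z))
    (hT : ∀ g ∈ X, ∀ c : F, (∀ v, ρ g v = v + (c * B v a) • a) → c = 0) (b : V) (hb : B b a = 0) :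
    ∃ c, U B L a b c := by
  have key : ∀ g ∈ X, ∀ v, ρ g v = v + B v a • Cx.pr B a z (ρ g z) +
      (B v (Cx.pr B a z (ρ g z)) + B (ρ g z) z * B v a) • a := by
    intro g hg v
    have k0 : B (ρ g z) a = 1 := by rw [← ha g hg, h.iso _ (hL g hg), hz]
    have k1 := h.eq_pr a z (ρ g z)
    set c := Cx.pr B a z (ρ g z) with hc
    have c1 : B c a = 0 := h.pr_x hz _
    have c2 : B c z = 0 := h.pr_z hz _
    obtain ⟨s, e⟩ := hX g hg _ (h.pr_x hz v)
    have k2 := h.iso _ (hL g hg) (Cx.pr B a z v) z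
    rw [e, k1, k0, h.pr_z hz] at k2
    simp only [map_add, map_smul, LinearMap.add_apply, LinearMap.smul_apply, smul_eq_mul,
      h.B_pr c1 c2, h.pr_x hz, h.pr_z hz, h.symm a c, c1, h.symm a z, hz, h.alt] at k2
    have k3 : s = B v c := (h.eq_of_add (by linear_combination k2)).symm
    conv_lhs => rw [h.eq_pr a z v, map_add, map_add, map_smul, map_smul, e, ha g hg, k1, k0, k3]
    conv_rhs => arg 1; arg 1; rw [h.eq_pr a z v]
    module
  let φ : X → Wc B a z := fun g => ⟨Cx.pr B a z (ρ g z), h.pr_x hz _, h.pr_z hz _⟩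
  have hφ : Function.Injective φ := fun g g' e => by
    have e : Cx.pr B a z (ρ g z) = Cx.pr B a z (ρ g' z) := congrArg Subtype.val e
    have c1 : B (Cx.pr B a z (ρ g' z)) a = 0 := h.pr_x hz _
    have := hT _ (X.mul_mem g.2 g'.2) (B (ρ g z) z + B (ρ g' z) z) fun v => by
      rw [map_mul, Module.End.mul_apply, key _ g'.2 v, key _ g.2, e]
      simp only [map_add, map_smul, LinearMap.add_apply, LinearMap.smul_apply, smul_eq_mul,
        h.alt, c1, h.symm a (Cx.pr B a z (ρ g' z))]
      linear_combination (norm := module) (h.aa (B v a)) • Cx.pr B a z (ρ g' z) +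
        (h.aa (B v (Cx.pr B a z (ρ g' z)))) • a
    refine Subtype.ext (hi (LinearMap.ext fun v => ?_))
    rw [key _ g.2, key _ g'.2 v, e, h.eq_of_add this]
  obtain ⟨g, e⟩ := (hφ.bijective_of_nat_card_le hc.ge).2 ⟨_, h.pr_x hz b, h.pr_z hz b⟩
  have e : Cx.pr B a z (ρ g z) = Cx.pr B a z b := congrArg Subtype.val e
  refine ⟨B (ρ g z) z, h.U_of_add_self (B b z) ⟨ρ g, hL g g.2, fun v => ?_⟩⟩
  rw [key g g.2, e]
  simp [Cx.pr, hb]

end abstract

theorem rank_blocks {F : Type*} [Field F] {ι κ : Type} [Fintype ι] [DecidableEq ι] [Fintype κ]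
    [DecidableEq κ] (A : Matrix ι ι F) :
    (fromBlocks A 0 0 (0 : Matrix κ κ F)).rank = A.rank := by
  refine le_antisymm ?_ ?_
  · have : fromBlocks A 0 0 (0 : Matrix κ κ F) =
        fromRows (1 : Matrix ι ι F) (0 : Matrix κ ι F) * A *
          fromCols (1 : Matrix ι ι F) (0 : Matrix ι κ F) := by
      rw [fromRows_mul, fromRows_mul_fromCols]; simp
    rw [this]
    exact (rank_mul_le_left _ _).trans (rank_mul_le_right _ _)
  · have : A = fromCols (1 : Matrix ι ι F) (0 : Matrix ι κ F) * fromBlocks A 0 0 (0 : Matrix κ κ F) *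
        fromRows (1 : Matrix ι ι F) (0 : Matrix κ ι F) := by
      rw [fromCols_mul_fromBlocks, fromCols_mul_fromRows]; simp
    conv_lhs => rw [this]
    exact (rank_mul_le_left _ _).trans (rank_mul_le_right _ _)

open H11 in
/-- Overgroups of the Eichler maps inside the isometry group, characteristic two. -/
theorem eich_overgroup {F : Type*} [Field F] [Finite F] {ι : Type} [Fintype ι] [DecidableEq ι]
    {Q : QuadraticForm F (ι → F)} (h : ND Q) (hd : 4 ≤ Fintype.card ι)
    (hsq : ∀ t : F, ∃ s, s ^ 2 = t) {M : Subgroup (GL ι F)} (hM : M ≤ isometryGroup F Q)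
    (he : ∀ (u v : ι → F) (hu : Q u = 0) (huv : polar Q u v = 0), toGL Q (eich hu huv) ∈ M) :
    M = isometryGroup F Q ∨
      ∀ g : GL ι F, g ∈ M ↔ g ∈ isometryGroup F Q ∧ Even ((g : Matrix ι ι F) - 1).rank := by
  have hn := H28.qSum_nondeg h.nondegenerate h.nondegenerate
  have hok : H28.EichOK (H28.qSum Q Q) := Or.inr (Or.inl (by rw [Fintype.card_sum]; omega))
  let ψ : OG Q →* H28.O Q := (isoOG Q Q fun _ => rfl).symm.toMonoidHom
  have hψ : ∀ g x, H28.rho Q (ψ g) x = ap g x := fun g x => toGL_mulVec g x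
  let χ : OG Q →* ℤˣ := (H28.dickson hn hok).comp
    ((H28.sumHom Q Q).comp ((MonoidHom.inl _ _).comp ψ))
  have c1 : ∀ g, χ g = (-1) ^ ((toGL Q g : Matrix ι ι F) - 1).rank := fun g => by
    change H28.dickson hn hok (H28.sumHom Q Q (ψ g, 1)) = _
    have : H28.mat (H28.sumHom Q Q (ψ g, 1)) - 1 =
        fromBlocks ((toGL Q g : Matrix ι ι F) - 1) 0 0 0 := by
      rw [H28.mat_sumHom, ← fromBlocks_one, H28.mat_one]
      ext (i | i) (j | j) <;> simp [Matrix.one_apply]
      rfl
    rw [H29.dickson_eq_rank hn, this, rank_blocks]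
  have c2 : EG Q ≤ χ.ker := EG_le fun u v hu huv => by
    change H28.dickson hn hok (H28.sumHom Q Q (ψ _, 1)) = 1
    have a1 : H28.qSum Q Q (Sum.elim u 0) = 0 := by simp [H28.qSum_apply, hu]
    have a2 : polar (H28.qSum Q Q) (Sum.elim u 0) (Sum.elim v 0) = 0 := by
      simp [H28.polar_qSum, huv]
    have : H28.sumHom Q Q (ψ (eich hu huv), 1) = H28.eich _ _ _ a1 a2 := H28.O_ext fun x => by
      rw [H28.rho_sumHom, hψ, ap_eich, H28.rho_eich, H28.polar_qSum, H28.polar_qSum,
        H28.qSum_apply]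
      funext k
      rcases k with k | k <;> simp [polar_comm Q u, polar_comm Q v]
      ring
    rw [this]
    exact ((H28.mem_omega_iff hn hok _).1 (H28.eich_mem_omega hn hok a1 a2)).1
  have hd' : 4 ≤ Module.finrank F (ι → F) := by rwa [fr_eq]
  obtain ⟨r, hr⟩ := h.represents (by omega) 1
  have hr0 : Q r ≠ 0 := by simp [hr]
  have c3 : χ (refl Q r) = -1 := by
    change H28.dickson hn hok (H28.sumHom Q Q (ψ _, 1)) = _
    have : ψ (refl Q r) = H28.refl Q r := H28.O_ext fun x => by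
      rw [hψ, ap_refl, H28.rho_refl, polar_comm]
    rw [this, H28.sumHom_refl_left, H28.dickson_refl]
    simp [H28.qSum_apply, hr]
  have := EG_normal (Q := Q)
  let π := QuotientGroup.mk' (EG Q)
  have hπ : ∀ g, π g = 1 ↔ g ∈ EG Q := fun g => QuotientGroup.eq_one_iff g
  have c4 : ∀ g, g ∈ EG Q ∨ refl Q r * g ∈ EG Q := by
    have hr2 : π (refl Q r) * π (refl Q r) = 1 := by rw [← map_mul, refl_mul_self, map_one]
    let S : Subgroup (OG Q) :=
      { carrier := {g | π g = 1 ∨ π g = π (refl Q r)}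
        mul_mem' := by
          rintro a b (ha | ha) (hb | hb) <;> simp [ha, hb, hr2]
        one_mem' := Or.inl (map_one _)
        inv_mem' := by
          rintro a (ha | ha)
          · left; rw [map_inv, ha, inv_one]
          · right; rw [map_inv, ha, ← map_inv, refl_inv] }
    have hS : S = ⊤ := h.eq_top_of_refl_eich (fun v => by
      by_cases hv : Q v = 0
      · left; rw [refl_of_eq_zero hv, map_one]
      · right
        obtain ⟨s, hs⟩ := hsq (Q v)
        have hs0 : s ≠ 0 := by rintro rfl; exact hv (by simpa using hs.symm)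
        obtain ⟨g, hg, e⟩ := h.EG_trans hd' (x := s • r) (y := v)
          (smul_ne_zero hs0 (by rintro rfl; simp at hr0)) (by rintro rfl; simp at hv)
          (by rw [Q_smul, hr, ← hs, mul_one, pow_two])
        rw [← e, ← conj_refl, map_mul, map_mul, map_inv, (hπ g).2 hg, refl_smul hs0]; simp)
      fun u v hu huv => Or.inl ((hπ _).2 (eich_mem_EG hu huv))
    intro g
    rcases (hS ▸ Subgroup.mem_top g : g ∈ S) with k | k
    · exact Or.inl ((hπ g).1 k)
    · exact Or.inr ((hπ _).1 (by rw [map_mul, k, hr2]))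
  have hE : EG Q ≤ M.comap (toGL Q) := EG_le he
  by_cases hrM : toGL Q (refl Q r) ∈ M
  · refine Or.inl (le_antisymm hM fun g hg => ?_)
    obtain ⟨g, rfl⟩ := exists_toGL hg
    rcases c4 g with k | k
    · exact hE k
    · have := hE k
      rw [Subgroup.mem_comap, map_mul] at this
      exact (M.mul_mem_cancel_left hrM).1 this
  refine Or.inr fun g => ⟨fun hg => ⟨hM hg, ?_⟩, fun ⟨hg, hev⟩ => ?_⟩
  · obtain ⟨g, rfl⟩ := exists_toGL (hM hg)
    rcases c4 g with k | k
    · have := c2 k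
      rwa [MonoidHom.mem_ker, c1, H28.neg_one_pow_units_eq_one] at this
    · have := hE k
      rw [Subgroup.mem_comap, map_mul] at this
      exact absurd ((M.mul_mem_cancel_right hg).1 this) hrM
  · obtain ⟨g, rfl⟩ := exists_toGL hg
    rcases c4 g with k | k
    · exact hE k
    · have := c2 k
      rw [MonoidHom.mem_ker, map_mul, c3, c1, hev.neg_one_pow] at this
      exact absurd this (by decide)

theorem sub_perm_six (H : Subgroup (Equiv.Perm (Fin 6))) (h : 120 ≤ Nat.card H) :
    H = ⊤ ∨ H = alternatingGroup (Fin 6) ∨ Nonempty (H ≃* Equiv.Perm (Fin 5)) := by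
  classical
  have h1 := H.card_mul_index
  rw [Nat.card_perm, Nat.card_fin, show Nat.factorial 6 = 720 from rfl] at h1
  have h2 : H.index ≤ 6 := by
    by_contra hc
    have := Nat.mul_le_mul h (not_le.1 hc)
    omega
  by_cases h6 : H.index = 6
  · obtain ⟨φ, hφ⟩ := H99.exists_coset_equiv (α := Fin 6) (by simp) H (by simpa using h6)
    have e := H99.map_symm_stabilizer φ hφ ((1 : Equiv.Perm (Fin 6)) : Equiv.Perm (Fin 6) ⧸ H)
    rw [MulAction.stabilizer_quotient] at e
    obtain ⟨f⟩ := H99.stabilizer_equiv_perm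
      ((1 : Equiv.Perm (Fin 6)) : Equiv.Perm (Fin 6) ⧸ H) (m := 5)
      (by rw [← Nat.card_eq_fintype_card, ← Subgroup.index_eq_card, h6])
    exact Or.inr (Or.inr ⟨((MulEquiv.subgroupCongr e.symm).trans (φ.symm.subgroupMap _).symm).trans f⟩)
  have hle : alternatingGroup (Fin 6) ≤ H := by
    refine (Equiv.Perm.alternatingGroup_le_of_normal (by simp) ((Subgroup.nontrivial_iff_ne_bot _).2
      fun hb => ?_)).trans H.normalCore_le
    rw [Subgroup.normalCore_eq_ker, MonoidHom.ker_eq_bot_iff] at hb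
    have := Nat.card_le_card_of_injective _ hb
    rw [Nat.card_perm, Nat.card_perm, ← Subgroup.index_eq_card, Nat.card_fin] at this
    exact absurd (this.trans (Nat.factorial_le (show H.index ≤ 5 by omega))) (by decide)
  have hd := Subgroup.index_dvd_of_le hle
  rw [alternatingGroup.index_eq_two, Nat.dvd_prime Nat.prime_two] at hd
  rcases hd with k | k
  · exact Or.inl (Subgroup.index_eq_one.1 k)
  · exact Or.inr (Or.inl (Equiv.Perm.eq_alternatingGroup_of_index_eq_two k))

end Cfsg.Agent.H27.TT
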